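import Cfsg.Agent.W3.F7
import Cfsg.Agent.Char.NormThree
import Cfsg.Agent.Block.Principal
import Cfsg.Agent.PLocal.ParChar

/-!
Characteristic 3 type, and the degrees in the principal `p`-block.
-/

set_option autoImplicit false
set_option linter.unusedSectionVars false
set_option linter.style.haveILetI false

namespace Cfsg.Agent.W3

open Cfsg Subgroup Cfsg.Agent.PLocal.Amb
open Cfsg.Agent.PLocal.CP (IsCharP)
open Cfsg.Agent.Char Cfsg.Agent.Char.Euclid Cfsg.Agent.Block Cfsg.Agent.Math Cfsg.Agent.K3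
open scoped ComplexConjugate

universe u

variable {G : Type u} [Group G] [Finite G] {p a b : ℕ}

/-- As `Char.Euclid.apply_eq_zero_of_not_mem_principal` (file `Char/NormThree`), but at `x y` with `x ≠ 1`
the `q`-part and `y` the `q'`-part of `g`: `C(x)` has characteristic `q` (`isCharP_normalizer_iff`), so only
one block (`principalBlock_eq_univ`), and `Block.blockPart_indSet_section_of_notMem` at `y`. -/
theorem vanish_of_not_mem {q : ℕ} [Fact q.Prime] {M : Ideal AlgInt} (hM : IsPModular q M)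
    (hc : ∀ B : Subgroup G, IsPGroup q B → B ≠ ⊥ → IsCharP q 𝐍[B]) {χ : IrrCharacter G}
    (hχ : χ ∉ principalBlock M G) {g : G} (hg : q ∣ orderOf g) : χ.1 g = 0 := by
  have hx := orderOf_pPart q g
  have h0 : IsPGroup q (zpowers (pPart q g)) :=
    isPGroup_zpowers (hx.imp fun k hk => by rw [← hk, pow_orderOf_eq_one])
  have h1 := (PLocal.CP.isCharP_normalizer_iff h0).1 (hc _ h0 (by simpa using pPart_ne_one_iff.2 hg))
  rw [centralizer_zpowers, PLocal.CP.isCharP_iff] at h1
  have hu := principalBlock_eq_univ hM _ (Grp.pCore_isPGroup q _) h1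
  have h4 := Block.blockPart_indSet_section_of_notMem hM hx hχ
    (y := ⟨pReg q g, mem_centralizer_singleton_iff.2 (commute_pPart_pReg q g).symm⟩)
    (by rw [← orderOf_coe]; exact not_dvd_orderOf_pReg q g)
  have h5 := Block.blockPart_add_compl (Block.isClassFunction_section χ.2.isClassFunction (pPart q g))
    Set.univ ⟨pReg q g, mem_centralizer_singleton_iff.2 (commute_pPart_pReg q g).symm⟩
  rw [Block.indSet_principal hM hx, hu] at h4
  rw [h4, Set.compl_univ] at h5
  simpa [blockPart, pPart_mul_pReg] using h5.symm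

theorem Base.smooth (h : Base G p a b) {n : ℕ} (hn : n ∣ Nat.card G) (hp : ¬ p ∣ n) :
    ∃ α ≤ b, ∃ β ≤ a, n = 2 ^ α * 3 ^ β := by
  rw [h.card, mul_assoc] at hn
  obtain ⟨u, v, hu, hv, rfl⟩ := exists_dvd_and_dvd_of_dvd_mul
    ((h.pp.coprime_iff_not_dvd.2 hp).symm.dvd_of_dvd_mul_left hn)
  obtain ⟨β, h1, rfl⟩ := (Nat.dvd_prime_pow Nat.prime_three).1 hu
  obtain ⟨α, h2, rfl⟩ := (Nat.dvd_prime_pow Nat.prime_two).1 hv
  exact ⟨α, h2, β, h1, mul_comm _ _⟩

theorem Base.d2 (h : Base G p a b) : 2 ^ b ∣ Nat.card G := h.card ▸ Dvd.intro_left _ rfl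

theorem Base.d3 (h : Base G p a b) : 3 ^ a ∣ Nat.card G := h.card ▸ (Dvd.intro_left _ rfl).mul_right _

theorem Base.exists_A [IsSimpleGroup G] (h : Base G p a b) {N : Ideal AlgInt} (hN : IsPModular 3 N) :
    ∃ A : IrrCharacter G, A ≠ irrOne G ∧ A ∈ principalBlock N G ∧ ¬ 3 ∣ dg A ∧ ¬ p ∣ dg A := by
  classical
  haveI := Fact.mk h.pp
  have p3 : p ≠ 2 ∧ ¬ 3 ∣ p ∧ p - 1 ≠ 0 := by rcases h.p3 with rfl | rfl | rfl <;> omega
  obtain ⟨x, ⟨D⟩⟩ := exists_BD h.nc p (by rw [h.card, mul_assoc]; exact dvd_mul_right _ _) h.nsq p3.1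
  obtain ⟨θ, hθ⟩ : D.Y.Nonempty := Finset.card_ne_zero.1 fun e => p3.2.2 (by rw [← D.cardY, e, zero_mul])
  by_contra! k
  let f : IrrCharacter G → ℤ := fun χ => if χ ∈ principalBlock N G then dg χ else 0
  have f1 : ∀ χ : IrrCharacter G, blockPart (principalBlock N G) χ.1 1 = f χ := fun χ => by
    simp only [f]
    split_ifs with c
    · rw [blockPart_irr_of_mem c, ← dg_cast, Int.cast_natCast]
    · rw [blockPart_irr_of_notMem c]; simp
  have f3 : ∀ χ ∈ D.blk, χ ≠ irrOne G → 3 ∣ f χ := fun χ h1 h2 => by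
    simp only [f]
    split_ifs with c
    · exact Int.natCast_dvd_natCast.2 (by_contra fun e => D.not_dvd_dg h1 (k χ h2 c e))
    · exact dvd_zero _
  have h1 := pow_dvd_of_vanish Nat.prime_three (k := 1) ((pow_dvd_pow 3 (Nat.pos_of_ne_zero h.a0)).trans h.d3)
    (isGen_blockPart_of (principalBlock N G) ((isGen_sum D.X _ fun χ _ => χ.2.isGen.intCast_smul (D.ε χ)).sub
      (θ.2.isGen.intCast_smul D.δ))) (fun g hg => part_zero hN (fun g hg => by
        have := D.rel θ hθ g fun e => p3.2.1 (Grp.SelfCent.orderOf_eq_of_dvd D.ox (h.cent x D.ox) e ▸ hg)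
        simp only [Pi.sub_apply, Finset.sum_apply, Pi.smul_apply, smul_eq_mul, this, sub_self]) hg)
    (d := ∑ χ ∈ D.X, D.ε χ * f χ - D.δ * f θ) (by
      simp only [blockPart_sub, blockPart_sum, blockPart_smul, Pi.sub_apply, Finset.sum_apply, Pi.smul_apply,
        smul_eq_mul, f1]
      push_cast
      rfl)
  have h2 : f (irrOne G) = 1 := by simp only [f, if_pos (Block.irrOne_mem_principal hN), dg_irrOne, Nat.cast_one]
  have h3 := Finset.dvd_sum (s := D.X.erase (irrOne G)) fun χ hχ => (f3 χ (D.mem_blk.2 (.inl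
    (Finset.mem_of_mem_erase hχ))) (Finset.ne_of_mem_erase hχ)).mul_left (D.ε χ)
  have h4 := (f3 θ (D.mem_blk.2 (.inr hθ)) fun e => Finset.disjoint_left.1 D.disj D.h1 (e ▸ hθ)).mul_left D.δ
  rw [← Finset.add_sum_erase _ _ D.h1, D.ε_one, h2] at h1
  omega

/-- `D : BD p x` (`exists_BD`), `θ ∈ D.Y`, `Θ = Σ_{χ ∈ X} ε χ - δ θ` vanishes on the `p`-regular elements
(`D.rel`), so on the 3-singular ones (`Base.eq_one`); by `K3.part_zero`, `K3.pow_dvd_of_vanish` its
`B₀(3)`-part has degree divisible by 3, so some `A ≠ 1` among `X ∪ {θ}` lies in `B₀(3)` and has degree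
prime to 3 and `p` (`BD.not_dvd_dg`), so a power of 2, so `A ∉ B₀(2)` (`Small.not_pow_of_principal`) and
`A` vanishes on the 2-singular elements. Let `y` have order 3. `A y ≠ 0` (`A y ≡ A 1` modulo a prime over
3). For `v ∈ O_{3'}(C(y))`, `A (y v) = A y` (`Block.apply_mul_eq_of_mem_principal`); `C(y)` is a
`{2,3}`-group (`not_dvd_cent`), so `v ≠ 1` would make `y v` 2-singular. So `O_{3'}(C(y)) = 1`, `C(y)` is solvable
(`Base.solv`), so of characteristic 3; finish with `PLocal.localChar_of_centralizer`. -/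
theorem Base.c3 [IsSimpleGroup G] (h : Base G p a b) (B : Subgroup G) (hB : IsPGroup 3 B)
    (h1 : B ≠ ⊥) : IsCharP 3 𝐍[B] := by
  obtain ⟨M, hM⟩ := exists_isPModular Nat.prime_two
  obtain ⟨N, hN⟩ := exists_isPModular Nat.prime_three
  obtain ⟨A, a1, a2, a3, a4⟩ := h.exists_A hN
  obtain ⟨α, -, β, -, e⟩ := h.smooth (dg_dvd A) a4
  obtain rfl : β = 0 := by_contra fun c => a3 (e ▸ (dvd_pow_self 3 c).mul_left _)
  have a5 : A ∉ principalBlock M G := fun c =>
    Small.not_pow_of_principal h.nc hM c a1 (k := α) (by rw [← dg_cast, e]; simp)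
  obtain ⟨S, hS⟩ := exists_isSyl 3 (⊤ : Subgroup G)
  refine PLocal.CP.isCharP_iff.2 ((PLocal.WC.localChar_of_centralizer ((dvd_pow_self 3 h.a0).trans h.d3) hS
    fun y _ hy => ?_).2 B hB h1)
  have y1 : y ≠ 1 := by rintro rfl; simp at hy
  have nd := h.not_dvd_cent y1 (by rw [hy]; rcases h.p3 with rfl | rfl | rfl <;> omega)
  haveI := h.solv nd
  refine PLocal.CP.isCharP_iff.2 (Grp.centralizer_pCore_le (eq_bot_iff.2 fun v hv => by_contra fun v1 => ?_))
  have c1 := apply_mul_eq_of_mem_principal hN ⟨1, by rw [hy, pow_one]⟩ a2 _ (Grp.not_dvd_card_pPrimeCore 3 _)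
    (y := 1) (by simp) hv
  have c2 := Grp.orderOf_coprime_of_mem_pPrimeCore hv
  obtain ⟨r, hr, hd⟩ := Nat.exists_prime_and_dvd (n := orderOf v) (by simpa using v1)
  have c3 := hd.trans (orderOf_dvd_natCard v)
  obtain rfl : r = 2 := by
    rcases h.primes hr (c3.trans (card_subgroup_dvd_card _)) with c | rfl | rfl
    · exact c
    · exact absurd hd (Nat.prime_three.coprime_iff_not_dvd.1 c2.symm)
    · exact absurd c3 nd
  simp only [OneMemClass.coe_one, one_mul, mul_one] at c1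
  rw [vanish_of_not_mem hM h.c2 a5 (by
    rw [Commute.orderOf_mul_eq_mul_orderOf_of_coprime (mem_centralizer_singleton_iff.1 v.2).symm
      (by rw [hy, orderOf_coe]; exact c2.symm), orderOf_coe]
    exact hd.mul_left _)] at c1
  have := dvd_sub_of_pow A.2.isCharacter Nat.prime_three (a := 0) (b := dg A) (by rw [← c1]; simp)
    (by rw [← hy, pow_orderOf_eq_one, ← dg_cast]; simp)
  omega

/-- The degree `2 ^ i 3 ^ j` of `χ ≠ 1` of degree prime to 7 (cf. `K3.smooth`, `K3.Hyp.row`):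
`χ(1) ^ 2 < |G|`; if `χ ∉ B₀(2)` it vanishes on the 2-singular elements and `2 ^ b ∣ χ(1)`
(`pow_dvd_of_vanish`), so `i = b`; if `χ ∈ B₀(2)` then `j ≥ 1` (`Small.not_pow_of_principal`) and
`i < max (b - 1) 1` (`Small.not_dvd_deg_of_principal`). The same for 3. -/
theorem Loc.al [IsSimpleGroup G] (h : Loc G 7 a b) (hb : 2 ≤ b) {χ : IrrCharacter G}
    (h1 : χ ≠ irrOne G) (h7 : ¬ 7 ∣ dg χ) {d : ℤ} (hd : d = dg χ ∨ d = -dg χ) : Al a b d := by
  obtain ⟨M, hM⟩ := exists_isPModular Nat.prime_two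
  obtain ⟨N, hN⟩ := exists_isPModular Nat.prime_three
  obtain ⟨i, hi, j, hj, e⟩ := h.toBase.smooth (dg_dvd χ) h7
  have f : (Nat.card G).factorization 2 = b ∧ (Nat.card G).factorization 3 = a := by
    rw [h.card, Nat.factorization_mul (by positivity) (by positivity),
      Nat.factorization_mul (by positivity) (by positivity)]
    simp [Nat.prime_two, Nat.prime_three, Nat.Prime.factorization (show Nat.Prime 7 by norm_num)]
  have h0 : χ.1 1 = (dg χ : ℤ) := by rw [← dg_cast, Int.cast_natCast]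
  refine ⟨i, j, by rw [e] at hd; exact_mod_cast hd, ?_, ?_, ?_⟩
  · have h2 : dg χ * dg χ ≤ Nat.card G := by
      rw [← sum_rows_deg (1 : G)]
      exact Multiset.single_le_sum (fun _ _ => Nat.zero_le _) _
        (Multiset.mem_map_of_mem (fun r : ℕ × ℤ => r.1 * r.1) (row_mem 1 χ))
    have h3 := h2.lt_of_ne fun c => h7 (fact7.out.dvd_mul.1 (by
      rw [c, h.card, mul_assoc]; exact dvd_mul_right _ _) |>.elim id id)
    rw [h.card, ← sq] at h3
    rcases hd with rfl | rfl
    · exact_mod_cast h3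
    · rw [neg_sq]; exact_mod_cast h3
  · by_cases c : χ ∈ principalBlock M G
    · have h4 := Small.not_dvd_deg_of_principal hM ((dvd_pow_self 2 h.b0).trans h.toBase.d2) c
      rw [f.1] at h4
      refine .inr ⟨Nat.pos_of_ne_zero ?_, by_contra fun k =>
        h4 ((pow_dvd_pow 2 (by omega)).trans (Dvd.intro _ e.symm))⟩
      rintro rfl
      exact Small.not_pow_of_principal h.nc hM c h1 (k := i) (by rw [← dg_cast, e]; simp)
    · have h4 := Int.natCast_dvd_natCast.1 (Nat.cast_pow (α := ℤ) 2 b ▸ pow_dvd_of_vanish Nat.prime_two h.toBase.d2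
        χ.2.isGen (fun g => vanish_of_not_mem hM h.c2 c) h0)
      rw [e] at h4
      exact .inl (hi.antisymm ((Nat.pow_dvd_pow_iff_le_right one_lt_two).1
        ((Nat.Coprime.pow _ _ (by norm_num)).dvd_of_dvd_mul_right h4)))
  · by_cases c : χ ∈ principalBlock N G
    · have h4 := Small.not_dvd_deg_of_principal hN ((dvd_pow_self 3 h.a0).trans h.toBase.d3) c
      rw [f.2] at h4
      refine .inr ⟨Nat.pos_of_ne_zero ?_, by_contra fun k =>
        h4 ((pow_dvd_pow 3 (by omega)).trans (Dvd.intro_left _ e.symm))⟩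
      rintro rfl
      exact Small.not_pow_of_principal h.nc hN c h1 (k := j) (by rw [← dg_cast, e]; simp)
    · have h4 := Int.natCast_dvd_natCast.1 (Nat.cast_pow (α := ℤ) 3 a ▸ pow_dvd_of_vanish Nat.prime_three h.toBase.d3
        χ.2.isGen (fun g => vanish_of_not_mem hN h.c3 c) h0)
      rw [e] at h4
      exact .inl (hj.antisymm ((Nat.pow_dvd_pow_iff_le_right (by norm_num)).1
        ((Nat.Coprime.pow _ _ (by norm_num)).dvd_of_dvd_mul_left h4)))

end Cfsg.Agent.W3
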