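import Mathlib
import Cfsg.Prelude.Def_Classical
import Cfsg.Prelude.Def_Local
import Cfsg.Prelude.Def_ClassificationK
import Cfsg.Agent.PLocal.JCompBase
import Cfsg.Agent.PLocal.CharP
import Cfsg.Agent.PLocal.Thompson
import Cfsg.Agent.Grp.ConjCount
import Cfsg.Agent.Grp.Card
import Cfsg.Agent.Inv.Basic
import Cfsg.Agent.S0144

/-!
Simple groups of order `p · 3 ^ a · 2 ^ b`, `p = 7, 13, 17`: standing hypotheses and basic tools.
-/

set_option autoImplicit false
set_option linter.unusedSectionVars false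
set_option linter.style.haveILetI false

namespace Cfsg.Agent.W3

open Cfsg Subgroup Cfsg.Agent.PLocal.Amb
open Cfsg.Agent.PLocal (maxEA)
open Cfsg.Agent.PLocal.CP (IsCharP)
open scoped Cfsg.Agent.PLocal.CP Cfsg.Agent.PLocal.JC

universe u

/-- the list of the theorem -/
def Lst (G : Type*) [Group G] : Prop :=
  Nonempty (G ≃* alternatingGroup (Fin 5)) ∨ Nonempty (G ≃* alternatingGroup (Fin 6)) ∨
  (∃ (F : Type) (_ : Field F) (_ : Fintype F), Fintype.card F = 3 ∧ Nonempty (G ≃* Cfsg.PSp 2 F)) ∨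
  (∃ (F : Type) (_ : Field F) (_ : Fintype F),
    (Fintype.card F = 7 ∨ Fintype.card F = 8 ∨ Fintype.card F = 17) ∧
      Nonempty (G ≃* Matrix.ProjectiveSpecialLinearGroup (Fin 2) F)) ∨
  (∃ (F : Type) (_ : Field F) (_ : Fintype F), Fintype.card F = 9 ∧
    Nonempty (G ≃* Cfsg.PSU 3 F 3)) ∨
  (∃ (F : Type) (_ : Field F) (_ : Fintype F), Fintype.card F = 3 ∧
    Nonempty (G ≃* Matrix.ProjectiveSpecialLinearGroup (Fin 3) F))

/-- what is used about the proper simple sections -/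
def Ord (X : Type*) [Group X] : Prop :=
  Nat.card X = 168 ∨ Nat.card X = 6048 ∨ Nat.card X = 5616 ∨ Nat.card X = 2448 ∨
    (Nat.card X = 504 ∧ ∀ S : Sylow 2 X, 7 ∣ Nat.card 𝐍[(S : Subgroup X)])

/-- order `p · 3 ^ a · 2 ^ b`, self-centralizing Sylow `p`-subgroups, characteristic 2 type -/
structure Base (G : Type u) [Group G] (p a b : ℕ) : Prop where
  nc : ¬ IsMulCommutative G
  p3 : p = 7 ∨ p = 13 ∨ p = 17
  card : Nat.card G = p * 3 ^ a * 2 ^ b
  a0 : a ≠ 0
  b0 : b ≠ 0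
  cent : ∀ x : G, orderOf x = p → centralizer ({x} : Set G) = zpowers x
  c2 : ∀ B : Subgroup G, IsPGroup 2 B → B ≠ ⊥ → IsCharP 2 𝐍[B]

/-- moreover characteristic 3 type, 2-locals of 3-rank at most 2, known proper sections -/
structure Loc (G : Type u) [Group G] (p a b : ℕ) : Prop extends Base G p a b where
  c3 : ∀ B : Subgroup G, IsPGroup 3 B → B ≠ ⊥ → IsCharP 3 𝐍[B]
  r3 : TwoLocalPRankLE 3 2 G
  ih : ∀ (X : Type u) [Group X] [Finite X] [IsSimpleGroup X], ¬ IsMulCommutative X →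
    Nat.card X ∣ Nat.card G → Nat.card X < Nat.card G → Ord X

variable {G : Type u} [Group G]

/-- a subgroup of characteristic 2 with nontrivial 2-core -/
structure Tl (H : Subgroup G) : Prop where
  ch : IsCharP 2 H
  ne : 𝐐[H] ≠ ⊥

/-- an overgroup of `T` with nontrivial 2-core -/
structure Par (T H : Subgroup G) : Prop where
  le : T ≤ H
  ne : 𝐐[H] ≠ ⊥

/-- `H` contains no elementary abelian subgroup of order 9 -/
def NoNine (H : Subgroup G) : Prop :=
  ∀ E : Subgroup G, E ≤ H → IsElementaryAbelian 3 E → Nat.card E ≠ 9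

/-- `H` contains a Frobenius group `p : 3` -/
def Kap (p : ℕ) (H : Subgroup G) : Prop :=
  ∃ g ∈ H, ∃ k ∈ H, orderOf g = p ∧ orderOf k = 3 ∧ k ∈ 𝐍[zpowers g]

/-- every 2-element of `H - O₂(H)` generates with a conjugate a group containing an element of
order 7; stated through the consequence that is used -/
def Sq (H : Subgroup G) : Prop :=
  ∀ t ∈ H, IsPGroup 2 (zpowers t) → t ∉ 𝐐[H] → ∀ A : Subgroup G, IsPGroup 2 A → H ≤ 𝐍[A] →
    Nat.card A ≤ (centralizer ({t} : Set G)).relIndex A ^ 2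

/-- the situation of the bound on `b` for `p = 7` -/
structure Big (a b : ℕ) (T : Subgroup G) : Prop extends Loc G 7 a b where
  syl : IsSyl 2 T ⊤
  top : charCore T = ⊤
  big : 86 < b

instance fact2 : Fact (Nat.Prime 2) := ⟨Nat.prime_two⟩
instance fact3 : Fact (Nat.Prime 3) := ⟨Nat.prime_three⟩
instance fact7 : Fact (Nat.Prime 7) := ⟨by norm_num⟩

variable [Finite G] {p a b : ℕ}

/-- an involution inverting an element of odd order -/
theorem cent_inf_le {t w : G} (ht : t * t = 1) (hw : Odd (orderOf w)) (h : t * w * t⁻¹ = w⁻¹) :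
    centralizer ({t} : Set G) ⊓ centralizer ({w * t * w⁻¹} : Set G) ≤ centralizer ({w} : Set G) := by
  intro x hx
  have h1 : Commute x t := mem_centralizer_singleton_iff.1 hx.1
  have h2 : Commute x (w * t * w⁻¹) := mem_centralizer_singleton_iff.1 hx.2
  have h3 : w * t * w⁻¹ * t = w ^ 2 := by
    have ti : t⁻¹ = t := inv_eq_of_mul_eq_one_right ht
    have : t * w⁻¹ * t = w := by
      calc t * w⁻¹ * t = (t * w * t⁻¹)⁻¹ := by rw [ti]; simp [mul_assoc, ti]
        _ = w := by rw [h, inv_inv]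
    rw [sq]
    calc w * t * w⁻¹ * t = w * (t * w⁻¹ * t) := by group
      _ = _ := by rw [this]
  have h4 : Commute x (w ^ 2) := h3 ▸ h2.mul_right h1
  obtain ⟨k, hk⟩ := hw
  have h5 : (w ^ 2) ^ (k + 1) = w := by
    rw [← pow_mul, show 2 * (k + 1) = orderOf w + 1 by omega, pow_succ, pow_orderOf_eq_one, one_mul]
  exact mem_centralizer_singleton_iff.2 (h5 ▸ h4.pow_right (k + 1))

theorem relIndex_cent_cj {A : Subgroup G} {g : G} (hg : g ∈ 𝐍[A]) (t : G) :
    (centralizer ({g * t * g⁻¹} : Set G)).relIndex A = (centralizer ({t} : Set G)).relIndex A := by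
  have h : centralizer ({g * t * g⁻¹} : Set G) = cj(g, centralizer ({t} : Set G)) := by
    ext x
    rw [mem_cj, mem_centralizer_singleton_iff, mem_centralizer_singleton_iff]
    constructor
    · intro h
      calc g⁻¹ * x * g * t = g⁻¹ * (x * (g * t * g⁻¹)) * g := by group
        _ = _ := by rw [h]; group
    · intro h
      calc x * (g * t * g⁻¹) = g * (g⁻¹ * x * g * t) * g⁻¹ := by group
        _ = _ := by rw [h]; group
  rw [h]
  conv_lhs => rw [← cj_of_mem_normalizer hg]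
  exact relIndex_map_map_of_injective _ _ (MulAut.conj g).injective

/-- two conjugate elements: the index of the common centralizer -/
theorem relIndex_le_sq {A K : Subgroup G} {g t : G} (hg : g ∈ 𝐍[A])
    (h : centralizer ({t} : Set G) ⊓ centralizer ({g * t * g⁻¹} : Set G) ≤ K) :
    K.relIndex A ≤ (centralizer ({t} : Set G)).relIndex A ^ 2 := by
  refine (relIndex_le_of_le_left h (index_ne_zero_of_finite)).trans (relIndex_inf_le.trans ?_)
  rw [relIndex_cent_cj hg, sq]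

/-- `|A : C_A(w)| ≤ |A : C_A(t)| ^ 2` if the involution `t` inverts `w` of odd order -/
theorem relIndex_le_sq_of_inv {A : Subgroup G} {t w : G} (ht : t * t = 1) (hw : Odd (orderOf w))
    (h : t * w * t⁻¹ = w⁻¹) (hA : w ∈ 𝐍[A]) :
    (centralizer ({w} : Set G)).relIndex A ≤ (centralizer ({t} : Set G)).relIndex A ^ 2 :=
  relIndex_le_sq hA (cent_inf_le ht hw h)

/-- the failure of factorization inequality -/
theorem ff {T R A V : Subgroup G} (hA : A ∈ maxEA 2 T) (hR : R ≤ T) (hV : V ≤ ΩZ[2, R]) :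
    A.relIndex V ≤ R.relIndex A := by
  have eV : IsElementaryAbelian 2 V := PLocal.isEA_mono (PLocal.CP.omegaZ_isEA R) hV
  have c : V ≤ 𝐂[A ⊓ R] :=
    (hV.trans (PLocal.CP.omegaZ_le_centralizer R)).trans (centralizer_anti inf_le_right)
  have e : IsElementaryAbelian 2 (A ⊓ R ⊔ V : Subgroup G) :=
    PLocal.isEA_sup (PLocal.isEA_mono hA.2.1 inf_le_left) eV (le_centralizer_iff.1 c)
  have h1 := hA.2.2 _ (sup_le (inf_le_right.trans hR) ((hV.trans (PLocal.CP.omegaZ_le R)).trans hR)) e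
  have h2 := PLocal.card_sup_mul_card_inf ((le_centralizer_iff.1 c).trans (centralizer_le_normalizer _))
  have h3 := Grp.card_inf_mul_relIndex' R A
  have h4 := Grp.card_inf_mul_relIndex' A V
  rw [inf_comm] at h3 h4
  have h5 : Nat.card ↥(A ⊓ R ⊓ V) ≤ Nat.card ↥(V ⊓ A) :=
    card_le_of_le (le_inf inf_le_right (inf_le_left.trans inf_le_left))
  have p1 : 0 < Nat.card ↥(A ⊓ R) := Nat.card_pos
  have p2 : 0 < Nat.card ↥(V ⊓ A) := Nat.card_pos
  refine Nat.le_of_mul_le_mul_left (c := Nat.card ↥(A ⊓ R) * Nat.card ↥(V ⊓ A)) ?_ (by positivity)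
  calc _ = Nat.card ↥(A ⊓ R) * Nat.card V := by rw [mul_assoc, h4]
    _ ≤ Nat.card A * Nat.card ↥(V ⊓ A) := h2 ▸ Nat.mul_le_mul h1 h5
    _ = _ := by rw [← h3]; ring

namespace Base

variable (h : Base G p a b)
include h

theorem pp : p.Prime := by rcases h.p3 with rfl | rfl | rfl <;> norm_num

theorem primes {r : ℕ} (hr : r.Prime) (hd : r ∣ Nat.card G) : r = 2 ∨ r = 3 ∨ r = p := by
  rw [h.card] at hd
  rcases (Nat.Prime.dvd_mul hr).1 hd with e | e
  · rcases (Nat.Prime.dvd_mul hr).1 e with e | e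
    · exact .inr (.inr ((Nat.prime_dvd_prime_iff_eq hr h.pp).1 e))
    · exact .inr (.inl ((Nat.prime_dvd_prime_iff_eq hr Nat.prime_three).1 (hr.dvd_of_dvd_pow e)))
  · exact .inl ((Nat.prime_dvd_prime_iff_eq hr Nat.prime_two).1 (hr.dvd_of_dvd_pow e))

theorem nsq : ¬ p ^ 2 ∣ Nat.card G := fun e => by
  have hp := h.pp
  rw [h.card, mul_assoc, sq] at e
  rcases (Nat.Prime.dvd_mul hp).1 (Nat.dvd_of_mul_dvd_mul_left hp.pos e) with e | e <;>
    have := hp.dvd_of_dvd_pow e <;> rcases h.p3 with rfl | rfl | rfl <;> omega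

/-- subgroups of order prime to `p` are solvable -/
theorem solv {H : Subgroup G} (hH : ¬ p ∣ Nat.card H) : Group.IsSolvable H := by
  have h1 := card_subgroup_dvd_card H
  rw [h.card, mul_assoc] at h1
  obtain ⟨u, v, hu, hv, e⟩ := exists_dvd_and_dvd_of_dvd_mul
    ((h.pp.coprime_iff_not_dvd.2 hH).symm.dvd_of_dvd_mul_left h1)
  obtain ⟨β, -, rfl⟩ := (Nat.dvd_prime_pow Nat.prime_three).1 hu
  obtain ⟨α, -, rfl⟩ := (Nat.dvd_prime_pow Nat.prime_two).1 hv
  exact S0144.result 3 2 β α Nat.prime_three Nat.prime_two e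

theorem eq_one {g x : G} (hg : orderOf g = p) (hc : x * g = g * x) (hx : ¬ p ∣ orderOf x) :
    x = 1 := by
  have h1 : x ∈ zpowers g := h.cent g hg ▸ mem_centralizer_singleton_iff.2 hc
  have h2 := orderOf_dvd_of_mem_zpowers h1
  rw [hg] at h2
  rcases (Nat.dvd_prime h.pp).1 h2 with e | e
  · exact orderOf_eq_one_iff.1 e
  · exact (hx (e ▸ dvd_rfl)).elim

theorem inf_cent {g : G} (hg : orderOf g = p) {A : Subgroup G} (hA : ¬ p ∣ Nat.card A) :
    A ⊓ centralizer ({g} : Set G) = ⊥ :=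
  eq_bot_iff.2 fun _ hx => mem_bot.2 (h.eq_one hg (mem_centralizer_singleton_iff.1 hx.2)
    fun e => hA (e.trans (A.orderOf_dvd_natCard hx.1)))

theorem not_dvd_two {A : Subgroup G} (hA : IsPGroup 2 A) : ¬ p ∣ Nat.card A := fun e => by
  obtain ⟨k, hk⟩ := IsPGroup.iff_card.1 hA
  have := h.pp.dvd_of_dvd_pow (hk ▸ e)
  rcases h.p3 with rfl | rfl | rfl <;> omega

theorem not_dvd_cent {t : G} (h1 : t ≠ 1) (ht : ¬ p ∣ orderOf t) :
    ¬ p ∣ Nat.card (centralizer ({t} : Set G)) := fun e => by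
  haveI := Fact.mk h.pp
  obtain ⟨u, hu⟩ := exists_prime_orderOf_dvd_card' (G := centralizer ({t} : Set G)) p e
  rw [← orderOf_coe] at hu
  exact h1 (h.eq_one hu (mem_centralizer_singleton_iff.1 u.2).symm ht)

/-- an element of order `p` acts fixed-point-freely -/
theorem card_mod {g : G} (hg : orderOf g = p) {A : Subgroup G} (hA : ¬ p ∣ Nat.card A)
    (hn : g ∈ 𝐍[A]) : Nat.card A % p = 1 := by
  haveI := Fact.mk h.pp
  have h1 := Grp.ConjCount.card_modEq (isPGroup_zpowers (p := p) (x := g) ⟨1, by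
    rw [pow_one, ← hg, pow_orderOf_eq_one]⟩) (A : Set G) fun _ hy _ hx =>
      conj_mem_of_mem_normalizer (zpowers_le.2 hn hy) hx
  have h2 : Nat.card {x : G // x ∈ (A : Set G) ∧ x ∈ centralizer (zpowers g : Set G)} = 1 := by
    rw [Nat.card_eq_one_iff_exists]
    refine ⟨⟨1, one_mem A, one_mem _⟩, fun y => Subtype.ext ?_⟩
    have := h.inf_cent hg hA
    rw [← centralizer_zpowers] at this
    exact mem_bot.1 (this ▸ y.2 : y.1 ∈ (⊥ : Subgroup G))
  rw [h2] at h1
  exact Eq.trans h1 (Nat.mod_eq_of_lt h.pp.one_lt)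

theorem eight_le {g : G} (hg : orderOf g = p) {A : Subgroup G} (hA : IsPGroup 2 A) (h1 : A ≠ ⊥)
    (hn : g ∈ 𝐍[A]) : 8 ≤ Nat.card A := by
  have h2 := h.card_mod hg (h.not_dvd_two hA) hn
  obtain ⟨k, hk⟩ := IsPGroup.iff_card.1 hA
  have h3 : k ≠ 0 := fun e => h1 (card_eq_one.1 (by rw [hk, e, pow_zero]))
  rw [hk] at h2 ⊢
  by_contra! e
  have : k < 3 := (Nat.pow_lt_pow_iff_right one_lt_two).1 (by simpa using e)
  rcases h.p3 with rfl | rfl | rfl <;> interval_cases k <;> simp_all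

theorem tl_normalizer {B : Subgroup G} (hB : IsPGroup 2 B) (h1 : B ≠ ⊥) : Tl 𝐍[B] :=
  ⟨h.c2 B hB h1, fun e => h1 (eq_bot_iff.2 (e ▸ le_pCoreOf hB le_normalizer le_rfl))⟩

theorem tl_of_par {T H : Subgroup G} (hT : IsSyl 2 T ⊤) (hH : Par T H) : Tl H :=
  ⟨(h.c2 _ (isPGroup_pCoreOf 2 H) hH.ne).of_pCoreOf_le (le_normalizer_pCoreOf 2 H)
    ((hT.mono (hH.le.trans (le_normalizer_pCoreOf 2 H)) le_top).pCoreOf_le.trans hH.le), hH.ne⟩

theorem charP_cent {t : G} (h1 : t ≠ 1) (ht : IsPGroup 2 (zpowers t)) :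
    IsCharP 2 (centralizer ({t} : Set G)) := by
  rw [← centralizer_zpowers]
  exact (PLocal.CP.isCharP_normalizer_iff ht).1 (h.c2 _ ht (by simpa using h1))

/-- Baer-Suzuki -/
theorem exists_inv {H : Subgroup G} {t : G} (ht : t ∈ H) (h2 : t * t = 1) (h3 : t ∉ 𝐐[H]) :
    ∃ w ∈ H, (orderOf w = 3 ∨ orderOf w = p) ∧ t * w * t⁻¹ = w⁻¹ := by
  have t1 : (⟨t, ht⟩ : H) ≠ 1 := fun e => h3 (by rw [show t = 1 from congrArg Subtype.val e]; simp)
  obtain ⟨x, x1, x2, x3⟩ := Inv.exists_odd_inverted_of_not_mem_pCore (t := (⟨t, ht⟩ : H))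
    (orderOf_eq_prime (Subtype.ext (by simpa [sq] using h2)) t1) fun e => h3 ⟨_, e, rfl⟩
  obtain ⟨r, hr, hd⟩ := Nat.exists_prime_and_dvd (n := orderOf x) (by simpa using x1)
  have e : orderOf (x ^ (orderOf x / r)) = r := orderOf_pow_orderOf_div (orderOf_pos x).ne' hd
  refine ⟨(x ^ (orderOf x / r) : H), (x ^ (orderOf x / r)).2, ?_, ?_⟩
  · rw [orderOf_coe, e]
    refine (h.primes hr (hd.trans ((orderOf_dvd_natCard x).trans (card_subgroup_dvd_card H)))).resolve_left ?_
    rintro rfl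
    exact (Nat.not_even_iff_odd.2 x2) (even_iff_two_dvd.2 hd)
  · have := congrArg (fun y : H => ((y ^ (orderOf x / r) : H) : G)) x3
    simpa [conj_pow] using this

end Base

theorem Tl.rank (h : Loc G p a b) {H : Subgroup G} (hH : 𝐐[H] ≠ ⊥) {E : Subgroup G} (hE : E ≤ H)
    (e : IsElementaryAbelian 3 E) : Nat.card E ≤ 9 := by
  have hN := hE.trans (le_normalizer_pCoreOf 2 H)
  have := h.r3 _ ⟨_, isPGroup_pCoreOf 2 H, hH, rfl⟩ (E.subgroupOf _)
    (by have := e.1; infer_instance) fun x hx => Subtype.ext (e.2 x hx)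
  rwa [Nat.card_congr (subgroupOfEquivOfLe hN).toEquiv] at this

/-- an elementary abelian 3-group centralizing an involution has order at most 9 -/
theorem Loc.rank_cent (h : Loc G p a b) {t : G} (h1 : t ≠ 1) (h2 : t * t = 1) {E : Subgroup G}
    (hE : E ≤ centralizer ({t} : Set G)) (e : IsElementaryAbelian 3 E) : Nat.card E ≤ 9 := by
  have ht : IsPGroup 2 (zpowers t) := isPGroup_zpowers ⟨1, by rw [pow_one, sq, h2]⟩
  refine Tl.rank h (h.tl_normalizer ht (by simpa using h1)).ne (hE.trans ?_) e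
  rw [← centralizer_zpowers]
  exact centralizer_le_normalizer _

theorem Loc.charP_cent3 (h : Loc G p a b) {t : G} (h1 : t ≠ 1) (ht : IsPGroup 3 (zpowers t)) :
    IsCharP 3 (centralizer ({t} : Set G)) := by
  rw [← centralizer_zpowers]
  exact (PLocal.CP.isCharP_normalizer_iff ht).1 (h.c3 _ ht (by simpa using h1))

theorem par_normalizer {T B : Subgroup G} (hB : IsPGroup 2 B) (h1 : B ≠ ⊥) (hT : T ≤ 𝐍[B]) :
    Par T 𝐍[B] :=
  ⟨hT, fun e => h1 (eq_bot_iff.2 (e ▸ le_pCoreOf hB le_normalizer le_rfl))⟩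

/-- if `C(G, T) = G`, no proper subgroup contains all 2-locals over `N(T)` -/
theorem exists_par {T M : Subgroup G} (hT : IsPGroup 2 T) (top : charCore T = ⊤) (hM : M ≠ ⊤) :
    ∃ H, Par T H ∧ 𝐍[T] ≤ H ∧ ¬ H ≤ M := by
  by_contra! k
  refine hM (top_le_iff.1 (top ▸ iSup_le fun C => ?_))
  haveI := C.2.2
  have n := PLocal.CP.normalizer_le_normalizer_map_subtype T C.1
  exact k _ (par_normalizer (hT.to_le (map_subtype_le _))
    (by simpa [map_eq_bot_iff_of_injective _ T.subtype_injective] using C.2.1)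
    (le_normalizer.trans n)) n

theorem normalizer_ne_top [IsSimpleGroup G] (h : Base G p a b) {B : Subgroup G} (hB : IsPGroup 2 B)
    (h1 : B ≠ ⊥) : 𝐍[B] ≠ ⊤ := fun e => by
  rcases (normalizer_eq_top_iff.1 e).eq_bot_or_eq_top with e | e
  · exact h1 e
  · exact h.not_dvd_two hB (by rw [e, card_top, h.card, mul_assoc]; exact dvd_mul_right _ _)

theorem Big.cardT {T : Subgroup G} (h : Big a b T) : Nat.card T = 2 ^ b := by
  rw [h.syl.card_eq_pow, card_top, h.toLoc.card, Nat.factorization_mul (by positivity) (by positivity),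
    Nat.factorization_mul (by positivity) (by positivity)]
  simp [Nat.prime_two, Nat.prime_three,
    Nat.Prime.factorization (show Nat.Prime 7 by norm_num)]

end Cfsg.Agent.W3
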