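import Cfsg.Agent.W3.F7

/-!
Values of characters at an element of order 3.
-/

set_option autoImplicit false
set_option linter.unusedSectionVars false
set_option linter.style.haveILetI false

namespace Cfsg.Agent.W3

open Cfsg Subgroup Cfsg.Agent.PLocal.Amb
open Cfsg.Agent.PLocal.CP (IsCharP)
open Cfsg.Agent.Char Cfsg.Agent.Char.Euclid Cfsg.Agent.Block Cfsg.Agent.Math Cfsg.Agent.K3
open scoped ComplexConjugate

universe u

variable {G : Type u} [Group G] [Finite G] {p a b : ℕ}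

/-- a primitive cube root of unity -/
noncomputable def om : ℂ := (-1 + Complex.I * √3) / 2

theorem om_sq : om ^ 2 + om + 1 = 0 := by
  have h : ((√3 : ℝ) : ℂ) ^ 2 = 3 := by
    rw [← Complex.ofReal_pow, Real.sq_sqrt (by norm_num)]; simp
  unfold om
  linear_combination (Complex.I ^ 2 / 4) * h + (3 / 4 : ℂ) * Complex.I_sq

theorem conj_om : conj om = -1 - om := by
  simp only [om, map_div₀, map_add, map_neg, map_one, map_mul, Complex.conj_I, Complex.conj_ofReal, map_ofNat]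
  ring

theorem isIntegral_om : IsIntegral ℤ om :=
  IsIntegral.of_pow (n := 3) (by norm_num) (by
    rw [show om ^ 3 = 1 by linear_combination (om - 1) * om_sq]; exact isIntegral_one)

theorem normSq_om (r s : ℤ) : (r + s * om) * conj (r + s * om : ℂ) = (r ^ 2 - r * s + s ^ 2 : ℤ) := by
  simp only [map_add, map_mul, map_intCast, conj_om]
  push_cast
  linear_combination (-(s : ℂ) ^ 2) * om_sq

theorem om_inj {r s r' s' : ℤ} (h : (r + s * om : ℂ) = r' + s' * om) : r = r' ∧ s = s' := by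
  have h1 := congrArg conj h
  simp only [map_add, map_mul, map_intCast, conj_om] at h1
  have h2 : ((3 * (s - s') : ℤ) : ℂ) = 0 := by
    push_cast
    linear_combination (-(2 * om + 1)) * (h - h1) + 4 * ((s : ℂ) - s') * om_sq
  obtain rfl : s = s' := by have := Int.cast_eq_zero.1 h2; omega
  exact ⟨by exact_mod_cast add_right_cancel h, rfl⟩

/-- `χ y = n₀ + n₁ ω + n₂ ω ^ 2` with the multiplicities `nᵢ ≥ 0` of the eigenvalues (the inner products of
`χ` restricted to `⟨y⟩` with the linear characters), `r = n₀ - n₂`, `s = n₁ - n₂`. If two of the `nᵢ`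
vanish, `|χ y| = χ 1`, impossible for `χ ≠ 1` in a non-abelian simple group. -/
theorem exists_val [IsSimpleGroup G] (hG : ¬ IsMulCommutative G) {χ : IrrCharacter G}
    (h1 : χ ≠ irrOne G) {y : G} (hy : orderOf y = 3) :
    ∃ r s : ℤ, χ.1 y = r + s * om ∧ r + s ≤ dg χ ∧ 0 ≤ dg χ + 2 * r - s ∧ 0 ≤ dg χ + 2 * s - r ∧
      r ^ 2 - r * s + s ^ 2 < dg χ ^ 2 := by
  obtain ⟨n, ε, hn, h2, h3⟩ := isCharacter_exists_eigenvalues χ.2.isCharacter y
  have h4 : ∀ i, ∃ r s : ℤ, ε i = r + s * om ∧ r + s ≤ 1 ∧ 0 ≤ 1 + 2 * r - s ∧ 0 ≤ 1 + 2 * s - r := fun i => by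
    have : (ε i - 1) * ((ε i - om) * (ε i + 1 + om)) = 0 := by
      linear_combination (hy ▸ h2 i : ε i ^ 3 = 1) - (ε i - 1) * om_sq
    rcases mul_eq_zero.1 this with k | k
    · exact ⟨1, 0, by push_cast; linear_combination k, by norm_num⟩
    rcases mul_eq_zero.1 k with k | k
    · exact ⟨0, 1, by push_cast; linear_combination k, by norm_num⟩
    · exact ⟨-1, -1, by push_cast; linear_combination k, by norm_num⟩
  choose r s e1 e2 e3 e4 using h4
  have hd : dg χ = n := by exact_mod_cast (dg_cast χ).trans hn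
  have hv : χ.1 y = (∑ i, r i : ℤ) + (∑ i, s i : ℤ) * om := by
    rw [← pow_one y, h3]
    simp [e1, Finset.sum_add_distrib, Finset.sum_mul]
  have a2 := Finset.sum_le_sum fun i (_ : i ∈ Finset.univ) => e2 i
  have a3 := Finset.sum_nonneg fun i (_ : i ∈ Finset.univ) => e3 i
  have a4 := Finset.sum_nonneg fun i (_ : i ∈ Finset.univ) => e4 i
  simp only [Finset.sum_add_distrib, Finset.sum_sub_distrib, ← Finset.mul_sum, Finset.sum_const, Finset.card_univ,
    Fintype.card_fin, nsmul_eq_mul, mul_one, ← hd] at a2 a3 a4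
  refine ⟨_, _, hv, a2, a3, a4, ?_⟩
  have y1 : y ≠ 1 := by rintro rfl; simp at hy
  have h5 : ‖χ.1 y‖ < dg χ := by
    have := χ.2.isCharacter.norm_le y
    rw [← dg_cast, Complex.natCast_re] at this
    refine this.lt_of_ne fun k => ?_
    have hz := mem_center_of_norm_eq χ.2.isCharacter
      (fun g hg => by_contra fun c => Small.apply_ne_of_simple h1 c hg) (z := y) (by rw [k, ← dg_cast]; simp)
    rcases (inferInstance : (center G).Normal).eq_bot_or_eq_top with c | c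
    · exact y1 (mem_bot.1 (c ▸ hz))
    · exact hG ⟨⟨fun a b => mem_center_iff.1 (c ▸ mem_top b) a⟩⟩
  have h6 := normSq_om (∑ i, r i) (∑ i, s i)
  rw [← hv, Complex.mul_conj'] at h6
  have h7 : ‖χ.1 y‖ ^ 2 = ((∑ i, r i) ^ 2 - (∑ i, r i) * (∑ i, s i) + (∑ i, s i) ^ 2 : ℤ) := by exact_mod_cast h6
  have h8 := pow_lt_pow_left₀ h5 (norm_nonneg _) two_ne_zero
  rw [h7] at h8
  exact_mod_cast h8

/-- `κ = k χ(y) / χ(1)` is an algebraic integer (`isIntegral_centralChar`, cf. `K3.exists_omega`) of the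
form `ρ + σ ω` with rational `ρ, σ`; the traces of `κ`, `κ ω` and the norm of `κ` are integers, so
`2 ρ - σ, ρ + σ, ρ ^ 2 - ρ σ + σ ^ 2 ∈ ℤ`, whence `ρ, σ ∈ ℤ`. In `B₀(3)`, `κ ≡ k` (cf. `K3.omega_cong`) and
`ω ≡ 1` modulo the prime over 3. -/
theorem exists_omega3 {χ : IrrCharacter G} {y : G} {r s : ℤ} (h : χ.1 y = r + s * om) :
    ∃ ρ σ : ℤ, (centralizer ({y} : Set G)).index * r = ρ * dg χ ∧
      (centralizer ({y} : Set G)).index * s = σ * dg χ ∧
      ∀ M : Ideal AlgInt, IsPModular 3 M → χ ∈ principalBlock M G →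
        (3 : ℤ) ∣ ρ + σ - (centralizer ({y} : Set G)).index := by
  have p : ((dg χ : ℕ) : ℤ) ≠ 0 := by exact_mod_cast (dg_pos χ).ne'
  have p' : ((dg χ : ℕ) : ℂ) ≠ 0 := by exact_mod_cast p
  have i1 := isIntegral_centralChar χ.2 y
  have e : centralChar χ.1 y = (centralizer ({y} : Set G)).index * (r + s * om) / dg χ := by
    rw [centralChar, h, ← dg_cast]
  have hM := fun M (hM : IsPModular 3 M) hχ => val_centralChar_sub_index_lt hM (χ := χ) hχ y
  generalize centralChar χ.1 y = κ at *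
  generalize (centralizer ({y} : Set G)).index = k at *
  generalize dg χ = d at *
  have i2 : IsIntegral ℤ (conj κ) := i1.map (starRingEnd ℂ).toIntAlgHom
  have e2 : κ - conj κ = k * s * (2 * om + 1) / d := by
    rw [e]
    simp only [map_div₀, map_mul, map_add, map_intCast, map_natCast, conj_om]
    ring
  have i3 := i1.sub i2
  have i4 : IsIntegral ℤ (2 * om + 1) := by
    rw [two_mul]; exact (isIntegral_om.add isIntegral_om).add isIntegral_one
  obtain ⟨t, ht⟩ := int_dvd_of_isIntegral_div (a := 3 * (k * s)) p (by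
    refine Eq.subst (motive := IsIntegral ℤ) ?_ (i3.mul i4).neg
    rw [e2]; push_cast; field_simp
    linear_combination (-4 * k * s : ℂ) * om_sq)
  obtain ⟨m, hm⟩ := int_dvd_of_isIntegral_div (a := 3 * (k * s) ^ 2) (pow_ne_zero 2 p) (by
    refine Eq.subst (motive := IsIntegral ℤ) ?_ (i3.mul i3).neg
    rw [e2]; push_cast; field_simp
    linear_combination (-4 * k ^ 2 * s ^ 2 : ℂ) * om_sq)
  obtain ⟨σ, rfl⟩ : (3 : ℤ) ∣ t := Int.prime_three.dvd_of_dvd_pow (n := 2)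
    ⟨m, mul_left_cancel₀ (pow_ne_zero 2 p) (by linear_combination 3 * hm - (3 * (k * s) + d * t) * ht)⟩
  have hσ : (k : ℤ) * s = σ * d := by linarith
  have hσ' : (k : ℂ) * s = σ * d := by exact_mod_cast hσ
  have e3 : ((k * r : ℤ) : ℂ) / ((d : ℤ) : ℂ) = κ - σ * om := by
    rw [e]; push_cast; field_simp
    linear_combination -om * hσ'
  obtain ⟨ρ, hρ⟩ := int_dvd_of_isIntegral_div p (e3 ▸ i1.sub ((isIntegral_algebraMap (x := σ)).mul isIntegral_om))
  refine ⟨ρ, σ, hρ.trans (mul_comm _ _), hσ, fun M h3 hχ => (val_intCast_lt_one_iff h3 _).1 ?_⟩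
  rw [hρ, Int.cast_mul, mul_div_cancel_left₀ _ (Int.cast_ne_zero.2 p)] at e3
  have v1 : val M (om - 1) < 1 := by
    have := val_mul_lt_one_left ((val_natCast_lt_one_iff h3 3).2 dvd_rfl) (val_le_one_of_isIntegral isIntegral_om.neg)
    rw [show ((3 : ℕ) : ℂ) * -om = (om - 1) ^ 2 by push_cast; linear_combination -om_sq, map_pow] at this
    exact lt_of_pow_lt_pow_left₀ 2 zero_le_one (by rwa [one_pow])
  convert val_sub_lt_one (hM M h3 hχ) (val_mul_lt_one_right (val_intCast_le_one σ) v1) using 2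
  push_cast
  linear_combination e3

theorem inv_id {R : Type*} [Ring R] (a b : R) :
    a * b + (-1 - b) * (-1 - a) = 1 - (-1 - a) * b - (-1 - b) * a := by noncomm_ring

theorem pow_four {R : Type*} [Ring R] {a b : R} (h1 : a * b = 1) (h2 : b * a = 1) :
    (a + b) ^ 4 = a ^ 4 + 4 • a ^ 2 + 6 • 1 + 4 • b ^ 2 + b ^ 4 ∧
      (1 - a - b) ^ 4 + 16 • (a ^ 1 + b ^ 1) + 4 • (a ^ 3 + b ^ 3) = 19 • 1 + 10 • (a ^ 2 + b ^ 2) + (a ^ 4 + b ^ 4) := by
  simp only [pow_succ, pow_zero, one_mul, mul_one, mul_add, add_mul, mul_sub, sub_mul, mul_assoc, h1, h2]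
  constructor <;> abel

/-- Let `χ` be afforded by `π`. As `χ 1 + χ y + χ y⁻¹ = 0`, the projection `(1 + π y + π y ^ 2) / 3` has trace
0, so `A = π y₁`, `B = π y₂` (`y₁, y₂` conjugate to `y`) satisfy `A ^ 2 + A + 1 = 0 = B ^ 2 + B + 1`, so
`A⁻¹ = -1 - A`, `B⁻¹ = -1 - B` and `A B + (A B)⁻¹ = 1 - C - C⁻¹` for `C = A⁻¹ B = π g`. Fourth powers and traces,
with `d = y₁ y₂`: `χ(d ^ 4) + 4 χ(d ^ 2) + 6 χ(1) + 4 χ(d⁻ ^ 2) + χ(d⁻ ^ 4) = 19 χ(1) - 18 ε`, and the left side has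
norm `≤ 16 χ(1)`. -/
theorem dg_le_six {χ : IrrCharacter G} {y y₁ y₂ : G} (hy : orderOf y = 3)
    (h : 2 * χ.1 y = -(dg χ : ℂ)) (h1 : IsConj y y₁) (h2 : IsConj y y₂) {ε : ℤ} (hε : ε = 1 ∨ ε = -1)
    (h7 : orderOf (y₁⁻¹ * y₂) = 7) (hv : ∀ g : G, orderOf g = 7 → χ.1 g = ε) : dg χ ≤ 6 := by
  have hc := χ.2.isCharacter
  have hd := dg_cast χ
  have bd : ∀ g, ‖χ.1 g‖ ≤ dg χ := fun g => by
    have := hc.norm_le g
    rwa [← hd, Complex.natCast_re] at this
  have hi := hc.map_inv y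
  have hcl := hc.isClassFunction
  obtain ⟨n, π, hπ⟩ := hc
  have tr : ∀ g, LinearMap.trace ℂ _ (π g) = χ.1 g := fun g => congrFun hπ g
  have key : ∀ w, IsConj y w → π w⁻¹ = -1 - π w := fun w hw => by
    obtain ⟨c, rfl⟩ := isConj_iff.1 hw
    have y3 : (c * y * c⁻¹) * (c * y * c⁻¹) = (c * y * c⁻¹)⁻¹ := by
      rw [eq_inv_iff_mul_eq_one, ← pow_three', conj_pow, ← hy, pow_orderOf_eq_one]; group
    have t1 := hcl y c
    have t2 : χ.1 (c * y * c⁻¹)⁻¹ = χ.1 y⁻¹ := by rw [← hcl y⁻¹ c]; group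
    generalize c * y * c⁻¹ = w at *
    have y4 : w⁻¹ * w⁻¹ = w := by rw [← mul_inv_rev, y3, inv_inv]
    have := LinearMap.IsIdempotentElem.eq_zero_of_trace_eq_zero (e := (3 : ℂ)⁻¹ • (π 1 + π w + π w⁻¹)) (by
      rw [IsIdempotentElem, smul_mul_smul_comm]
      simp only [mul_add, add_mul, ← map_mul, one_mul, mul_one, y3, y4, mul_inv_cancel, inv_mul_cancel]
      module) (by
      have h' := congrArg conj h
      simp only [map_mul, map_neg, map_natCast, map_ofNat] at h'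
      simp only [map_smul, map_add, tr, t1, t2, hi, ← hd, smul_eq_mul]
      linear_combination (h + h') / 6)
    rw [smul_eq_zero, map_one] at this
    rw [eq_sub_iff_add_eq, eq_neg_iff_add_eq_zero, ← this.resolve_left (by norm_num)]
    abel
  have e1 : π (y₁ * y₂) + π (y₁ * y₂)⁻¹ = 1 - π (y₁⁻¹ * y₂) - π (y₁⁻¹ * y₂)⁻¹ := by
    simp only [mul_inv_rev, inv_inv, map_mul, key _ h1, key _ h2]
    exact inv_id _ _
  have iv : ∀ g, π g * π g⁻¹ = 1 ∧ π g⁻¹ * π g = 1 := fun g => by simp [← map_mul]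
  have e2 := (pow_four (iv _).1 (iv (y₁ * y₂)).2).1
  have e3 := (pow_four (iv _).1 (iv (y₁⁻¹ * y₂)).2).2
  rw [← e1, e2, ← map_one π] at e3
  have e4 := congrArg (LinearMap.trace ℂ _) e3
  have o : ∀ k, k.Coprime 7 → χ.1 ((y₁⁻¹ * y₂) ^ k) = ε ∧ χ.1 ((y₁⁻¹ * y₂)⁻¹ ^ k) = ε := fun k hk =>
    ⟨hv _ (by rw [Nat.Coprime.orderOf_pow (h7 ▸ hk.symm), h7]),
      hv _ (by rw [inv_pow, orderOf_inv, Nat.Coprime.orderOf_pow (h7 ▸ hk.symm), h7])⟩
  simp only [map_add, map_nsmul, ← map_pow, tr, o 1 (by norm_num), o 2 (by norm_num), o 3 (by norm_num),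
    o 4 (by norm_num), ← hd] at e4
  generalize y₁ * y₂ = w at e4
  have b1 := (Complex.re_le_norm _).trans (bd (w ^ 4))
  have b2 := (Complex.re_le_norm _).trans (bd (w ^ 2))
  have b3 := (Complex.re_le_norm _).trans (bd (w⁻¹ ^ 2))
  have b4 := (Complex.re_le_norm _).trans (bd (w⁻¹ ^ 4))
  have e5 := congrArg Complex.re e4
  have e6 : (ε : ℝ) ≤ 1 := by rcases hε with rfl | rfl <;> norm_num
  simp [-inv_pow] at e5
  have : (dg χ : ℝ) ≤ 6 := by linarith
  exact_mod_cast this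

/-- `Char.card_class_pairs y⁻¹ y x` (no pairs, by `dg_le_six`), `F.out`, `F.val`; cf. `F7.quad`. -/
theorem F7.quad3 (F : F7 G) {x y : G} (hx : orderOf x = 7) (hy : orderOf y = 3) {i : Fin 6}
    (h : 2 * (F.c i).1 y = -(dg (F.c i) : ℂ)) (h6 : 6 < dg (F.c i)) :
    1 + ∑ j, (F.c j).1 y * conj ((F.c j).1 y) / F.d j = 0 := by
  classical
  haveI := Fintype.ofFinite G
  have h2 := card_class_pairs y⁻¹ y x
  have h3 : irrOne G ∉ Finset.univ.map ⟨F.c, F.inj⟩ := fun h => by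
    obtain ⟨i, -, hi⟩ := Finset.mem_map.1 h
    exact F.ne i hi
  rw [← Finset.sum_subset (insert (irrOne G) (Finset.univ.map ⟨F.c, F.inj⟩)).subset_univ
      fun ψ _ hψ => by
        rw [Finset.mem_insert, not_or] at hψ
        rw [F.out ψ hψ.1 (fun i e => hψ.2 (Finset.mem_map.2 ⟨i, Finset.mem_univ _, e.symm⟩)) x hx]
        simp, Finset.sum_insert h3, Finset.sum_map,
    Finset.sum_congr rfl (g := fun j => (F.c j).1 y * conj ((F.c j).1 y) / F.d j) fun i _ => by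
      have := F.val i x hx
      simp only [Function.Embedding.coeFn_mk, this, map_intCast, d, ← dg_cast, (F.c i).2.map_inv]
      rcases F.sign i with e | e <;> rw [e] <;> push_cast <;> ring] at h2
  simp only [irrOne_apply, map_one, mul_one, div_one] at h2
  have h4 : IsEmpty {p : G × G // IsConj y⁻¹ p.1 ∧ IsConj y p.2 ∧ p.1 * p.2 = x} := ⟨fun ⟨q, a1, a2, a3⟩ => by
    obtain ⟨c, hc⟩ := isConj_iff.1 a1
    exact (dg_le_six hy h (y₁ := q.1⁻¹) (isConj_iff.2 ⟨c, by rw [← hc]; group⟩) a2 (F.sign i)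
      (by rw [inv_inv, a3, hx]) (F.val i)).not_gt h6⟩
  have h5 : ∀ g : G, (Nat.card {x : G // IsConj g x} : ℂ) ≠ 0 := fun g =>
    Nat.cast_ne_zero.2 (Nat.card_ne_zero.2 ⟨⟨⟨g, IsConj.refl g⟩⟩, inferInstance⟩)
  rw [Nat.card_of_isEmpty, Nat.cast_zero, eq_comm, mul_eq_zero] at h2
  exact h2.resolve_left (div_ne_zero (mul_ne_zero (h5 _) (h5 _)) (card_ne_zero G))

/-- column orthogonality `Char.sum_irr_norm_sq` -/
theorem F7.norm_le (F : F7 G) (y : G) {n : Fin 6 → ℤ}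
    (h : ∀ j, (F.c j).1 y * conj ((F.c j).1 y) = n j) :
    1 + ∑ j, n j ≤ Nat.card (centralizer ({y} : Set G)) := by
  classical
  haveI := Fintype.ofFinite G
  have h3 : irrOne G ∉ Finset.univ.map ⟨F.c, F.inj⟩ := fun h => by
    obtain ⟨i, -, hi⟩ := Finset.mem_map.1 h
    exact F.ne i hi
  have h1 := (Finset.sum_le_sum_of_subset_of_nonneg (f := fun χ : IrrCharacter G => ‖χ.1 y‖ ^ 2)
    (insert (irrOne G) (Finset.univ.map ⟨F.c, F.inj⟩)).subset_univ fun _ _ _ => by positivity).trans_eq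
    (sum_irr_norm_sq y)
  rw [Finset.sum_insert h3, Finset.sum_map, Finset.sum_congr rfl (g := fun j => (n j : ℝ)) fun j _ => by
    have := h j
    rw [Complex.mul_conj'] at this
    exact_mod_cast this, irrOne_apply, norm_one, one_pow] at h1
  exact_mod_cast h1

end Cfsg.Agent.W3
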