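import Cfsg.Agent.K3.Tool
import Cfsg.Agent.W3.Defs

/-! The principal `7`-block when the Sylow `7`-normalizer is a Frobenius group of order `42`. -/

set_option autoImplicit false
set_option linter.style.haveILetI false
set_option linter.unusedSectionVars false

namespace Cfsg.Agent.W3

open Subgroup Cfsg.Agent.Char Cfsg.Agent.Char.Euclid Cfsg.Agent.Block Cfsg.Agent.Math Cfsg.Agent.K3
open scoped ComplexConjugate

/-- the signed degrees allowed for a non-principal member of the principal `7`-block -/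
def Al (a b : ℕ) (d : ℤ) : Prop :=
  ∃ i j : ℕ, (d = 2 ^ i * 3 ^ j ∨ d = -(2 ^ i * 3 ^ j)) ∧ d ^ 2 < 7 * 3 ^ a * 2 ^ b ∧
    (i = b ∨ (1 ≤ j ∧ i + 2 ≤ b)) ∧ (j = a ∨ (1 ≤ i ∧ j < max (a - 1) 1))

/-- the five solutions of the degree equation -/
def sols : List (Fin 6 → ℤ) :=
  [![32768, -19683, 162, -1728, 2304, -13824], ![32768, -19683, 162, 2304, -7776, -7776],
    ![32768, -19683, 162, -13824, 288, 288], ![32768, -19683, -4374, 36, -972, -7776],
    ![32768, -19683, 36, -4374, -4374, -4374]]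

/-- the six non-principal characters not vanishing at the elements of order `7` -/
structure F7 (G : Type*) [Group G] where
  c : Fin 6 → IrrCharacter G
  s : Fin 6 → ℤ
  inj : Function.Injective c
  ne : ∀ i, c i ≠ irrOne G
  sign : ∀ i, s i = 1 ∨ s i = -1
  ord : ∀ g : G, 7 ∣ orderOf g → orderOf g = 7
  val : ∀ i g, orderOf g = 7 → (c i).1 g = s i
  rel : ∀ g, orderOf g ≠ 7 → 1 + ∑ i, s i * (c i).1 g = 0
  out : ∀ ψ, ψ ≠ irrOne G → (∀ i, ψ ≠ c i) → ∀ g, orderOf g = 7 → ψ.1 g = 0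

variable {G : Type*} [Group G] [Finite G]

theorem exists_F7 {x : G} (D : BD 7 x) (hc : D.c = 1) (he : D.e = 6) : Nonempty (F7 G) := by
  classical
  have hC := D.cent_of_c hc
  obtain ⟨θ, hθ⟩ := Finset.card_eq_one.1 (show D.Y.card = 1 by rw [D.cardY_eq, he])
  have hY : θ ∈ D.Y := hθ ▸ Finset.mem_singleton_self θ
  have hX : θ ∉ D.X := fun h => Finset.disjoint_left.1 D.disj h hY
  have hX' : θ ∉ D.X.erase (irrOne G) := fun h => hX (Finset.mem_of_mem_erase h)
  have hT : (insert θ (D.X.erase (irrOne G))).card = 6 := by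
    rw [Finset.card_insert_of_notMem hX', Finset.card_erase_of_mem D.h1, D.cardX, he]
  let e := (Finset.equivFinOfCardEq hT).symm
  let s : IrrCharacter G → ℤ := fun χ => if χ = θ then -D.δ else D.ε χ
  have k : ∀ i, (e i).1 = θ ∨ ((e i).1 ≠ θ ∧ (e i).1 ≠ irrOne G ∧ (e i).1 ∈ D.X) := fun i =>
    (em _).imp_right fun h => ⟨h, Finset.mem_erase.1 ((Finset.mem_insert.1 (e i).2).resolve_left h)⟩
  refine ⟨⟨fun i => e i, fun i => s (e i), Subtype.val_injective.comp e.injective, fun i => ?_,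
    fun i => ?_, fun g => Grp.SelfCent.orderOf_eq_of_dvd D.ox hC, fun i g hg => ?_, fun g hg => ?_,
    fun ψ h1 h2 g hg => D.out hC ψ (fun h => ?_) (fun h => ?_) g (hg ▸ dvd_rfl)⟩⟩
  · exact (k i).elim (fun h h' => hX ((h'.symm.trans h) ▸ D.h1)) fun h => h.2.1
  · rcases k i with h | h
    · have := D.signY
      simp only [s, if_pos h]; omega
    · simp only [s, if_neg h.1]; exact D.sign _ h.2.2
  · rcases k i with h | h
    · simp only [s, if_pos h]; rw [h, D.val_Y hc (by omega) hY g hg, Int.cast_neg]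
    · simp only [s, if_neg h.1]; exact D.valX_of_dvd D.ox hC h.2.2 (hg ▸ dvd_rfl)
  · have h := D.rel θ hY g fun h => hg (Grp.SelfCent.orderOf_eq_of_dvd D.ox hC h)
    rw [← Finset.add_sum_erase _ _ D.h1, D.ε_one, irrOne_apply] at h
    rw [e.sum_comp fun χ => (s χ : ℂ) * χ.1.1 g, Finset.sum_coe_sort _ fun χ => (s χ : ℂ) * χ.1 g,
      Finset.sum_insert hX', Finset.sum_congr rfl (g := fun χ => (D.ε χ : ℂ) * χ.1 g) fun χ hχ => by
        simp only [s, if_neg (ne_of_mem_of_not_mem hχ hX')]]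
    simp only [s, if_true]
    push_cast at h ⊢
    linear_combination -h
  · obtain ⟨i, hi⟩ := e.surjective ⟨ψ, Finset.mem_insert_of_mem (Finset.mem_erase.2 ⟨h1, h⟩)⟩
    exact h2 i (congrArg Subtype.val hi).symm
  · obtain ⟨i, hi⟩ := e.surjective ⟨θ, Finset.mem_insert_self _ _⟩
    rw [hθ, Finset.mem_singleton] at h
    exact h2 i (h.trans (congrArg Subtype.val hi).symm)

namespace F7

variable (F : F7 G)

/-- renumbering -/
def perm (σ : Equiv.Perm (Fin 6)) : F7 G :=
  ⟨F.c ∘ σ, F.s ∘ σ, F.inj.comp σ.injective, fun _ => F.ne _, fun _ => F.sign _, F.ord,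
    fun _ => F.val _, fun g hg => by
      rw [← F.rel g hg, ← Equiv.sum_comp σ fun i => (F.s i : ℂ) * (F.c i).1 g]; rfl,
    fun ψ h1 h2 => F.out ψ h1 fun i => by simpa using h2 (σ.symm i)⟩

/-- the signed degrees -/
noncomputable def d (i : Fin 6) : ℤ := F.s i * dg (F.c i)

/-- signed sums of characters -/
noncomputable def lin (f : Fin 6 → ℤ) : G → ℂ :=
  (irrOne G).1 + ∑ i, ((f i * F.s i : ℤ) : ℂ) • (F.c i).1

theorem lin_apply (f : Fin 6 → ℤ) (g : G) :
    F.lin f g = 1 + ∑ i, f i * (F.s i * (F.c i).1 g) := by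
  simp [lin, irrOne_apply, Finset.sum_apply, mul_assoc]

theorem ss (i : Fin 6) : F.s i * F.s i = 1 := by rcases F.sign i with h | h <;> simp [h]

theorem lin_int (f : Fin 6 → ℤ) {g : G} {w : Fin 6 → ℤ} (h : ∀ i, (F.c i).1 g = w i) :
    F.lin f g = (1 + ∑ i, f i * (F.s i * w i) : ℤ) := by
  rw [lin_apply]; simp [h]

theorem lin_one (f : Fin 6 → ℤ) : F.lin f 1 = (1 + ∑ i, f i * F.d i : ℤ) :=
  F.lin_int f (w := fun i => dg (F.c i)) fun i => by rw [← dg_cast, Int.cast_natCast]

theorem lin_seven (f : Fin 6 → ℤ) {g : G} (hg : orderOf g = 7) : F.lin f g = (1 + ∑ i, f i : ℤ) := by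
  rw [F.lin_int f fun i => F.val i g hg]; simp [ss]

theorem lin_top {g : G} (hg : orderOf g ≠ 7) : F.lin 1 g = 0 := by
  rw [lin_apply, ← F.rel g hg]; simp

theorem isGen_lin (f : Fin 6 → ℤ) : IsGeneralizedCharacter G (F.lin f) :=
  (irrOne G).2.isGen.add (isGen_sum _ _ fun i _ => (F.c i).2.isGen.intCast_smul _)

theorem sum_d : 1 + ∑ i, F.d i = 0 := by
  have := (F.lin_one 1).symm.trans (F.lin_top (by simp))
  simpa using (Int.cast_eq_zero.1 this)

theorem inner_lin [Fintype G] (f f' : Fin 6 → ℤ) :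
    classInner (F.lin f) (F.lin f') = (1 + ∑ i, f i * f' i : ℤ) := by
  classical
  have h1 : ∀ i, classInner (F.c i).1 (irrOne G).1 = 0 := fun i =>
    (F.c i).2.inner_eq_zero (irrOne G).2 fun h => F.ne i (Subtype.ext h)
  have h2 : ∀ i, classInner (irrOne G).1 (F.c i).1 = 0 := fun i =>
    (irrOne G).2.inner_eq_zero (F.c i).2 fun h => F.ne i (Subtype.ext h.symm)
  have h3 : ∀ i j, classInner (F.c i).1 (F.c j).1 = if j = i then 1 else 0 := fun i j => by
    split_ifs with h
    · rw [h, (F.c i).2.inner_self]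
    · exact (F.c i).2.inner_eq_zero (F.c j).2 fun e => h (F.inj (Subtype.ext e)).symm
  simp only [lin, classInner_add_left, classInner_add_right, classInner_sum_left,
    classInner_sum_right, classInner_smul_left, classInner_smul_right, h1, h2, h3,
    (irrOne G).2.inner_self, map_intCast, mul_zero, Finset.sum_const_zero, add_zero, zero_add,
    mul_ite, mul_one, Finset.sum_ite_eq, Finset.mem_univ, if_true]
  push_cast
  congr 1
  refine Finset.sum_congr rfl fun i _ => ?_
  have : (F.s i : ℂ) * F.s i = 1 := by exact_mod_cast F.ss i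
  linear_combination (f i * f' i : ℂ) * this

theorem split_sum (f f' : Fin 6 → ℤ)
    (h : ∀ g ≠ 1, orderOf g ≠ 7 → F.lin f g = 0 ∨ F.lin f' g = 0) :
    (Nat.card G : ℤ) * (1 + ∑ i, f i * f' i) = (1 + ∑ i, f i * F.d i) * (1 + ∑ i, f' i * F.d i) +
      (sset G 7).card * ((1 + ∑ i, f i) * (1 + ∑ i, f' i)) := by
  classical
  haveI := Fintype.ofFinite G
  have h1 := sum_mul_conj_eq (F.lin f) (F.lin f')
  have h2 : (1 : G) ∉ sset G 7 := by simp [mem_sset]
  rw [F.inner_lin, ← Finset.sum_subset (insert 1 (sset G 7)).subset_univ fun g _ hg => by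
      rw [Finset.mem_insert, not_or, mem_sset] at hg
      rcases h g hg.1 fun e => hg.2 (e ▸ dvd_rfl) with e | e <;> simp [e],
    Finset.sum_insert h2, lin_one, lin_one, Finset.sum_congr (s₁ := sset G 7) rfl fun g hg => by
      rw [F.lin_seven f (F.ord g (mem_sset.1 hg)), F.lin_seven f' (F.ord g (mem_sset.1 hg))],
    Finset.sum_const, nsmul_eq_mul, map_intCast, map_intCast] at h1
  exact_mod_cast h1.symm

include F in
theorem card_sset : (Nat.card G : ℤ) = 7 * (sset G 7).card := by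
  have := F.split_sum 1 0 fun g _ hg => .inl (F.lin_top hg)
  simp only [Pi.one_apply, Pi.zero_apply, one_mul, F.sum_d] at this
  simp at this
  linarith

theorem d_ne (i : Fin 6) : F.d i ≠ 0 := by
  have := dg_pos (F.c i)
  rcases F.sign i with h | h <;> rw [d, h] <;> omega

/-- the class multiplication coefficient -/
theorem quad {x t : G} (hx : orderOf x = 7) {w : Fin 6 → ℤ} (h : ∀ i, (F.c i).1 t = w i) :
    (pairs t t x : ℚ) * (Nat.card (centralizer ({t} : Set G)) : ℚ) ^ 2 =
      Nat.card G * (1 + ∑ i, ((F.s i * w i : ℤ) : ℚ) ^ 2 / F.d i) := by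
  classical
  haveI := Fintype.ofFinite G
  have h1 := card_centralizer_mul_card_isConj t
  have h0 : (Nat.card G : ℂ) ≠ 0 := card_ne_zero G
  have h2 := card_class_pairs t t x
  have h3 : irrOne G ∉ Finset.univ.map ⟨F.c, F.inj⟩ := fun h => by
    obtain ⟨i, -, hi⟩ := Finset.mem_map.1 h
    exact F.ne i hi
  rw [← Finset.sum_subset (insert (irrOne G) (Finset.univ.map ⟨F.c, F.inj⟩)).subset_univ
      fun ψ _ hψ => by
        rw [Finset.mem_insert, not_or] at hψ
        rw [F.out ψ hψ.1 (fun i e => hψ.2 (Finset.mem_map.2 ⟨i, Finset.mem_univ _, e.symm⟩)) x hx]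
        simp, Finset.sum_insert h3, Finset.sum_map,
    Finset.sum_congr rfl (g := fun i => ((F.s i * w i : ℤ) : ℂ) ^ 2 / F.d i) fun i _ => by
      have := F.val i x hx
      simp only [Function.Embedding.coeFn_mk, h, this, map_intCast, d, ← dg_cast]
      rcases F.sign i with e | e <;> rw [e] <;> push_cast <;> ring] at h2
  simp only [irrOne_apply, map_one, mul_one, div_one] at h2
  have h4 : (pairs t t x : ℂ) * (Nat.card (centralizer ({t} : Set G)) : ℂ) ^ 2 =
      Nat.card G * (1 + ∑ i, ((F.s i * w i : ℤ) : ℂ) ^ 2 / F.d i) := by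
    unfold pairs
    rw [h2]
    field_simp
    linear_combination (1 + ∑ i, ((F.s i * w i : ℤ) : ℂ) ^ 2 / F.d i) *
      ((Nat.card (centralizer ({t} : Set G)) : ℂ) * Nat.card {x : G // IsConj t x} + Nat.card G) * h1
  exact_mod_cast h4

theorem seven {x : G} (hx : orderOf x = 7) (i : Fin 6) : F.d i % 7 = 1 := by
  have := (val_prime fact7.out hx (F.val i x hx)).2.2
  rcases F.sign i with h | h <;> rw [d, h] <;> rw [h] at this <;> omega

theorem rat {x : G} (hx : orderOf x = 7) {i : Fin 6} (h1 : dg (F.c i) ≠ 1)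
    (h : ∀ j, dg (F.c j) = dg (F.c i) → j = i) (g : G) : ∃ z : ℤ, (F.c i).1 g = z := by
  refine rat_of _ (fun σ => ?_) g
  by_contra e
  have := F.out (galIrr σ (F.c i)) (fun e => h1 (by rw [← dg_gal σ, e, dg_irrOne]))
    (fun j e' => e (by rw [e', h j (by rw [← e', dg_gal])])) x hx
  rw [galIrr_apply, F.val i x hx, map_intCast, Int.cast_eq_zero] at this
  have := F.sign i
  omega

include F in
theorem not_dvd_cent {t : G} (h1 : t ≠ 1) (h5 : orderOf t ≠ 7) :
    ¬ 7 ∣ Nat.card (centralizer ({t} : Set G)) := fun h => by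
  obtain ⟨u, hu⟩ := exists_prime_orderOf_dvd_card' (G := centralizer ({t} : Set G)) 7 h
  rw [← orderOf_coe] at hu
  have e := Commute.orderOf_mul_eq_mul_orderOf_of_coprime (mem_centralizer_singleton_iff.1 u.2)
    (by rw [hu]; exact (Nat.Prime.coprime_iff_not_dvd fact7.out).2 fun h => h5 (F.ord t h))
  rw [F.ord _ (by rw [e, hu]; exact dvd_mul_right _ _), hu] at e
  exact h1 (orderOf_eq_one_iff.1 (by omega))

theorem abs_d (i : Fin 6) : |F.d i| = dg (F.c i) := by
  rcases F.sign i with h | h <;> simp [d, h]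

theorem pm_d (i : Fin 6) : F.d i = dg (F.c i) ∨ F.d i = -dg (F.c i) := by
  rcases F.sign i with h | h <;> simp [d, h]

end F7

end Cfsg.Agent.W3
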