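import Cfsg.Agent.W3.F7

/-! The arithmetic that excludes the five solutions of the degree equation. -/

set_option autoImplicit false

namespace Cfsg.Agent.W3.KillA

def okA (α n : ℤ) : Bool := (List.range 16).all fun s => α % 2 ^ s != 0 || 3 ^ 9 * 2 ^ s < n

theorem okA_elim {α n n' : ℤ} (h : okA α n = true) {s : ℕ} (hs : s ≤ 15) (hd : 2 ^ s ∣ α) (h1 : n ≤ n')
    (hn : n' ≤ 3 ^ 9 * 2 ^ s) : False := by
  have := List.all_eq_true.1 h s (List.mem_range.2 (by omega))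
  simp only [Int.emod_eq_zero_of_dvd hd, bne_self_eq_false, Bool.false_or, decide_eq_true_eq] at this
  omega

def c1 (u v w α : ℤ) : Bool :=
  83 * 2 ^ 14 + α * α + 1152 * (v * v) != 13824 * (u * u) + 1728 * (w * w) ||
    okA α (α * α + 729 * (u * u) + 81 * (v * v) + 729 * (w * w))

def c1' (u v w : ℤ) : Bool := c1 u v w (80 + 27 * u - 9 * v + 27 * w)

def sqd (x y : ℕ) : ℕ := Nat.mul (Nat.add (Nat.sub x y) (Nat.sub y x)) (Nat.add (Nat.sub x y) (Nat.sub y x))

theorem sqd_cast (x y : ℕ) : (sqd x y : ℤ) = (x - y) * (x - y) := by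
  simp only [sqd, Nat.mul_eq, Nat.add_eq, Nat.sub_eq]
  rcases le_total x y with h | h
  · rw [Nat.sub_eq_zero_of_le h]; push_cast [h]; ring
  · rw [Nat.sub_eq_zero_of_le h]; push_cast [h]; ring

def c1n (a b c : ℕ) : Bool :=
  !(Nat.beq (Nat.add (Nat.add 1359872 (sqd (Nat.mul 81 (Nat.add a c)) (Nat.add (Nat.mul 27 b) 6544)))
      (Nat.mul 1152 (sqd (Nat.mul 3 b) 128)))
    (Nat.add (Nat.mul 13824 (sqd (Nat.mul 3 a) 32)) (Nat.mul 1728 (sqd (Nat.mul 3 c) 256)))) ||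
  c1' (3 * a - 32) (3 * b - 128) (3 * c - 256)

theorem chk1 : ((List.range 33).all fun a => (List.range 257).all fun c => (List.range 17).all fun b =>
    c1n a (8 * b + 3 * (a + c) % 8) c) = true := by decide +kernel

def c2 (α t : ℤ) : Bool := t % 248832 != 0 || okA α (α * α + 59049 * (t / 248832))

theorem chk2 : ((List.range 129).all fun a => (List.range 43).all fun b =>
    c2 (80 - 9 * (3 * a - 128) + 243 * (3 * b - 62)) (83 * 2 ^ 14 + (80 - 9 * (3 * a - 128) + 243 * (3 * b - 62)) ^ 2 +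
      1152 * (3 * a - 128) ^ 2)) = true := by decide +kernel

def c3 (u α t : ℤ) : Bool := t < 0 || t % 9216 != 0 || okA α (α * α + 729 * (u * u))

theorem chk3 : ((List.range 257).all fun a => (List.range 43).all fun b =>
    c3 (3 * a - 256) (80 + 27 * (3 * a - 256) - 9 * (3 * b - 62)) (1728 * (3 * a - 256) ^ 2 - 83 * 2 ^ 14 -
      (80 + 27 * (3 * a - 256) - 9 * (3 * b - 62)) ^ 2)) = true := by decide +kernel

theorem chk4 : ∀ a < 3, ∀ b < 3, ∀ c < 17, (2 : ℤ) ^ 15 + (-2188 - 9 * (3 * (a : ℕ) - 2) + 243 * (3 * (b : ℕ) - 2) +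
    243 * (3 * (c : ℕ) - 16)) ^ 2 - 2187 * 2 ^ 14 + 9 * 2 ^ 13 * (3 * a - 2) ^ 2 - 243 * 2 ^ 13 * (3 * b - 2) ^ 2 -
      243 * 2 ^ 10 * (3 * c - 16) ^ 2 ≠ 0 := by decide +kernel

theorem chk5 : ∀ a < 3, ∀ b < 7, (2 : ℤ) ^ 15 + (-1 - 9 * (3 * (a : ℕ) - 2) + 2187 * ((b : ℕ) - 3)) ^ 2 -
    3 * 2187 * 2 ^ 14 + 9 * 2 ^ 13 * (3 * a - 2) ^ 2 ≠ 0 := by decide +kernel

/-- the shape of a value -/
def Cell (m L r s : ℤ) : Prop := ∃ u v, r = L * u ∧ s = L * v ∧ 3 ∣ u + v - m ∧ u + v ≤ m ∧ 0 ≤ m + 2 * u - v ∧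
  0 ≤ m + 2 * v - u ∧ u ^ 2 - u * v + v ^ 2 < m ^ 2

theorem Cell.of {m k r s ρ σ D : ℤ} {l : ℕ} (hD : D = m * 3 ^ l) (hk : ¬ 3 ∣ k) (h1 : k * r = ρ * D)
    (h2 : k * s = σ * D) (h3 : 3 ∣ ρ + σ - k) (h4 : r + s ≤ D) (h5 : 0 ≤ D + 2 * r - s) (h6 : 0 ≤ D + 2 * s - r)
    (h7 : r ^ 2 - r * s + s ^ 2 < D ^ 2) : Cell m (3 ^ l) r s := by
  subst hD
  have c : IsCoprime ((3 : ℤ) ^ l) k := ((Prime.coprime_iff_not_dvd Int.prime_three).2 hk).pow_left
  obtain ⟨u, rfl⟩ := c.dvd_of_dvd_mul_left ⟨ρ * m, by rw [h1]; ring⟩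
  obtain ⟨v, rfl⟩ := c.dvd_of_dvd_mul_left ⟨σ * m, by rw [h2]; ring⟩
  have p : (0 : ℤ) < 3 ^ l := by positivity
  generalize (3 : ℤ) ^ l = L at *
  have e1 : k * u = ρ * m := mul_left_cancel₀ p.ne' (by linear_combination h1)
  have e2 : k * v = σ * m := mul_left_cancel₀ p.ne' (by linear_combination h2)
  refine ⟨u, v, rfl, rfl, (Int.prime_three.dvd_or_dvd (a := k) ?_).resolve_left hk,
    le_of_mul_le_mul_left (by linarith) p, le_of_mul_le_mul_left (by linarith) p,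
    le_of_mul_le_mul_left (by linarith) p, lt_of_mul_lt_mul_left (a := L ^ 2) (by linarith) (by positivity)⟩
  rw [show k * (u + v - m) = (ρ + σ - k) * m by linear_combination e1 + e2]
  exact h3.mul_right _

theorem Cell.two {L r s : ℤ} (h : Cell 2 L r s) : (r = -L ∧ s = 0) ∨ (r = 0 ∧ s = -L) ∨ (r = L ∧ s = L) := by
  obtain ⟨u, v, rfl, rfl, h1, h2, h3, h4, h5⟩ := h
  have : -2 ≤ u ∧ u ≤ 2 ∧ -2 ≤ v ∧ v ≤ 2 := by omega
  obtain ⟨a, b, c, d⟩ := this
  interval_cases u <;> interval_cases v <;> simp at h1 h2 h3 h4 h5 ⊢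

theorem Cell.rat {m L r : ℤ} (h : Cell (2 * m) L r 0) (hL : L ≠ 0) (hm : 0 ≤ m) :
    ∃ a : ℕ, (a : ℤ) ≤ m ∧ r = L * (3 * a - m) := by
  obtain ⟨u, v, rfl, h0, h1, h2, h3, h4, -⟩ := h
  obtain rfl : v = 0 := (mul_eq_zero.1 h0.symm).resolve_left hL
  exact ⟨((u + m) / 3).toNat, by omega, congrArg _ (by omega)⟩

theorem Cell.pair {L r s r' s' : ℤ} (h : Cell 32 L r s) (h' : Cell 32 L r' s') (hL : L ≠ 0) (hs : s + s' = 0) :
    ∃ (b : ℕ) (N : ℤ), b < 43 ∧ 0 ≤ N ∧ r + r' = L * (3 * b - 62) ∧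
      r ^ 2 - r * s + s ^ 2 + (r' ^ 2 - r' * s' + s' ^ 2) = L ^ 2 * N := by
  obtain ⟨u, v, rfl, rfl, h1, h2, h3, h4, -⟩ := h
  obtain ⟨u', v', rfl, rfl, h1', h2', h3', h4', -⟩ := h'
  have : v + v' = 0 := (mul_eq_zero.1 (by rw [mul_add, hs])).resolve_left hL
  refine ⟨((u + u' + 62) / 3).toNat, u ^ 2 - u * v + v ^ 2 + (u' ^ 2 - u' * v' + v' ^ 2), by omega,
    by nlinarith [sq_nonneg (u - v), sq_nonneg (u' - v'), sq_nonneg u, sq_nonneg v, sq_nonneg u', sq_nonneg v'],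
    by rw [← mul_add]; exact congrArg _ (by omega), by ring⟩

theorem arith {d r v : Fin 6 → ℤ} {s : ℕ} (hs : s ≤ 15) (hd : d ∈ sols) (h0 : 2 ^ s ∣ r 0) (h1 : r 1 = 0)
    (hc : ∀ j, 2 ≤ j → ∀ m l, l < 9 → ¬ 3 ∣ m → |d j| = m * 3 ^ l → Cell m (3 ^ l) (r j) (v j))
    (hr : ∀ j, (∀ i, |d i| = |d j| → i = j) → v j = 0)
    (rel : ∀ e : Fin 6 → ℤ, (∀ j, d j = e j * |d j|) → 1 + ∑ j, e j * r j = 0 ∧ ∑ j, e j * v j = 0)
    (quad : ∀ i, 2 * r i = -|d i| → v i = 0 →
      (1 : ℚ) + ∑ j, ((r j ^ 2 - r j * v j + v j ^ 2 : ℤ) : ℚ) / d j = 0)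
    (nrm : 1 + ∑ j, (r j ^ 2 - r j * v j + v j ^ 2) ≤ 3 ^ 9 * 2 ^ s) : False := by
  simp only [sols, List.mem_cons, List.not_mem_nil, or_false] at hd
  simp only [Fin.sum_univ_six] at rel quad nrm
  rcases hd with rfl | rfl | rfl | rfl | rfl
  · have v0 := hr 0 (by decide)
    have v1 := hr 1 (by decide)
    have v2 := hr 2 (by decide)
    have v3 := hr 3 (by decide)
    have v4 := hr 4 (by decide)
    have v5 := hr 5 (by decide)
    have r2 : r 2 = -81 := by have := (hc 2 (by decide) 2 4 (by decide) (by decide) (by decide)).two; omega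
    obtain ⟨a, ha, r3⟩ := (v3 ▸ hc 3 (by decide) (2 * 32) 3 (by decide) (by decide) (by decide)).rat (by decide) (by decide)
    obtain ⟨b, hb, r4⟩ := (v4 ▸ hc 4 (by decide) (2 * 128) 2 (by decide) (by decide) (by decide)).rat (by decide) (by decide)
    obtain ⟨c, hc, r5⟩ := (v5 ▸ hc 5 (by decide) (2 * 256) 3 (by decide) (by decide) (by decide)).rat (by decide) (by decide)
    have e := (rel ![1, -1, 1, -1, 1, -1] (by decide)).1
    have q := quad 2 (by rw [r2]; decide) v2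
    simp only [Matrix.cons_val, v0, v1, v2, v3, v4, v5, h1, r2, r3, r4, r5] at e q nrm
    have q' : 83 * 2 ^ 14 + r 0 * r 0 + 1152 * ((3 * b - 128) * (3 * b - 128)) =
        13824 * ((3 * a - 32) * (3 * a - 32)) + 1728 * ((3 * c - 256) * (3 * c - 256)) := by
      qify at q ⊢; linear_combination 32768 * q
    have e8 : 8 ∣ r 0 := (Int.pow_dvd_pow_iff two_ne_zero).1 ⟨18 * 12 * ((3 * a - 32) * (3 * a - 32)) +
      27 * ((3 * c - 256) * (3 * c - 256)) - 83 * 256 - 18 * ((3 * b - 128) * (3 * b - 128)), by linear_combination q'⟩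
    have k := List.all_eq_true.1 (List.all_eq_true.1 (List.all_eq_true.1 chk1 a (List.mem_range.2 (by omega))) c
      (List.mem_range.2 (by omega))) (b / 8) (List.mem_range.2 (by omega))
    have e0 : 80 + 27 * (3 * (a : ℤ) - 32) - 9 * (3 * b - 128) + 27 * (3 * c - 256) = r 0 := by omega
    rw [show 8 * (b / 8) + 3 * (a + c) % 8 = b by omega, c1n, Bool.or_eq_true, Bool.not_eq_true',
      ← Bool.not_eq_true, Nat.beq_eq, c1', e0, c1, q', bne_self_eq_false, Bool.false_or] at k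
    replace k := k.resolve_left (not_not.2 (by
      simp only [Nat.mul_eq, Nat.add_eq]
      zify
      simp only [sqd_cast]
      rw [← e0] at q'
      push_cast
      linear_combination q'))
    exact okA_elim k hs h0 (by linarith) nrm
  · have v0 := hr 0 (by decide)
    have v1 := hr 1 (by decide)
    have v2 := hr 2 (by decide)
    have v3 := hr 3 (by decide)
    have r2 : r 2 = -81 := by have := (hc 2 (by decide) 2 4 (by decide) (by decide) (by decide)).two; omega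
    obtain ⟨a, ha, r3⟩ := (v3 ▸ hc 3 (by decide) (2 * 128) 2 (by decide) (by decide) (by decide)).rat (by decide) (by decide)
    obtain ⟨e, e'⟩ := rel ![1, -1, 1, 1, -1, -1] (by decide)
    have q := quad 2 (by rw [r2]; decide) v2
    simp only [Matrix.cons_val, v0, v1, v2, v3, h1, r2, r3] at e e' q nrm
    obtain ⟨b, N, hb, hN, r4, n4⟩ := (hc 4 (by decide) 32 5 (by decide) (by decide) (by decide)).pair
      (hc 5 (by decide) 32 5 (by decide) (by decide) (by decide)) (by decide) (by omega)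
    have q' : 83 * 2 ^ 14 + r 0 ^ 2 + 1152 * (3 * a - 128) ^ 2 = 248832 * N := by
      qify at q n4 ⊢; linear_combination 32768 * q + 1024 / 243 * n4
    have k := List.all_eq_true.1 (List.all_eq_true.1 chk2 a (List.mem_range.2 (by omega))) b (List.mem_range.2 hb)
    rw [show 80 - 9 * (3 * (a : ℤ) - 128) + 243 * (3 * b - 62) = r 0 by omega, q', c2, Int.mul_emod_right,
      bne_self_eq_false, Bool.false_or, Int.mul_ediv_cancel_left _ (by decide)] at k
    exact okA_elim k hs h0 (by nlinarith [sq_nonneg (3 * (a : ℤ) - 128)]) nrm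
  · have v0 := hr 0 (by decide)
    have v1 := hr 1 (by decide)
    have v2 := hr 2 (by decide)
    have v3 := hr 3 (by decide)
    have r2 : r 2 = -81 := by have := (hc 2 (by decide) 2 4 (by decide) (by decide) (by decide)).two; omega
    obtain ⟨a, ha, r3⟩ := (v3 ▸ hc 3 (by decide) (2 * 256) 3 (by decide) (by decide) (by decide)).rat (by decide) (by decide)
    obtain ⟨e, e'⟩ := rel ![1, -1, 1, -1, 1, 1] (by decide)
    have q := quad 2 (by rw [r2]; decide) v2
    simp only [Matrix.cons_val, v0, v1, v2, v3, h1, r2, r3] at e e' q nrm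
    obtain ⟨b, N, hb, hN, r4, n4⟩ := (hc 4 (by decide) 32 2 (by decide) (by decide) (by decide)).pair
      (hc 5 (by decide) 32 2 (by decide) (by decide) (by decide)) (by decide) (by omega)
    have q' : 1728 * (3 * a - 256) ^ 2 - 83 * 2 ^ 14 - r 0 ^ 2 = 9216 * N := by
      qify at q n4 ⊢; linear_combination -32768 * q + 1024 / 9 * n4
    have k := List.all_eq_true.1 (List.all_eq_true.1 chk3 a (List.mem_range.2 (by omega))) b (List.mem_range.2 hb)
    rw [show 80 + 27 * (3 * (a : ℤ) - 256) - 9 * (3 * b - 62) = r 0 by omega, q', c3, Int.mul_emod_right,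
      bne_self_eq_false, decide_eq_false (by omega), Bool.false_or, Bool.false_or] at k
    exact okA_elim k hs h0 (by linarith) nrm
  · have v0 := hr 0 (by decide)
    have v1 := hr 1 (by decide)
    have v2 := hr 2 (by decide)
    have v3 := hr 3 (by decide)
    have v4 := hr 4 (by decide)
    have v5 := hr 5 (by decide)
    have r2 : r 2 = -2187 := by have := (hc 2 (by decide) 2 7 (by decide) (by decide) (by decide)).two; omega
    obtain ⟨a, ha, r3⟩ := (v3 ▸ hc 3 (by decide) (2 * 2) 2 (by decide) (by decide) (by decide)).rat (by decide) (by decide)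
    obtain ⟨b, hb, r4⟩ := (v4 ▸ hc 4 (by decide) (2 * 2) 5 (by decide) (by decide) (by decide)).rat (by decide) (by decide)
    obtain ⟨c, hc, r5⟩ := (v5 ▸ hc 5 (by decide) (2 * 16) 5 (by decide) (by decide) (by decide)).rat (by decide) (by decide)
    have e := (rel ![1, -1, -1, 1, -1, -1] (by decide)).1
    have q := quad 2 (by rw [r2]; decide) v2
    simp only [Matrix.cons_val, v0, v1, v2, v3, v4, v5, h1, r2, r3, r4, r5] at e q
    refine chk4 a (by omega) b (by omega) c (by omega) ?_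
    rw [show -2188 - 9 * (3 * (a : ℤ) - 2) + 243 * (3 * b - 2) + 243 * (3 * c - 16) = r 0 by omega]
    qify at q ⊢; linear_combination 32768 * q
  · have v0 := hr 0 (by decide)
    have v1 := hr 1 (by decide)
    have v2 := hr 2 (by decide)
    obtain ⟨a, ha, r2⟩ := (v2 ▸ hc 2 (by decide) (2 * 2) 2 (by decide) (by decide) (by decide)).rat (by decide) (by decide)
    have t3 := (hc 3 (by decide) 2 7 (by decide) (by decide) (by decide)).two
    have t4 := (hc 4 (by decide) 2 7 (by decide) (by decide) (by decide)).two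
    have t5 := (hc 5 (by decide) 2 7 (by decide) (by decide) (by decide)).two
    have n : ∀ {r s : ℤ}, (r = -3 ^ 7 ∧ s = 0) ∨ (r = 0 ∧ s = -3 ^ 7) ∨ (r = 3 ^ 7 ∧ s = 3 ^ 7) →
        r ^ 2 - r * s + s ^ 2 = 3 ^ 14 := by rintro r s (⟨rfl, rfl⟩ | ⟨rfl, rfl⟩ | ⟨rfl, rfl⟩) <;> norm_num
    obtain ⟨e, e'⟩ := rel ![1, -1, 1, -1, -1, -1] (by decide)
    simp only [Matrix.cons_val, v0, v1, v2, h1, r2] at e e'
    have : (2 * r 3 = -4374 ∧ v 3 = 0) ∨ (2 * r 4 = -4374 ∧ v 4 = 0) ∨ (2 * r 5 = -4374 ∧ v 5 = 0) := by omega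
    have q := this.elim (fun k => quad 3 k.1 k.2) fun k => k.elim (fun k => quad 4 k.1 k.2) fun k => quad 5 k.1 k.2
    simp only [Matrix.cons_val, v0, v1, v2, h1, r2, n t3, n t4, n t5] at q
    refine chk5 a (by omega) ((r 3 + r 4 + r 5) / 2187 + 3).toNat (by omega) ?_
    rw [show -1 - 9 * (3 * (a : ℤ) - 2) + 2187 * (((r 3 + r 4 + r 5) / 2187 + 3).toNat - 3) = r 0 by omega]
    qify at q ⊢; linear_combination 32768 * q

end Cfsg.Agent.W3.KillA
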