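import Cfsg.Agent.W3.NumA
import Cfsg.Agent.K3.Num

/-!
The degree equations for `6 ≤ b ≤ 86` (pure arithmetic; kernel searches; split into several files
`W3/NumA`, ... if a file takes more than a few minutes).

Common first step: if signed degrees `d` with `Al a b d` have `1 + Σ d = 0`, some `d` is odd, so has
`i = 0`, so `j = a`, `d = ± 3 ^ a`, `3 ^ a < 7 · 2 ^ b`; and some (other) `d` is prime to 3, so `j = 0`, `i = b`
(as `a ≠ 0`, `b ≥ 6`), `d = ± 2 ^ b`, `2 ^ b < 7 · 3 ^ a`. So `a ≤ 56`.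
-/

set_option autoImplicit false

namespace Cfsg.Agent.W3

open Cfsg.Agent.Comp

variable {a b : ℕ}

theorem Al.dvd {x : ℤ} (h : Al a b x) : x ∣ 2 ^ b * 3 ^ a := by
  obtain ⟨i, j, e, -, h1, h2⟩ := h
  have : (2 : ℤ) ^ i * 3 ^ j ∣ 2 ^ b * 3 ^ a :=
    mul_dvd_mul (pow_dvd_pow _ (by omega)) (pow_dvd_pow _ (by omega))
  rcases e with rfl | rfl
  exacts [this, this.neg_left]

theorem le56 (h86 : b ≤ 86) (h : ((3 : ℤ) ^ a) ^ 2 < 7 * 3 ^ a * 2 ^ b) : a < 57 := by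
  by_contra! k
  have h1 : (3 : ℤ) ^ 57 ≤ 3 ^ a := pow_le_pow_right₀ (by norm_num) k
  have h2 : (2 : ℤ) ^ b ≤ 2 ^ 86 := pow_le_pow_right₀ (by norm_num) h86
  have : (0 : ℤ) < 3 ^ a := by positivity
  norm_num at h1 h2
  nlinarith

theorem Al.odd (h86 : b ≤ 86) {x : ℤ} (h : Al a b x) (hx : x % 2 = 1) :
    K3.PM x (3 ^ a) ∧ a < 57 := by
  obtain ⟨i, j, e, s, h1, h2⟩ := h
  obtain rfl : i = 0 := by
    by_contra k
    have : (2 : ℤ) ∣ 2 ^ i * 3 ^ j := (dvd_pow_self 2 k).mul_right _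
    omega
  obtain rfl : j = a := by omega
  rw [pow_zero, one_mul] at e
  exact ⟨e, le56 h86 (by rcases e with rfl | rfl <;> simpa using s)⟩

theorem Al.three {x : ℤ} (h : Al a b x) (hx : x % 3 ≠ 0) : K3.PM x (2 ^ b) := by
  obtain ⟨i, j, e, s, h1, h2⟩ := h
  obtain rfl : j = 0 := by
    by_contra k
    have : (3 : ℤ) ∣ 2 ^ i * 3 ^ j := (dvd_pow_self 3 k).mul_left _
    omega
  obtain rfl : i = b := by omega
  rwa [pow_zero, mul_one] at e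

theorem pm3 (ha : a ≠ 0) {x : ℤ} (h : K3.PM x (3 ^ a)) : x % 3 = 0 := by
  have : (3 : ℤ) ∣ 3 ^ a := dvd_pow_self 3 ha
  rcases h with rfl | rfl <;> omega

set_option synthInstance.maxSize 1000 in
theorem chk3 : ∀ b < 87, ∀ a < 57, 6 ≤ b → a ≠ 0 → ∀ u ∈ [(3 : ℤ) ^ a, -3 ^ a],
    ∀ v ∈ [(2 : ℤ) ^ b, -2 ^ b], (u % 7 = 1 ∨ u % 7 = 4) → (v % 7 = 1 ∨ v % 7 = 4) →
      ¬ (-1 - u - v) ∣ 2 ^ b * 3 ^ a := by
  decide +kernel

theorem num3' (ha : a ≠ 0) (h6 : 6 ≤ b) (h86 : b ≤ 86) {x y z : ℤ} (hx : Al a b x) (hy : Al a b y)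
    (hz : Al a b z) (x7 : x % 7 = 1 ∨ x % 7 = 4) (y7 : y % 7 = 1 ∨ y % 7 = 4)
    (z7 : z % 7 = 1 ∨ z % 7 = 4) (x2 : x % 2 = 1) : 1 + x + y + z ≠ 0 := fun h => by
  obtain ⟨h1, h2⟩ := hx.odd h86 x2
  have := pm3 ha h1
  by_cases y3 : y % 3 = 0
  · exact chk3 b (by omega) a h2 h6 ha x (by simpa [K3.PM] using h1) z
      (by simpa [K3.PM] using hz.three (by omega)) x7 z7 (by
        rw [show -1 - x - z = y by omega]; exact hy.dvd)
  · exact chk3 b (by omega) a h2 h6 ha x (by simpa [K3.PM] using h1) y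
      (by simpa [K3.PM] using hy.three y3) x7 y7 (by rw [show -1 - x - y = z by omega]; exact hz.dvd)

theorem Al.seven {x : ℤ} (h : Al a b x) (h7 : x % 7 = 1) : ∃ p : ℕ × ℕ, x = 2 ^ p.1 * (-3) ^ p.2 ∧
    alP a b p.1 p.2 ∧ p.1 % 3 = p.2 % 3 := by
  obtain ⟨i, j, e, -, h1⟩ := h
  have m : (2 : ℤ) ^ i * (-3) ^ j ≡ 2 ^ ((i + 2 * j) % 3) [ZMOD 7] := by
    have h1 : (2 : ℤ) ^ i * (-3) ^ j ≡ 2 ^ i * (2 ^ 2) ^ j [ZMOD 7] :=
      (Int.ModEq.pow j (by decide)).mul_left _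
    have h2 : ((2 : ℤ) ^ 3) ^ ((i + 2 * j) / 3) * 2 ^ ((i + 2 * j) % 3) ≡
        1 ^ ((i + 2 * j) / 3) * 2 ^ ((i + 2 * j) % 3) [ZMOD 7] :=
      (Int.ModEq.pow _ (by decide)).mul_right _
    rw [← pow_mul, ← pow_add] at h1 h2
    rw [Nat.div_add_mod, one_pow, one_mul] at h2
    exact h1.trans h2
  have e' : x = 2 ^ i * (-3) ^ j ∨ x = -(2 ^ i * (-3) ^ j) := by
    rcases j.even_or_odd with k | k <;> rw [k.neg_pow]
    · exact e
    · simpa using e.symm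
  have r : (i + 2 * j) % 3 = 0 ∨ (i + 2 * j) % 3 = 1 ∨ (i + 2 * j) % 3 = 2 := by omega
  unfold Int.ModEq at m
  rcases r with r | r | r <;> rw [r] at m <;> norm_num at m
  · exact ⟨(i, j), by dsimp only; omega, h1, by dsimp only; omega⟩
  · omega
  · omega

theorem exists_perm {n : ℕ} {f g : Fin n → ℤ} (h : (List.ofFn g).Perm (List.ofFn f)) :
    ∃ σ : Equiv.Perm (Fin n), f ∘ σ = g := by
  have := List.ofFn_injective (List.Perm.eq_of_sortedLE (Tuple.monotone_sort f).sortedLE_ofFn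
    (Tuple.monotone_sort g).sortedLE_ofFn (((Tuple.sort f).ofFn_comp_perm f).trans
      (h.symm.trans ((Tuple.sort g).ofFn_comp_perm g).symm)))
  exact ⟨Tuple.sort f * (Tuple.sort g)⁻¹, funext fun i => by
    simpa using congrFun this ((Tuple.sort g)⁻¹ i)⟩

theorem num6' (ha : a ≠ 0) (h6 : 6 ≤ b) (h86 : b ≤ 86) {i j : Fin 6 → ℕ} (hm : Monotone i)
    (hA : ∀ k, alP a b (i k) (j k)) (h3 : ∀ k, i k % 3 = j k % 3)
    (hs : 1 + ∑ k, (2 : ℤ) ^ i k * (-3) ^ j k = 0)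
    (hn : 1 + ∑ k, (2 ^ i k * 3 ^ j k) ^ 2 ≤ 7 * 3 ^ a * 2 ^ b) :
    okS a b [2 ^ i 4 * (-3) ^ j 4, 2 ^ i 3 * (-3) ^ j 3, 2 ^ i 2 * (-3) ^ j 2, 2 ^ i 1 * (-3) ^ j 1,
      2 ^ i 0 * (-3) ^ j 0] ∧ (2 : ℤ) ^ i 5 * (-3) ^ j 5 = 2 ^ b := by
  have dv : ∀ k l, k ≤ l → (2 : ℤ) ^ i k ∣ 2 ^ i l * (-3) ^ j l := fun k l h =>
    (pow_dvd_pow 2 (hm h)).mul_right _
  have i0 : i 0 = 0 := by
    by_contra k
    have : (2 : ℤ) ∣ ∑ k, (2 : ℤ) ^ i k * (-3) ^ j k := Finset.dvd_sum fun l _ =>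
      (dvd_pow_self 2 k).trans (dv 0 l (Fin.zero_le l))
    omega
  have j0 : j 0 = a := by have := hA 0; unfold alP at this; omega
  obtain ⟨l, hl⟩ : ∃ l, j l = 0 := by
    by_contra! k
    have : (3 : ℤ) ∣ ∑ k, (2 : ℤ) ^ i k * (-3) ^ j k := Finset.dvd_sum fun l _ =>
      (dvd_pow (by norm_num) (k l)).mul_left _
    omega
  have il : i l = b := by have := hA l; unfold alP at this; omega
  have i5 : i 5 = b := by
    have := hA 5
    have := hm (Fin.le_last l)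
    unfold alP at *
    change i l ≤ i 5 at this
    omega
  have a3 := h3 0
  have b3 := h3 l
  have h35 := h3 5
  rw [Fin.sum_univ_six] at hs hn
  rw [i0, j0, i5, pow_zero, one_mul] at hs hn
  have j5 : j 5 = 0 := by
    by_contra k
    have h1 : 3 ^ 3 ≤ 3 ^ j 5 := Nat.pow_le_pow_right (by norm_num) (by omega)
    have h2 : (2 ^ b * 3 ^ 3) ^ 2 ≤ (2 ^ b * 3 ^ j 5) ^ 2 := by gcongr
    nlinarith [sq_nonneg ((3 : ℤ) ^ a - 4 * 2 ^ b), Nat.zero_le ((2 ^ i 1 * 3 ^ j 1) ^ 2),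
      two_mul_le_add_sq (3 ^ a) (27 * 2 ^ b)]
  rw [j5, pow_zero, mul_one] at hs hn
  rw [← pow_mul, ← pow_mul 2 b, mul_comm a, mul_comm b, pow_mul, pow_mul] at hn
  have a57 : a < 57 := le56 h86 (by
    rw [← pow_mul, mul_comm a, pow_mul]
    have : (3 ^ 2) ^ a < 7 * 3 ^ a * 2 ^ b := by
      have := Nat.zero_le ((2 ^ 2) ^ b)
      omega
    exact_mod_cast this)
  have c := chk6
  simp only [force_eq, allLT_iff, or'_eq_true, Nat.blt_eq, Nat.beq_eq] at c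
  have c := c (b / 3) (by omega) (a / 3) (by omega)
  rw [show 3 * (b / 3) = b by omega, show 3 * (a / 3) = a by omega] at c
  norm_num only at hn
  have c := ((c.resolve_left (by omega)).resolve_left ha).resolve_left (by omega)
  have d1 := dv 1
  have d2 := dv 2
  have d3 := dv 3
  have c := nd_spec c (Nat.zero_le _) (by
    rw [show -1 - 2 ^ b - (-3) ^ a = (2 : ℤ) ^ i 1 * (-3) ^ j 1 + 2 ^ i 2 * (-3) ^ j 2 +
      2 ^ i 3 * (-3) ^ j 3 + 2 ^ i 4 * (-3) ^ j 4 by linear_combination -hs]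
    exact (((d1 1 le_rfl).add (d1 2 (by decide))).add (d1 3 (by decide))).add (d1 4 (by decide)))
    (hA 1) (h3 1) (by omega)
  have c := nd_spec c (hm (by decide : (1 : Fin 6) ≤ 2)) (by
    rw [show -1 - 2 ^ b - (-3) ^ a - (2 : ℤ) ^ i 1 * (-3) ^ j 1 = 2 ^ i 2 * (-3) ^ j 2 +
      2 ^ i 3 * (-3) ^ j 3 + 2 ^ i 4 * (-3) ^ j 4 by linear_combination -hs]
    exact ((d2 2 le_rfl).add (d2 3 (by decide))).add (d2 4 (by decide))) (hA 2) (h3 2) (by omega)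
  have c := nd_spec c (hm (by decide : (2 : Fin 6) ≤ 3)) (by
    rw [show -1 - 2 ^ b - (-3) ^ a - (2 : ℤ) ^ i 1 * (-3) ^ j 1 - 2 ^ i 2 * (-3) ^ j 2 =
      2 ^ i 3 * (-3) ^ j 3 + 2 ^ i 4 * (-3) ^ j 4 by linear_combination -hs]
    exact (d3 3 le_rfl).add (d3 4 (by decide))) (hA 3) (h3 3) (by omega)
  rw [show -1 - 2 ^ b - (-3) ^ a - (2 : ℤ) ^ i 1 * (-3) ^ j 1 - 2 ^ i 2 * (-3) ^ j 2 -
    2 ^ i 3 * (-3) ^ j 3 = 2 ^ i 4 * (-3) ^ j 4 by linear_combination -hs, lf, or'_eq_true,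
    not'_eq_true, Nat.beq_eq] at c
  have c := nd_spec (c.resolve_left (not_not.2 (Nat.mod_eq_zero_of_dvd (by
    have := hA 4
    unfold alP at this
    simp only [Int.natAbs_mul, Int.natAbs_pow, Int.natAbs_neg]
    exact mul_dvd_mul (pow_dvd_pow _ (by omega)) (pow_dvd_pow _ (by omega))))))
    (hm (by decide : (3 : Fin 6) ≤ 4)) (dv 4 4 le_rfl) (hA 4) (h3 4) (by omega)
  rw [i0, j0, i5, j5, pow_zero, one_mul, pow_zero, mul_one]
  exact ⟨by simpa using c, rfl⟩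

/-- `1 ± 2 ^ b ± 3 ^ a = 0` forces `b ≤ 3` (`K3.adj`, or a finite check) -/
theorem num2 (ha : a ≠ 0) (h6 : 6 ≤ b) (h86 : b ≤ 86) {x y : ℤ} (hx : Al a b x) (hy : Al a b y) :
    1 + x + y ≠ 0 := by
  intro h
  have k : ∀ {x y : ℤ}, Al a b x → Al a b y → 1 + x + y = 0 → x % 2 = 1 → False :=
    fun hx hy h x2 => by
      have h1 := (hx.odd h86 x2).1
      have := pm3 ha h1
      have := K3.adj (hy.three (by omega)) h1 (Or.inr (by omega))
      omega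
  by_cases x2 : x % 2 = 1
  exacts [k hx hy h x2, k hy hx (by omega) (by omega)]

/-- Two of the three are `± 2 ^ b`, `± 3 ^ a`, the third is determined: finite check over `(a, b)` and signs
(python-checked: no solution with `6 ≤ b ≤ 99`). -/
theorem num3 (ha : a ≠ 0) (h6 : 6 ≤ b) (h86 : b ≤ 86) {x y z : ℤ} (hx : Al a b x) (hy : Al a b y)
    (hz : Al a b z) (x7 : x % 7 = 1) (y7 : y % 7 = 1) (z7 : z % 7 = 4) : 1 + x + y + z ≠ 0 := by
  intro h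
  by_cases x2 : x % 2 = 1
  · exact num3' ha h6 h86 hx hy hz (by omega) (by omega) (by omega) x2 h
  by_cases y2 : y % 2 = 1
  · exact num3' ha h6 h86 hy hx hz (by omega) (by omega) (by omega) y2 (by omega)
  · exact num3' ha h6 h86 hz hx hy (by omega) (by omega) (by omega) (by omega) (by omega)

/-- `d ≡ 1 mod 7` means `d = 2 ^ i (-3) ^ j` with `i ≡ j mod 3`. So `3 ∣ a`, `3 ∣ b`, two of the `d` are `2 ^ b`
and `(-3) ^ a`, and each of the other four is `2 ^ b`, `(-3) ^ a` (the size condition excludes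
`2 ^ b 3 ^ j`, `j ≥ 3`, and `2 ^ i 3 ^ a`, `i ≥ 3`) or has `1 ≤ i ≤ b - 2`, `1 ≤ j ≤ a - 2`, `d ^ 2 < 7 · 3 ^ a 2 ^ b`.
Search (python-checked for `b ≤ 99`; about 250000 nodes for all 26 pairs `(a, b)`): sort the four terms
by `i`; `go r N i₀` runs over the smallest term `(i, j)`, `i₀ ≤ i`, with the necessary condition
`2 ^ i ∣ N`, and calls `go (r - 1) (N - term) i`; for `r = 1` test whether `N` is a term (`i = v₂(N)`).
Start with `N = -1 - 2 ^ b - (-3) ^ a`; keep the solutions satisfying the norm condition. -/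
theorem num6 (ha : a ≠ 0) (h6 : 6 ≤ b) (h86 : b ≤ 86) {d : Fin 6 → ℤ} (hd : ∀ i, Al a b (d i))
    (h7 : ∀ i, d i % 7 = 1) (hs : 1 + ∑ i, d i = 0)
    (hn : 1 + ∑ i, d i ^ 2 ≤ 7 * 3 ^ a * 2 ^ b) :
    a = 9 ∧ b = 15 ∧ ∃ σ : Equiv.Perm (Fin 6), d ∘ σ ∈ sols := by
  choose p hp hA h3 using fun k => (hd k).seven (h7 k)
  let σ := Tuple.sort fun k => (p k).1
  obtain ⟨⟨e1, e2, s, hs', e3⟩, e4⟩ := num6' ha h6 h86 (i := fun k => (p (σ k)).1)
    (j := fun k => (p (σ k)).2) (Tuple.monotone_sort fun k => (p k).1) (fun k => hA _)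
    (fun k => h3 _) (by simpa only [← hp, Equiv.sum_comp σ d] using hs) (by
      rw [Equiv.sum_comp σ fun k => (2 ^ (p k).1 * 3 ^ (p k).2) ^ 2]
      have : ∀ k, d k ^ 2 = ((2 ^ (p k).1 * 3 ^ (p k).2) ^ 2 : ℕ) := fun k => by
        rw [hp, mul_pow, ← pow_mul (-3), mul_comm (p k).2, pow_mul]
        push_cast
        rw [mul_pow, ← pow_mul 3, mul_comm (p k).2, pow_mul]
        norm_num
      simp only [this] at hn
      exact_mod_cast hn)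
  simp only [← hp] at e3 e4
  obtain ⟨τ, hτ⟩ := exists_perm (f := d) (g := s) (e3.trans ((List.reverse_perm _).symm.trans (by
    rw [← e4]
    simpa [List.ofFn_succ] using σ.ofFn_comp_perm d)))
  exact ⟨e1, e2, τ, hτ ▸ hs'⟩

end Cfsg.Agent.W3
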