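import Cfsg.Agent.W3.Eis
import Cfsg.Agent.W3.Ch3
import Cfsg.Agent.W3.Num
import Cfsg.Agent.W3.KillA

/-!
`p = 7`: no group with `6 ≤ b ≤ 86`.
-/

set_option autoImplicit false
set_option linter.unusedSectionVars false
set_option linter.style.haveILetI false

namespace Cfsg.Agent.W3

open Cfsg Subgroup Cfsg.Agent.PLocal.Amb
open Cfsg.Agent.PLocal.CP (IsCharP)
open Cfsg.Agent.Char Cfsg.Agent.Char.Euclid Cfsg.Agent.Block Cfsg.Agent.Math Cfsg.Agent.K3
open scoped ComplexConjugate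

universe u

variable {G : Type u} [Group G] [Finite G] {p a b : ℕ}

/-- Let `y` be 3-central of order 3 (`K3.exists_central`), `|C(y)| = 3 ^ 9 2 ^ s`, index `k = 7 · 2 ^ (15 - s)`
(`not_dvd_cent`). Write `c j (y) = r j + s j ω` (`exists_val`); `s j = 0` if the degree of `c j` is not repeated
(`F7.rat`). `c 1` of degree `3 ^ 9` is not in `B₀(3)` (`Small.not_pow_of_principal`), so `c 1 (y) = 0`
(`vanish_of_not_mem`); `α = c 0 (y) ∈ ℤ` is divisible by `2 ^ s` (`exists_omega3`). For `j ≥ 2`, `d j = 2 ^ i (-3) ^ l`,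
`c j ∈ B₀(3)` (else `3 ^ 9 ∣` degree), so `(r j, s j) = 3 ^ l (u, v)` with `u + v ≡ 2 ^ i mod 3` and the
inequalities of `exists_val`. For degree `2 · 3 ^ l` this leaves `(u, v) ∈ {(-1, 0), (0, -1), (1, 1)}`; so a
character of degree `162` or `4374` has value `- degree / 2` (in the fifth solution the `ω`-coordinate of
`F.rel y` gives `v₃ + v₄ + v₅ = 0`, so some `v = 0`), and `F7.quad3` applies. Now use only: `F.rel y` (linear, the
`1`-coordinate), `quad3`, `2 ^ s ∣ α` (`s ≤ 15`), `F7.norm_le`, the congruences mod 3 and `|u| < 2 ^ i`. For a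
repeated degree use the unknowns `P = u + u'` (`|P| ≤ 80`, `P ≡ 2 · 2 ^ i mod 3` as `v + v' = 0`) and
`N ≥ 0` = the sum of the two norms `u ^ 2 - u v + v ^ 2`, which `quad3` determines. Python-checked, no solutions:
(1) `α = 80 + 27 u₃ - 9 u₄ + 27 u₅`, `83 · 2 ^ 14 + α ^ 2 - 27 · 2 ^ 9 u₃ ^ 2 + 9 · 2 ^ 7 u₄ ^ 2 - 27 · 2 ^ 6 u₅ ^ 2 = 0`
(so `8 ∣ α`, which cuts the search), norm `1 + α ^ 2 + 81 ^ 2 + 729 u₃ ^ 2 + 81 u₄ ^ 2 + 729 u₅ ^ 2 ≤ 3 ^ 9 2 ^ s`;
(2) `α = 80 - 9 u + 243 P`, `83 · 2 ^ 14 + α ^ 2 + 1152 u ^ 2 = 243 · 2 ^ 10 N`, norm `81 ^ 2 + 81 u ^ 2 + 243 ^ 2 N`;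
(3) `α = 80 + 27 u - 9 P`, `83 · 2 ^ 14 + α ^ 2 - 27 · 2 ^ 6 u ^ 2 + 9 · 2 ^ 10 N = 0`, norm `81 ^ 2 + 729 u ^ 2 + 81 N`;
(4) `α = -2188 - 9 u₃ + 243 u₄ + 243 u₅`,
`2 ^ 15 + α ^ 2 - 2187 · 2 ^ 14 + 9 · 2 ^ 13 u₃ ^ 2 - 243 · 2 ^ 13 u₄ ^ 2 - 243 · 2 ^ 10 u₅ ^ 2 = 0` (no norm needed);
(5) `α = -1 - 9 u + 2187 P`, `|P| ≤ 6`, `2 ^ 15 + α ^ 2 - 3 · 2187 · 2 ^ 14 + 9 · 2 ^ 13 u ^ 2 = 0` (no norm needed).
Finite checks by `decide +kernel` (put the arithmetic in an extra file `W3/KillA`). -/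
theorem Loc.kill [IsSimpleGroup G] (h : Loc G 7 9 15) (F : F7 G) : F.d ∉ sols := by
  intro hd
  obtain ⟨N, hN⟩ := exists_isPModular Nat.prime_three
  obtain ⟨y, hy, hk⟩ := exists_central Nat.prime_three ((dvd_pow_self 3 h.a0).trans h.toBase.d3)
  obtain ⟨x, hx⟩ := exists_prime_orderOf_dvd_card' (G := G) 7 (by rw [h.card, mul_assoc]; exact dvd_mul_right _ _)
  have y7 : orderOf y ≠ 7 := by omega
  obtain ⟨s, hs, β, hβ, e⟩ := h.toBase.smooth (card_subgroup_dvd_card _)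
    (F.not_dvd_cent (t := y) (by rintro rfl; simp at hy) y7)
  have e1 := (centralizer ({y} : Set G)).card_mul_index
  rw [e, h.card] at e1
  choose r v e2 e3 e4 e5 e6 using fun j => exists_val h.nc (F.ne j) hy
  choose ρ σ f1 f2 f3 using fun j => exists_omega3 (e2 j)
  have d01 : F.d 0 = 2 ^ 15 ∧ F.d 1 = -3 ^ 9 := by
    simp only [sols, List.mem_cons, List.not_mem_nil, or_false] at hd
    rcases hd with c | c | c | c | c <;> rw [c] <;> exact ⟨rfl, rfl⟩
  have nsq : ∀ j, (F.c j).1 y * conj ((F.c j).1 y) = (r j ^ 2 - r j * v j + v j ^ 2 : ℤ) := fun j => by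
    rw [e2, normSq_om]
  have hr : ∀ j, (∀ i, |F.d i| = |F.d j| → i = j) → v j = 0 := fun j hj => by
    obtain ⟨z, hz⟩ := F.rat hx (i := j) (fun c => F.ne j (dg_eq_one h.nc _ c))
      (fun i c => hj i (by rw [F.abs_d, F.abs_d, c])) y
    exact (om_inj (r' := z) (s' := 0) (by rw [← e2, hz]; simp)).2
  refine KillA.arith (r := r) (v := v) hs hd ?_ ?_ (fun j _ m l hl hm hj => ?_) hr (fun ε hε => ?_) (fun i h1 h2 => ?_) ?_
  · have g1 := f1 0
    rw [← F.abs_d, d01.1, abs_of_pos (by positivity)] at g1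
    have g2 : ((2 ^ s * 3 ^ β * (centralizer ({y} : Set G)).index : ℕ) : ℤ) = (7 * 3 ^ 9 * 2 ^ 15 : ℕ) := congrArg _ e1
    push_cast at g2
    refine (IsCoprime.pow_left (show IsCoprime (2 : ℤ) (7 * 3 ^ 9) by norm_num)).dvd_of_dvd_mul_left
      ⟨3 ^ β * ρ 0, mul_left_cancel₀ (a := 2 ^ 15) (by norm_num) ?_⟩
    linear_combination 2 ^ s * 3 ^ β * g1 - r 0 * g2
  · have g1 : dg (F.c 1) = 3 ^ 9 := by
      have := F.abs_d 1
      rw [d01.2, abs_neg, abs_of_pos (by positivity)] at this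
      exact_mod_cast this.symm
    exact (om_inj (r' := 0) (s' := 0) (by
      rw [← e2, vanish_of_not_mem hN h.c3 (fun c => Small.not_pow_of_principal h.nc hN c (F.ne 1) (k := 9)
        (by rw [← dg_cast, g1])) (hy ▸ dvd_rfl)]; simp)).1
  · rw [F.abs_d] at hj
    refine KillA.Cell.of hj (by exact_mod_cast hk) (f1 j) (f2 j) (f3 j N hN (by_contra fun c => hm ?_)) (e3 j) (e4 j) (e5 j)
      (e6 j)
    have := pow_dvd_of_vanish Nat.prime_three h.toBase.d3 (F.c j).2.isGen (fun g => vanish_of_not_mem hN h.c3 c)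
      (d := dg (F.c j)) (by rw [← dg_cast, Int.cast_natCast])
    rw [hj] at this
    have h3 := (pow_dvd_pow _ (show l + 1 ≤ 9 from hl)).trans this
    rw [pow_succ'] at h3
    exact Int.dvd_of_mul_dvd_mul_right (by positivity) h3
  · have g1 : ∀ j, ε j = F.s j := fun j => mul_right_cancel₀ (by exact_mod_cast (dg_pos (F.c j)).ne')
      ((F.abs_d j ▸ hε j).symm : ε j * dg (F.c j) = F.s j * dg (F.c j))
    refine om_inj (r' := 0) (s' := 0) ?_
    have := F.rel y y7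
    simp only [e2, mul_add, Finset.sum_add_distrib, ← mul_assoc, ← Finset.sum_mul, ← g1] at this
    push_cast
    linear_combination this
  · rw [F.abs_d] at h1
    have g1 := F.quad3 hx hy (i := i) (by
      rw [e2, h2]
      exact_mod_cast (by simpa using congrArg (Int.cast (R := ℂ)) h1)) (by
      have := F.abs_d i
      have g2 := (by decide : ∀ d ∈ sols, ∀ i, 6 < |d i|) _ hd i
      omega)
    simp only [nsq] at g1
    exact_mod_cast g1
  · refine (F.norm_le y nsq).trans ?_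
    rw [e, mul_comm]
    exact_mod_cast Nat.mul_le_mul_right _ (Nat.pow_le_pow_right (by norm_num) hβ)

/-- `D : BD 7 x`, `D.c = 1`, `1 < D.e ∣ 6` (cf. `K3.exists_six`). `e = 2, 3`: `D.deg_eq` with `Loc.al`, `D.degX`,
`D.modY` contradicts `num2`, `num3` (signed degrees `ε χ * dg χ` and `-δ d`). `e = 6`: `exists_F7`, `num6`
(`F.sum_d`, `F.seven`, norm from `F7.norm_le F 1`), `F.perm σ`, `kill`. -/
theorem Loc.no_small [IsSimpleGroup G] (h : Loc G 7 a b) (h6 : 6 ≤ b) (h86 : b ≤ 86) : False := by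
  classical
  obtain ⟨x, ⟨D⟩⟩ := exists_BD h.nc 7 (by rw [h.card, mul_assoc]; exact dvd_mul_right _ _) h.toBase.nsq (by norm_num)
  have hc : D.c = 1 := by
    have := D.card_C
    rw [h.cent x D.ox, Nat.card_zpowers, D.ox] at this
    omega
  obtain ⟨-, -, h1, h2, -⟩ := D.data h.nc
  obtain ⟨θ, hθ⟩ := D.Y_nonempty
  have e := D.deg_eq
  rw [← Finset.add_sum_erase _ _ D.h1, D.ε_one, one_mul] at e
  change _ = (dg (irrOne G) : ℤ) + ∑ χ ∈ _, _ * (dg χ : ℤ) at e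
  rw [dg_irrOne] at e
  have aY : Al a b (-D.δ * D.d) := h.al (by omega) (χ := θ) (fun c => Finset.disjoint_left.1 D.disj D.h1 (c ▸ hθ))
    (D.not_dvd_dg (D.mem_blk.2 (.inr hθ))) (by rw [D.dg_Y hθ]; rcases D.signY with c | c <;> simp [c])
  have aX : ∀ χ ∈ D.X.erase (irrOne G), Al a b (D.ε χ * dg χ) ∧ D.ε χ * dg χ % 7 = 1 := fun χ hχ => by
    obtain ⟨c1, c2⟩ := Finset.mem_erase.1 hχ
    refine ⟨h.al (by omega) c1 (D.not_dvd_dg (D.mem_blk.2 (.inl c2))) (by rcases D.sign χ c2 with c | c <;> simp [c]), ?_⟩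
    rcases D.mod_X c2 with c | c <;> rw [c.1] <;> omega
  have cX : (D.X.erase (irrOne G)).card = D.e - 1 := by rw [Finset.card_erase_of_mem D.h1, D.cardX]
  have := Nat.le_of_dvd (by norm_num) h2
  have : D.e = 2 ∨ D.e = 3 ∨ D.e = 6 := by
    generalize D.e = e at *
    interval_cases e <;> simp_all
  rcases this with he | he | he
  · obtain ⟨φ, hφ⟩ := Finset.card_eq_one.1 (he ▸ cX)
    rw [hφ] at aX e
    rw [Finset.sum_singleton] at e
    exact num2 h.a0 h6 h86 (aX φ (by simp)).1 aY (by push_cast at e; linarith)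
  · obtain ⟨φ, ψ, ne, hφ⟩ := Finset.card_eq_two.1 (he ▸ cX)
    rw [hφ] at aX e
    rw [Finset.sum_pair ne] at e
    refine num3 h.a0 h6 h86 (aX φ (by simp)).1 (aX ψ (by simp)).1 aY (aX φ (by simp)).2 (aX ψ (by simp)).2 ?_
      (by push_cast at e; linarith)
    rcases D.mod_Y with c | c <;> rw [c.1] <;> omega
  · obtain ⟨F⟩ := exists_F7 D hc he
    have n := F.norm_le 1 (n := fun j => F.d j ^ 2) fun j => by
      rw [← dg_cast, map_natCast]
      rcases F.pm_d j with c | c <;> rw [c] <;> push_cast <;> ring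
    obtain ⟨rfl, rfl, σ, hσ⟩ := num6 h.a0 h6 h86 (fun i => h.al (by omega) (F.ne i) (fun c => by
      have := F.seven D.ox i
      have := F.pm_d i
      omega) (F.pm_d i)) (F.seven D.ox) F.sum_d (n.trans (by
        exact_mod_cast (card_le_card_group _).trans h.card.le))
    exact h.kill (F.perm σ) hσ

end Cfsg.Agent.W3
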