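import Cfsg.Agent.W3.Star
import Cfsg.Agent.Solv.Wielandt
import Cfsg.Agent.Inv.AutCyc
import Cfsg.Agent.S0016
import Cfsg.Agent.PLocal.ParChar

/-!
Bounds for `O₂(H)` when `H` contains `3 ^ 2` or a Frobenius group `p : 3`; the case `p = 13`.
-/

set_option autoImplicit false
set_option linter.unusedSectionVars false
set_option linter.style.haveILetI false

namespace Cfsg.Agent.W3

open Cfsg Subgroup Cfsg.Agent.PLocal.Amb
open Cfsg.Agent.PLocal (maxEA)
open Cfsg.Agent.PLocal.CP (IsCharP)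
open scoped Cfsg.Agent.PLocal.CP Cfsg.Agent.PLocal.JC

universe u

variable {G : Type u} [Group G] [Finite G] {p a b : ℕ}

/-- `S0016` (a 2-group without four-group has a unique subgroup of order 2): `C` is cyclic or
generalized quaternion; `Aut C` is a 2-group unless `|C| ≤ 8` (`Inv.AutCyc`). -/
theorem card_le_eight {C : Subgroup G} {e : G} (hC : IsPGroup 2 C)
    (h4 : ∀ U : Subgroup G, U ≤ C → IsElementaryAbelian 2 U → Nat.card U ≠ 4)
    (he : orderOf e = 3) (hn : e ∈ 𝐍[C]) (hc : e ∉ 𝐂[C]) : Nat.card C ≤ 8 := by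
  by_contra! h8
  obtain ⟨z, hz, zc, z2⟩ := PLocal.WC.exists_orderOf_eq_centralizer hC hC le_normalizer fun e => by
    rw [e, card_bot] at h8; omega
  have key : ∀ t ∈ C, t ^ 2 = 1 → t ∈ zpowers z := fun t ht t2 => by_contra fun k => by
    obtain ⟨U, u1, u2, u3⟩ := exists_four (hC.to_le (zpowers_le.2 hz))
      (by rw [Ne, zpowers_eq_bot]; rintro rfl; simp at z2) (by rw [← sq, t2]) k
      (centralizer_le_normalizer _ (le_centralizer_iff.1 (zpowers_le.2 zc) ht))
    exact h4 U (u3.trans (sup_le (zpowers_le.2 hz) (zpowers_le.2 ht))) u1 u2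
  have key2 : ∀ H : Subgroup C, Nat.card H = 2 → H = (zpowers z).subgroupOf C := fun H hH =>
    eq_of_le_of_card_ge (fun x hx => key x x.2 (congrArg Subtype.val
      (congrArg Subtype.val (hH ▸ pow_card_eq_one' (x := (⟨x, hx⟩ : H))))))
      (by rw [Grp.card_subgroupOf_of_le (zpowers_le.2 hz), Nat.card_zpowers, z2, hH])
  have hA : IsPGroup 2 (MulAut C) := by
    rcases S0016.result 2 hC fun H K h1 h2 => (key2 H h1).trans (key2 K h2).symm with k | ⟨-, n, ⟨f⟩⟩
    · obtain ⟨n, hn⟩ := IsPGroup.iff_card.1 hC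
      refine IsPGroup.of_card (n := n - 1) ?_
      rw [IsCyclic.card_mulAut, hn, Nat.totient_prime_pow Nat.prime_two
        (Nat.pos_of_ne_zero fun e => by rw [hn, e] at h8; omega)]
      simp
    · refine Inv.AutCyc.isPGroup_mulAut_congr f (Inv.AutCyc.isPGroup_mulAut_quaternion
        (Nat.le_of_not_lt fun k => ?_))
      have : NeZero (2 ^ n) := ⟨by positivity⟩
      rw [Nat.card_congr f.toEquiv, Nat.card_eq_fintype_card, QuaternionGroup.card] at h8
      interval_cases n <;> omega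
  obtain ⟨k, hk⟩ := Inv.AutCyc.exists_pow_mem_centralizer hA hn
  exact hc (mem_of_pow_mem_of_coprime hk (he ▸ Nat.Coprime.pow_right k (by norm_num)))

/-- `R = O₂(H)`. By `card_le_pow_nine` it suffices to show `|C_R(e)| ≤ 2 ^ 20` for `1 ≠ e ∈ E`. If `E`
does not centralize `C_R(e)`, this is `Loc.bound` (if `C_R(e)` has a four-group) or `card_le_eight`.
`E` does not centralize `R` (`H` has characteristic 2), so by `S0058` it does not centralize `C_R(e₀)`
for some `e₀`; and if `E` centralizes `C_R(e)` then `C_R(e) ≤ C_R(e₀)`. -/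
theorem Loc.nine (h : Loc G p a b) {H E : Subgroup G} (hH : Tl H) (hEH : E ≤ H)
    (hE : IsElementaryAbelian 3 E) (h9 : Nat.card E = 9) : Nat.card 𝐐[H] ≤ 2 ^ 80 := by
  have pR := isPGroup_pCoreOf 2 H
  have nR := hEH.trans (le_normalizer_pCoreOf 2 H)
  have key : ∀ e ∈ E, e ≠ 1 → ¬ 𝐐[H] ⊓ centralizer {e} ≤ 𝐂[E] →
      Nat.card ↥(𝐐[H] ⊓ centralizer {e}) ≤ 2 ^ 20 := fun e he e1 k => by
    have n1 : 𝐐[H] ⊓ centralizer {e} ≤ 𝐍[zpowers e] :=
      inf_le_right.trans ((centralizer_zpowers e).ge.trans (centralizer_le_normalizer _))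
    by_cases h4 : ∀ U : Subgroup G, U ≤ 𝐐[H] ⊓ centralizer {e} → IsElementaryAbelian 2 U →
        Nat.card U ≠ 4
    · obtain ⟨f, hf, f1⟩ := SetLike.not_le_iff_exists.1 (mt le_centralizer_iff.1 k)
      exact (card_le_eight (pR.to_le inf_le_left) h4 (PLocal.Sig.ea_orderOf hE hf fun e =>
        f1 (e ▸ one_mem _)) (le_normalizer_inf nR (PLocal.Sig.ea_norm_cent1 hE he) hf) f1).trans
        (by norm_num)
    · push Not at h4
      obtain ⟨U, u1, u2, u3⟩ := h4
      exact h.bound (PLocal.Sig.ea_orderOf hE he e1) u2 u3 (u1.trans n1) (pR.to_le inf_le_left) n1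
  obtain ⟨e0, h0, h1, h2⟩ := PLocal.Sig.exists_cent1_not_le (L := 𝐂[E]) hE h9.ge nR
    (PLocal.Sig.not_dvd_of_isPGroup (by norm_num) pR) fun k => by
      obtain ⟨e, he, e1⟩ := PLocal.Sig.exists_ne_one_of_le_card (p := 3) (B := E) (by omega)
      exact e1 (hH.ch.eq_one (hEH he) (by rw [PLocal.Sig.ea_orderOf hE he e1]; norm_num)
        (le_centralizer_iff.1 k he))
  refine (card_le_pow_nine (n := 2 ^ 20) hE h9 pR nR fun e he e1 => ?_).trans (by norm_num)
  by_cases k : 𝐐[H] ⊓ centralizer {e} ≤ 𝐂[E]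
  · exact (card_le_of_le (le_inf inf_le_left fun x hx =>
      mem_centralizer_singleton_iff.2 (k hx e0 h0).symm)).trans (key e0 h0 h1 h2)
  · exact key e he e1 k

/-- Wielandt's formula `Solv.Wielandt.frobenius_fixed_formula` (`S1545`) for `U = ⟨g⟩`, `E = ⟨k⟩`
(`Base.eq_one`: `k` is fixed-point-free on `U`; `C_R(U) = 1` by `Base.inf_cent`). -/
theorem Base.cube (h : Base G p a b) {g k : G} {R : Subgroup G} (hg : orderOf g = p)
    (hk : orderOf k = 3) (hkg : k ∈ 𝐍[zpowers g]) (hR : IsPGroup 2 R) (h1 : g ∈ 𝐍[R])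
    (h2 : k ∈ 𝐍[R]) : Nat.card R = Nat.card ↥(R ⊓ centralizer ({k} : Set G)) ^ 3 := by
  haveI := Fact.mk h.pp
  have n1 := zpowers_le.2 hkg
  have h3 := Solv.Wielandt.frobenius_fixed_formula (zpowers g) (zpowers k) n1
    (Solv.isSolvable_of_isPGroup (p := p) (isPGroup_zpowers ⟨1, by
      rw [pow_one, ← hg, pow_orderOf_eq_one]⟩))
    (fun e he e1 u hu c => by_contra fun u1 => e1 (h.eq_one
      (((Nat.dvd_prime h.pp).1 (hg ▸ orderOf_dvd_of_mem_zpowers hu)).resolve_left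
        (mt orderOf_eq_one_iff.1 u1)) c fun d => by
          have := d.trans (hk ▸ orderOf_dvd_of_mem_zpowers he)
          rcases h.p3 with rfl | rfl | rfl <;> omega)) R
    (sup_le (zpowers_le.2 h1) (zpowers_le.2 h2)) (Solv.isSolvable_of_isPGroup hR) (by
      obtain ⟨n, hn⟩ := IsPGroup.iff_card.1 hR
      have := Grp.card_sup_dvd_of_le_normalizer n1
      rw [sup_comm, Nat.card_zpowers, Nat.card_zpowers, hg, hk] at this
      rw [hn]
      refine Nat.Coprime.pow_left n (Nat.Coprime.coprime_dvd_right this ?_)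
      rcases h.p3 with rfl | rfl | rfl <;> norm_num)
  have h4 := h.inf_cent hg (h.not_dvd_two hR)
  rw [centralizer_zpowers, centralizer_zpowers, h4, eq_bot_iff.2 ((inf_le_inf_left R
    ((centralizer_anti le_sup_left).trans (centralizer_zpowers g).le)).trans h4.le), card_bot,
    Nat.card_zpowers, hk] at h3
  simpa using h3

/-- `V = Ω₁Z(O₂(H)) ≠ 1` has order `|C_V(k)| ^ 3 ≤ 4 ^ 3` (`cube`, `le_four`) and `≡ 1 mod 13`
(`Base.card_mod`), but no `2 ^ n`, `1 ≤ n ≤ 6`, is `1 mod 13`. -/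
theorem Loc.thirteen (h : Loc G 13 a b) {H : Subgroup G} (hH : Tl H) (hk : Kap 13 H) : False := by
  obtain ⟨g, hg, k, hk, g1, k1, n⟩ := hk
  have nV := (le_normalizer_pCoreOf 2 H).trans (PLocal.CP.normalizer_le_normalizer_omegaZ (p := 2) _)
  have pV := (isPGroup_pCoreOf 2 H).to_le (PLocal.CP.omegaZ_le (p := 2) _)
  have h1 := h.cube g1 k1 n pV (nV hg) (nV hk)
  have h2 := h.le_four (w := k) (PLocal.isEA_mono (PLocal.CP.omegaZ_isEA 𝐐[H]) inf_le_left)
    (by rintro rfl; simp at k1) (by rw [k1]; decide) inf_le_right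
  have h3 := h.card_mod g1 (h.not_dvd_two pV) (nV hg)
  have h4 := h.eight_le g1 pV (PLocal.WC.omegaZ_ne_bot (isPGroup_pCoreOf 2 H) hH.ne) (nV hg)
  rw [h1] at h3 h4
  obtain ⟨j, hj⟩ := IsPGroup.iff_card.1 (pV.to_le (inf_le_left : _ ⊓ centralizer {k} ≤ _))
  rw [hj] at h2 h3 h4
  have : j ≤ 2 := (Nat.pow_le_pow_iff_right (a := 2) (by norm_num)).1 h2
  interval_cases j <;> omega

end Cfsg.Agent.W3
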