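import Cfsg.Agent.W3.F7
import Cfsg.Agent.Comp.Basic

/-! The kernel search for the degree equation with six terms. -/

set_option autoImplicit false

namespace Cfsg.Agent.W3

open Cfsg.Agent.Comp

variable {a b : ℕ}

/-- evaluation of an integer argument -/
noncomputable def forceI (x : ℤ) (k : ℤ → Bool) : Bool :=
  Int.rec (motive := fun _ => Bool) (fun n => force n fun m => k (Int.ofNat m))
    (fun n => force n fun m => k (Int.negSucc m)) x

theorem forceI_eq (x : ℤ) (k : ℤ → Bool) : forceI x k = k x := by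
  cases x <;> simp [forceI]

/-- the exponent conditions of `Al` -/
def alP (a b i j : ℕ) : Prop :=
  (i = b ∨ (1 ≤ j ∧ i + 2 ≤ b)) ∧ (j = a ∨ (1 ≤ i ∧ j < max (a - 1) 1))

instance (a b i j : ℕ) : Decidable (alP a b i j) := by unfold alP; infer_instance

/-- one step of the search -/
noncomputable def nd (a b : ℕ) (k : ℤ → ℕ → ℕ → List ℤ → Bool) (N : ℤ) (i0 s : ℕ)
    (acc : List ℤ) : Bool :=
  force N.natAbs fun w => allLT (b + 1) fun i => or' (Nat.blt i i0)
    (or' (not' (Nat.beq (w % 2 ^ i) 0)) (allLT (a / 3 + 1) fun m => force (3 * m + i % 3) fun j =>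
      force (2 ^ i * 3 ^ j) fun u => force (u * u) fun q => or' (Nat.blt s q)
        (or' (not' (decide (alP a b i j))) (forceI (ite' (Nat.beq (j % 2) 0) (u : ℤ) (-(u : ℤ)))
          fun t => forceI (N - t) fun N' => force (s - q) fun s' => k N' i s' (t :: acc)))))

theorem nd_spec {k : ℤ → ℕ → ℕ → List ℤ → Bool} {N : ℤ} {i0 s : ℕ} {acc : List ℤ}
    (h : nd a b k N i0 s acc = true) {i j : ℕ} (h0 : i0 ≤ i) (hd : 2 ^ i ∣ N) (hA : alP a b i j)
    (h3 : i % 3 = j % 3) (hs : (2 ^ i * 3 ^ j) ^ 2 ≤ s) :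
    k (N - 2 ^ i * (-3) ^ j) i (s - (2 ^ i * 3 ^ j) ^ 2) (2 ^ i * (-3) ^ j :: acc) = true := by
  simp only [nd, force_eq, forceI_eq, allLT_iff, or'_eq_true, not'_eq_true, Nat.blt_eq,
    Nat.beq_eq, decide_eq_true_eq] at h
  have hA' := hA
  unfold alP at hA'
  have e : 3 * (j / 3) + i % 3 = j := by omega
  have hd' : N.natAbs % 2 ^ i = 0 := Nat.mod_eq_zero_of_dvd (by
    simpa [Int.natAbs_pow] using Int.natAbs_dvd_natAbs.2 hd)
  have := ((h i (by omega)).resolve_left (by omega)).resolve_left (not_not.2 hd') (j / 3)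
    (by omega)
  rw [e, ← sq] at this
  have := (this.resolve_left (by omega)).resolve_left (not_not.2 hA)
  have e2 : ite' (Nat.beq (j % 2) 0) ((2 ^ i * 3 ^ j : ℕ) : ℤ) (-((2 ^ i * 3 ^ j : ℕ) : ℤ)) =
      2 ^ i * (-3) ^ j := by
    simp only [ite'_eq, Nat.beq_eq]
    split_ifs with k
    · rw [(Nat.even_iff.2 k).neg_pow]; simp
    · rw [(Nat.odd_iff.2 (by omega)).neg_pow]; simp
  rwa [e2] at this

/-- the accepted outcomes -/
def okS (a b : ℕ) (l : List ℤ) : Prop :=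
  a = 9 ∧ b = 15 ∧ ∃ s ∈ sols, (List.ofFn s).Perm (2 ^ b :: l)

instance (a b : ℕ) (l : List ℤ) : Decidable (okS a b l) := by unfold okS; infer_instance

/-- the last step -/
noncomputable def lf (a b K : ℕ) (N : ℤ) (i0 s : ℕ) (acc : List ℤ) : Bool :=
  or' (not' (Nat.beq (K % N.natAbs) 0)) (nd a b (fun N _ _ acc =>
    or' (not' (Nat.beq N.natAbs 0)) (decide (okS a b acc))) N i0 s acc)

theorem chk6 : allLT 29 (fun b' => force (3 * b') fun b => allLT 19 fun a' => force (3 * a') fun a =>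
    or' (Nat.blt b 6) (or' (Nat.beq a 0) (or' (Nat.blt (7 * 3 ^ a * 2 ^ b) (1 + 4 ^ b + 9 ^ a))
      (force (2 ^ b * 3 ^ a) fun K => nd a b (nd a b (nd a b (lf a b K))) (-1 - 2 ^ b - (-3) ^ a) 0
        (7 * 3 ^ a * 2 ^ b - (1 + 4 ^ b + 9 ^ a)) [(-3) ^ a])))) = true := by
  decide +kernel

end Cfsg.Agent.W3
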