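import Cfsg.Agent.W3.Defs
import Cfsg.Agent.Grp.Cores

/-!
Passing to `H ⧸ O₂(H)`.
-/

set_option autoImplicit false
set_option linter.unusedSectionVars false
set_option linter.style.haveILetI false

namespace Cfsg.Agent.W3

open Cfsg Subgroup Cfsg.Agent.PLocal.Amb
open scoped Cfsg.Agent.PLocal.CP Cfsg.Agent.PLocal.JC

universe u

variable {G : Type u} [Group G] [Finite G] {p a b : ℕ}

/-- the projection onto `H ⧸ O₂(H)` -/
abbrev prj (H : Subgroup G) : H →* H ⧸ pCore 2 H := QuotientGroup.mk' _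

/-- the image in `H ⧸ O₂(H)` -/
abbrev img (H D : Subgroup G) : Subgroup (H ⧸ pCore 2 H) := (D.subgroupOf H).map (prj H)

/-- the preimage of a subgroup of `H ⧸ O₂(H)` -/
abbrev prm (H : Subgroup G) (A : Subgroup (H ⧸ pCore 2 H)) : Subgroup G := (A.comap (prj H)).map H.subtype

theorem prj_surj (H : Subgroup G) : Function.Surjective (prj H) := QuotientGroup.mk'_surjective _

theorem prj_ker (H : Subgroup G) : IsPGroup 2 (prj H).ker := by
  rw [QuotientGroup.ker_mk']; exact isPGroup_pCore' 2 H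

theorem card_img {H D : Subgroup G} (h : D ≤ H) : Nat.card (img H D) = 𝐐[H].relIndex D := by
  rw [← relIndex_ker, QuotientGroup.ker_mk', ← pCoreOf_subgroupOf, relIndex_subgroupOf h]

theorem prm_img {H D : Subgroup G} (h1 : 𝐐[H] ≤ D) (h : D ≤ H) : prm H (img H D) = D := by
  rw [prm, comap_map_eq, QuotientGroup.ker_mk', ← pCoreOf_subgroupOf,
    sup_eq_left.2 (subgroupOf_mono H h1), map_subgroupOf_of_le h]

theorem relIndex_prm {H : Subgroup G} (A B : Subgroup (H ⧸ pCore 2 H)) :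
    (prm H A).relIndex (prm H B) = A.relIndex B := by
  rw [relIndex_map_map_of_injective _ _ H.subtype_injective, relIndex_comap,
    map_comap_eq_self_of_surjective (prj_surj H)]

theorem card_prm {H : Subgroup G} (A : Subgroup (H ⧸ pCore 2 H)) :
    Nat.card (prm H A) = Nat.card A * Nat.card 𝐐[H] := by
  rw [card_map_of_injective H.subtype_injective, Grp.card_comap_of_surjective _ (prj_surj H),
    QuotientGroup.ker_mk', pCoreOf, card_map_of_injective H.subtype_injective]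

theorem sh_two {Y : Type*} [Group Y] [Finite Y] {q : ℕ} (h : ∀ r, r.Prime → r ∣ Nat.card Y → r = q) :
    IsPGroup q Y :=
  IsPGroup.of_card (Nat.eq_prime_pow_of_unique_prime_dvd Nat.card_pos.ne' fun hr hd => h _ hr hd)

theorem sh_one {Y : Type*} [Group Y] {x : Y} {q i j : ℕ} (hq : q.Coprime 2) (h1 : x ^ 2 ^ i = 1)
    (h2 : x ^ q ^ j = 1) : x = 1 :=
  orderOf_eq_one_iff.1 (Nat.eq_one_of_dvd_coprimes (hq.pow j i) (orderOf_dvd_of_pow_eq_one h2)
    (orderOf_dvd_of_pow_eq_one h1))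

theorem sh_lift {Y X : Type*} [Group Y] [Finite Y] [Group X] [Finite X] {π : Y →* X}
    (hs : Function.Surjective π) (hk : IsPGroup 2 π.ker) {E : Subgroup X} (hE : IsElementaryAbelian 3 E) :
    ∃ E' : Subgroup Y, IsElementaryAbelian 3 E' ∧ Nat.card E' = Nat.card E := by
  obtain ⟨S, hS⟩ := exists_isSyl 3 (E.comap π)
  have e := hS.map π
  rw [map_comap_eq_self_of_surjective hs] at e
  have k : ∀ s ∈ S, π s = 1 → s = 1 := fun s h1 h2 => by
    obtain ⟨i, hi⟩ := hk ⟨s, h2⟩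
    obtain ⟨j, hj⟩ := hS.pgrp ⟨s, h1⟩
    exact sh_one (by norm_num) (congrArg Subtype.val hi) (congrArg Subtype.val hj)
  refine ⟨S, ⟨⟨⟨fun x y => Subtype.ext (mul_inv_eq_one.1 (k _ (mul_mem (mul_mem x.2 y.2)
    (inv_mem (mul_mem y.2 x.2))) ?_))⟩⟩, fun s h1 => k _ (pow_mem h1 3) ?_⟩, ?_⟩
  · rw [map_mul, map_inv, coe_mul, coe_mul, map_mul, map_mul, PLocal.elemAb_comm hE (hS.le x.2) (hS.le y.2),
      mul_inv_cancel]
  · rw [map_pow, hE.2 _ (hS.le h1)]
  · rw [e.eq (PLocal.elemAb_isPGroup hE) e.le le_rfl, ← Grp.card_map_mul_card_ker_inf π S,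
      (card_eq_one (H := π.ker ⊓ S)).2 (eq_bot_iff.2 fun s h1 => k s h1.2 h1.1), mul_one]

theorem lift_bar {H : Subgroup G} {E : Subgroup (H ⧸ pCore 2 H)} (hE : IsElementaryAbelian 3 E) :
    ∃ E' ≤ H, IsElementaryAbelian 3 E' ∧ Nat.card E' = Nat.card E := by
  obtain ⟨S, h1, h2⟩ := sh_lift (prj_surj H) (prj_ker H) hE
  have := h1.1
  exact ⟨S.map H.subtype, map_subtype_le _, ⟨inferInstance, by
    rintro _ ⟨x, hx, rfl⟩; rw [← map_pow, h1.2 x hx, map_one]⟩, by
    rw [card_map_of_injective H.subtype_injective, h2]⟩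

theorem Loc.rank_bar (h : Loc G p a b) {H : Subgroup G} (hH : 𝐐[H] ≠ ⊥) {E : Subgroup (H ⧸ pCore 2 H)}
    (hE : IsElementaryAbelian 3 E) : Nat.card E ≤ 9 := by
  obtain ⟨S, h1, h2, h3⟩ := lift_bar hE
  exact h3 ▸ Tl.rank h hH h1 h2

theorem card_bar_dvd {H : Subgroup G} (A : Subgroup (H ⧸ pCore 2 H)) : Nat.card A ∣ Nat.card H :=
  (card_subgroup_dvd_card A).trans (card_quotient_dvd_card _)

end Cfsg.Agent.W3
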