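import Cfsg.Agent.W3.Prod
import Cfsg.Agent.W3.ShH

/-!
The shape of the `{2, 3}`-subgroups of characteristic 2.
-/

set_option autoImplicit false
set_option linter.unusedSectionVars false
set_option linter.style.haveILetI false

namespace Cfsg.Agent.W3

open Cfsg Subgroup Cfsg.Agent.PLocal.Amb
open Cfsg.Agent.PLocal (maxEA)
open Cfsg.Agent.PLocal.CP (IsCharP)
open scoped Cfsg.Agent.PLocal.CP Cfsg.Agent.PLocal.JC

universe u

variable {G : Type u} [Group G] [Finite G] {p a b : ℕ}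

theorem Base.s23_two (h : Base G p a b) {H : Subgroup G} (hp : ¬ p ∣ Nat.card H) {Y : Type*} [Group Y]
    [Finite Y] (h1 : Nat.card Y ∣ Nat.card H) (h3 : ¬ 3 ∣ Nat.card Y) : IsPGroup 2 Y :=
  sh_two fun r hr hd => by
    rcases h.primes hr (hd.trans (h1.trans (card_subgroup_dvd_card H))) with e | rfl | rfl
    exacts [e, (h3 hd).elim, (hp (hd.trans h1)).elim]

theorem Base.s23_cen (h : Base G p a b) {H : Subgroup G} (hp : ¬ p ∣ Nat.card H) :
    𝐂[pCore 3 (H ⧸ pCore 2 H)] ≤ pCore 3 (H ⧸ pCore 2 H) := by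
  haveI := h.solv hp
  exact Grp.centralizer_pCore_le (eq_bot_iff.2 ((le_pCore' (h.s23_two hp (card_bar_dvd _)
    (Grp.not_dvd_card_pPrimeCore 3 _))).trans (Grp.pCore_quotient_pCore 2 H).le))

theorem s23_one {X : Type*} [Group X] {B : Subgroup X} (hB : IsPGroup 3 B) {t : X} {k : ℕ}
    (ht : t ^ 2 ^ k = 1) (h : t ∈ B) : t = 1 :=
  let ⟨_, hj⟩ := hB ⟨t, h⟩; sh_one (by norm_num) ht (congrArg Subtype.val hj)

theorem s23_cop {X : Type*} [Group X] {t : X} {k : ℕ} (ht : t ^ 2 ^ k = 1) : (orderOf t).Coprime 3 :=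
  (Nat.Coprime.pow_left k (by norm_num)).coprime_dvd_left (orderOf_dvd_of_pow_eq_one ht)

theorem Loc.s23_frame (h : Loc G p a b) {H : Subgroup G} (hH : Tl H) (hp : ¬ p ∣ Nat.card H) :
    ∃ K : Subgroup (H ⧸ pCore 2 H), IsPGroup 3 K ∧ (frattini K).index ≤ 9 ∧
      ∀ D : Subgroup (H ⧸ pCore 2 H), IsPGroup 2 D → D ≤ 𝐍[K] ∧ D ⊓ 𝐂[K] = ⊥ := by
  have hB := isPGroup_pCore' 3 (H ⧸ pCore 2 H)
  obtain ⟨K, k1, k2, k3, -, k4⟩ := Grp.CritExp.exists_char_amb hB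
  refine ⟨K, hB.to_le k1, (card_le_27 k3 fun E _ hE => h.rank_bar hH.ne hE).2, fun D hD =>
    ⟨le_normalizer_of_normal.trans k2, eq_bot_iff.2 fun t ht => ?_⟩⟩
  obtain ⟨k, e⟩ := hD ⟨t, ht.1⟩
  have e := congrArg Subtype.val e
  exact s23_one hB e (h.s23_cen hp (k4 t (le_normalizer_of_normal (mem_top t)) (s23_cop e) ht.2))

theorem Loc.idx16 (h : Loc G p a b) {H D : Subgroup G} (hH : Tl H) (hp : ¬ p ∣ Nat.card H)
    (hD : IsPGroup 2 D) (hDH : D ≤ H) : 𝐐[H].relIndex D ≤ 16 := by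
  obtain ⟨K, k1, k2, k3⟩ := h.s23_frame hH hp
  have := (isPGroup_subgroupOf hD H).map (prj H)
  exact card_img hDH ▸ (card_le_of_faithful this k1 (k3 _ this).1 (k3 _ this).2).2 k2

theorem Loc.idx4 (h : Loc G p a b) {H A : Subgroup G} (hH : Tl H) (hp : ¬ p ∣ Nat.card H)
    (hA : IsElementaryAbelian 2 A) (hAH : A ≤ H) : 𝐐[H].relIndex A ≤ 4 := by
  obtain ⟨K, k1, k2, k3⟩ := h.s23_frame hH hp
  have e := PLocal.isEA_map (PLocal.isEA_comap hA H.subtype_injective) (prj H)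
  have := PLocal.isEA_isPGroup e
  exact card_img hAH ▸ ea_le_four e k1 (k3 _ this).1 (k3 _ this).2 k2

theorem s23_uniq {S : Subgroup G} (h9 : NoNine S) (hS : IsPGroup 3 S) {x y : G} (hx : x ∈ S) (hy : y ∈ S)
    (ox : orderOf x = 3) (oy : orderOf y = 3) : zpowers x = zpowers y := by
  haveI : Nontrivial S := ⟨⟨⟨x, hx⟩, 1, fun e => by
    rw [show x = 1 from congrArg Subtype.val e, orderOf_one] at ox; omega⟩⟩
  haveI := hS.center_nontrivial
  obtain ⟨n, n0, hn⟩ := (hS.to_subgroup (center S)).nontrivial_iff_card.1 this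
  obtain ⟨z, oz⟩ := exists_prime_orderOf_dvd_card' (G := center S) 3 (hn ▸ dvd_pow_self 3 n0.ne')
  rw [← orderOf_coe, ← orderOf_coe] at oz
  have ea : ∀ {x : G}, orderOf x = 3 → IsElementaryAbelian 3 (zpowers x) := fun {x} ox =>
    ⟨inferInstance, fun a ha => orderOf_dvd_iff_pow_eq_one.1 (ox ▸ orderOf_dvd_of_mem_zpowers ha)⟩
  have k : ∀ x ∈ S, orderOf x = 3 → zpowers x = zpowers (z.1.1 : G) := fun x hx ox => by
    have c : zpowers x ≤ 𝐂[zpowers (z.1.1 : G)] := zpowers_le.2 (by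
      rw [centralizer_zpowers, mem_centralizer_singleton_iff]
      exact congrArg Subtype.val (mem_center_iff.1 z.2 ⟨x, hx⟩))
    have c1 := PLocal.card_sup_mul_card_inf (c.trans (centralizer_le_normalizer _))
    have c2 := card_dvd_of_le (inf_le_left : zpowers x ⊓ zpowers (z.1.1 : G) ≤ _)
    rw [Nat.card_zpowers, Nat.card_zpowers, ox, oz] at c1
    rw [Nat.card_zpowers, ox, Nat.dvd_prime Nat.prime_three] at c2
    rcases c2 with e | e
    · exact absurd (by rwa [e, mul_one] at c1) (h9 _ (sup_le (zpowers_le.2 hx) (zpowers_le.2 z.1.2))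
        (PLocal.isEA_sup (ea ox) (ea oz) c))
    · rw [← PLocal.eq_of_le_of_card_le (inf_le_left : zpowers x ⊓ zpowers (z.1.1 : G) ≤ _)
        (by rw [e, Nat.card_zpowers, ox])]
      exact PLocal.eq_of_le_of_card_le inf_le_right (by rw [e, Nat.card_zpowers, oz])
  rw [k x hx ox, k y hy oy]

section NoNine

variable (h : Loc G p a b) {H T : Subgroup G} (hH : Tl H) (hp : ¬ p ∣ Nat.card H) (h9 : NoNine H)
  (hT : IsSyl 2 T H)
include h hH hp h9 hT

theorem Loc.s23_z (h1 : H ≠ 𝐐[H]) : ∃ z : H ⧸ pCore 2 H, orderOf z = 3 ∧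
    (∀ x, orderOf x = 3 → zpowers x = zpowers z) ∧ ∀ t ∈ img H T, t * z = z * t → t = 1 := by
  have hB := isPGroup_pCore' 3 (H ⧸ pCore 2 H)
  have hC := h.s23_cen hp
  obtain ⟨n, hn⟩ := IsPGroup.iff_card.1 hB
  obtain ⟨z, oz⟩ := exists_prime_orderOf_dvd_card' (G := pCore 3 (H ⧸ pCore 2 H)) 3 (hn ▸ dvd_pow_self 3 (by
    rintro rfl
    rw [card_eq_one.1 hn] at hC
    refine h1 (le_antisymm (fun x hx => ⟨⟨x, hx⟩, (QuotientGroup.eq_one_iff _).1 (hC ?_), rfl⟩)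
      (pCoreOf_le 2 H))
    rintro _ rfl
    simp))
  rw [← orderOf_coe] at oz
  have k : ∀ x, orderOf x = 3 → zpowers x = zpowers z.1 := fun x ox => by
    obtain ⟨S, hS, k⟩ := exists_isSyl_ge (isPGroup_zpowers (p := 3) (x := x) ⟨1, by
      rw [pow_one, ← ox, pow_orderOf_eq_one]⟩) le_top
    refine s23_uniq (fun E _ hE e => ?_) hS.pgrp (k (mem_zpowers x))
      (hS.le_of_le_normalizer hB le_top le_normalizer_of_normal z.2) ox oz
    obtain ⟨E', e1, e2, e3⟩ := lift_bar hE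
    exact h9 E' e1 e2 (e3.trans e)
  refine ⟨z, oz, k, fun t ht c => ?_⟩
  obtain ⟨i, e⟩ := (isPGroup_subgroupOf hT.pgrp H).map (prj H) ⟨t, ht⟩
  have e := congrArg Subtype.val e
  refine s23_one hB e (hC (Grp.CritExp.mem_centralizer_of_fix hB (le_normalizer_of_normal (mem_top t))
    (s23_cop e) fun x _ x3 => ?_))
  by_cases x1 : x = 1
  · simp [x1]
  obtain ⟨j, rfl⟩ := (k x (orderOf_eq_prime x3 x1)).le (mem_zpowers x)
  exact (Commute.zpow_right c j).symm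

theorem Loc.idx2 : 𝐐[H].relIndex T ≤ 2 := by
  by_cases h1 : H = 𝐐[H]
  · rw [relIndex_eq_one.2 (hT.le.trans h1.le)]; omega
  obtain ⟨z, oz, k, f⟩ := h.s23_z hH hp h9 hT h1
  have z1 : z ≠ 1 := fun e => by rw [e, orderOf_one] at oz; omega
  rw [← card_img hT.le]
  refine (Nat.card_le_card_of_injective (fun t : img H T => (⟨t * z * t.1⁻¹, (k _ ((orderOf_conj' _ _).trans
    oz)).le (mem_zpowers _), fun e => z1 (conj_eq_one_iff.1 e)⟩ : ↥((zpowers z : Set (H ⧸ pCore 2 H)) \ {1})))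
    fun s t e => Subtype.ext (inv_mul_eq_one.1 (f _ (mul_mem (inv_mem t.2) s.2) ?_)).symm).trans ?_
  · have e : s.1 * z * s.1⁻¹ = t * z * t.1⁻¹ := congrArg Subtype.val e
    calc _ = t.1⁻¹ * (s * z * s.1⁻¹) * s := by group
      _ = _ := by rw [e]; group
  · rw [Nat.card_coe_set_eq, Set.ncard_sdiff_singleton_of_mem (one_mem _)]
    change Nat.card (zpowers z) - 1 ≤ 2
    rw [Nat.card_zpowers, oz]

theorem s23_ord {x : G} (hx : x ∈ H) (ox : orderOf x = 3) : orderOf (prj H ⟨x, hx⟩) = 3 := by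
  have x3 : (⟨x, hx⟩ : H) ^ 3 = 1 := Subtype.ext (ox ▸ pow_orderOf_eq_one x)
  refine orderOf_eq_prime (by rw [← map_pow, x3, map_one]) fun e => ?_
  obtain ⟨i, hi⟩ := prj_ker H ⟨_, e⟩
  rw [show x = 1 from congrArg Subtype.val (sh_one (q := 3) (j := 1) (by norm_num) (congrArg Subtype.val hi) x3),
    orderOf_one] at ox
  omega

theorem Loc.selfN (h1 : T ≠ 𝐐[H]) : H ⊓ 𝐍[T] ≤ T := by
  refine hT.le_of_normalizes (h.s23_two hp (card_dvd_of_le inf_le_left) fun r => h1 ?_) inf_le_left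
    inf_le_right
  obtain ⟨z, oz, k, f⟩ := h.s23_z hH hp h9 hT fun e => h1 (le_antisymm (hT.le.trans e.le) hT.pCoreOf_le)
  obtain ⟨⟨x, hx, xN⟩, ox⟩ := exists_prime_orderOf_dvd_card' 3 r
  rw [← orderOf_coe] at ox
  have zN : z ∈ 𝐍[img H T] := zpowers_le.2 (le_normalizer_map (prj H) ⟨⟨x, hx⟩, mem_normalizer_of_cj_le
    (cj_le_iff_forall.2 fun t ht => conj_mem_of_mem_normalizer (x := (t : G)) xN ht), rfl⟩)
    ((k _ (s23_ord h hH hp h9 hT hx ox)).ge (mem_zpowers z))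
  refine le_antisymm (fun t ht => ⟨⟨t, hT.le ht⟩, (QuotientGroup.eq_one_iff _).1
    (f _ ⟨⟨t, hT.le ht⟩, ht, rfl⟩ ?_), rfl⟩) hT.pCoreOf_le
  generalize e : ((⟨t, hT.le ht⟩ : H) : H ⧸ pCore 2 H) = s
  have hs : s ∈ img H T := ⟨_, ht, e⟩
  obtain ⟨i, e⟩ := (isPGroup_subgroupOf hT.pgrp H).map (prj H)
    ⟨_, mul_mem hs (conj_mem_of_mem_normalizer zN (inv_mem hs))⟩
  have : s * (z * s⁻¹ * z⁻¹) = 1 := s23_one (isPGroup_zpowers (x := z) ⟨1, by rw [pow_one, ← oz, pow_orderOf_eq_one]⟩)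
    (congrArg Subtype.val e) (by
      simpa only [mul_assoc] using mul_mem ((k _ ((orderOf_conj' s z).trans oz)).le (mem_zpowers _))
        (inv_mem (mem_zpowers z)))
  rwa [← mul_assoc, ← mul_assoc, mul_inv_eq_one, mul_inv_eq_iff_eq_mul] at this

theorem Loc.s23_P (h1 : T ≠ H) : ∃ P : Subgroup G, T ≤ P ∧ P ≤ H ∧ T.relIndex P = 3 ∧
    ∀ P', T ≤ P' → P' ≤ H → 3 ∣ Nat.card P' → P ≤ P' := by
  obtain ⟨z, oz, k, f⟩ := h.s23_z hH hp h9 hT fun e => h1 (le_antisymm hT.le (e.le.trans hT.pCoreOf_le))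
  have e := prm_img hT.pCoreOf_le hT.le
  refine ⟨prm H (img H T ⊔ zpowers z), e.ge.trans (map_mono (comap_mono le_sup_left)), map_subtype_le _,
    ?_, fun P h2 h3 r => ?_⟩
  · conv_lhs => rw [← e, relIndex_prm, e]
    have c := PLocal.card_sup_mul_card_inf (A := img H T) (B := zpowers z) fun t _ =>
      mem_normalizer_of_cj_le (by
        rw [MonoidHom.map_zpowers]; exact (k _ ((orderOf_conj' t z).trans oz)).le)
    rw [← Grp.card_mul_relIndex (le_sup_left (a := img H T)), Nat.card_zpowers, oz,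
      (card_eq_one (H := img H T ⊓ zpowers z)).2 (eq_bot_iff.2 fun t ht => f t ht.1 (by
        obtain ⟨j, rfl⟩ := ht.2; exact Commute.zpow_left rfl j)), mul_one] at c
    exact Nat.eq_of_mul_eq_mul_left Nat.card_pos c
  · obtain ⟨⟨x, hx⟩, ox⟩ := exists_prime_orderOf_dvd_card' 3 r
    rw [← orderOf_coe] at ox
    refine (map_mono (comap_mono (sup_le (map_mono (subgroupOf_mono H h2)) ?_))).trans
      (prm_img (hT.pCoreOf_le.trans h2) h3).le
    rw [← k _ (s23_ord h hH hp h9 hT (h3 hx) ox)]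
    exact zpowers_le.2 ⟨_, hx, rfl⟩

theorem Loc.exists_P (h1 : T ≠ H) : ∃ P : Subgroup G, T ≤ P ∧ P ≤ H ∧ T.relIndex P = 3 :=
  (h.s23_P hH hp h9 hT h1).imp fun _ r => ⟨r.1, r.2.1, r.2.2.1⟩

theorem Loc.uniq_P {P P' : Subgroup G} (h1 : T ≤ P) (h2 : P ≤ H) (h3 : T.relIndex P = 3)
    (h1' : T ≤ P') (h2' : P' ≤ H) (h3' : T.relIndex P' = 3) : P = P' := by
  obtain ⟨Q, q1, -, q2, q3⟩ := h.s23_P hH hp h9 hT fun e => by
    rw [relIndex_eq_one.2 (h2.trans e.ge)] at h3; omega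
  have k : ∀ P, T ≤ P → P ≤ H → T.relIndex P = 3 → Q = P := fun P h1 h2 h3 =>
    PLocal.eq_of_le_of_card_le (q3 P h1 h2 (h3 ▸ relIndex_dvd_card _ _)) (by
      rw [← Grp.card_mul_relIndex h1, ← Grp.card_mul_relIndex q1, h3, q2])
  rw [← k P h1 h2 h3, k P' h1' h2' h3']

end NoNine

theorem NoNine.conj {H : Subgroup G} (h9 : NoNine H) {x y : G} (hx : x ∈ H) (hy : y ∈ H)
    (ox : orderOf x = 3) (oy : orderOf y = 3) : ∃ g ∈ H, cj(g, zpowers x) = zpowers y := by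
  have k : ∀ {x : G}, orderOf x = 3 → IsPGroup 3 (zpowers x) := fun ox =>
    isPGroup_zpowers ⟨1, by rw [pow_one, ← ox, pow_orderOf_eq_one]⟩
  obtain ⟨S, hS, le⟩ := exists_isSyl_ge (k oy) (zpowers_le.2 hy)
  obtain ⟨g, hg, e⟩ := hS.exists_cj_le (k ox) (zpowers_le.2 hx)
  refine ⟨g, hg, ?_⟩
  rw [MonoidHom.map_zpowers]
  exact s23_uniq (fun E hE => h9 E (hE.trans hS.le)) hS.pgrp (e (conj_mem_cj g (mem_zpowers x)))
    (le (mem_zpowers y)) ((orderOf_conj' g x).trans ox) oy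

end Cfsg.Agent.W3
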