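import Cfsg.Agent.W3.ShP

/-!
Consequences of `Loc.shape`.
-/

set_option autoImplicit false
set_option linter.unusedSectionVars false
set_option linter.style.haveILetI false

namespace Cfsg.Agent.W3

open Cfsg Subgroup Cfsg.Agent.PLocal.Amb
open Cfsg.Agent.PLocal (maxEA)
open Cfsg.Agent.PLocal.CP (IsCharP)
open scoped Cfsg.Agent.PLocal.CP Cfsg.Agent.PLocal.JC

universe u

variable {G : Type u} [Group G] [Finite G] {p a b : ℕ}

namespace SQ

theorem exists_quot (H : Subgroup G) : ∃ (X : Type u) (_ : Group X) (_ : Finite X) (φ : H →* X),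
    Function.Surjective φ ∧ (∀ x : H, φ x = 1 ↔ (x : G) ∈ 𝐐[H]) ∧ Nat.card X = 𝐐[H].relIndex H ∧
      ∀ K ≤ H, Nat.card ((K.subgroupOf H).map φ) = 𝐐[H].relIndex K := by
  haveI : (𝐐[H].subgroupOf H).Normal := normal_subgroupOf' (le_normalizer_pCoreOf 2 H)
  refine ⟨H ⧸ 𝐐[H].subgroupOf H, inferInstance, inferInstance, QuotientGroup.mk' _,
    QuotientGroup.mk'_surjective _, fun x => QuotientGroup.eq_one_iff x, rfl, fun K hK => ?_⟩
  rw [← relIndex_ker, QuotientGroup.ker_mk', relIndex_subgroupOf hK]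

theorem exists_g {H : Subgroup G} (hp : p.Prime) (h : p ∣ Nat.card H) : ∃ g ∈ H, orderOf g = p := by
  haveI := Fact.mk hp
  obtain ⟨g, hg⟩ := exists_prime_orderOf_dvd_card' (G := H) p h
  exact ⟨g, g.2, by rwa [orderOf_coe]⟩

theorem two_le {n m k c : ℕ} (h : 2 ^ k ∣ n) (h' : n ∣ 2 ^ c * m) (hm : Odd m) : 2 ^ k ≤ 2 ^ c :=
  Nat.le_of_dvd (by positivity) ((Nat.Coprime.pow_left k (Nat.coprime_two_left.2 hm)).dvd_of_dvd_mul_right
    (h.trans h'))

theorem core17 {X : Type*} [Group X] [Finite X] {A : Subgroup X} (hA : ∀ x ∈ A, x ^ 2 = 1) {c : X}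
    (hc : IsPGroup 2 (zpowers c)) (h : ∀ k, 2 ^ k ∣ Nat.card X → 2 ^ k ≤ 2 * orderOf c) :
    Nat.card A ≤ 4 := by
  obtain ⟨T, hT, hAT⟩ := exists_isSyl_ge (p := 2) (R := A) (L := ⊤)
    (isPGroup_iff.2 fun x hx => ⟨1, hA x hx⟩) le_top
  obtain ⟨g, -, hg⟩ := hT.exists_cj_le hc le_top
  replace hg := zpowers_le.2 (hg (conj_mem_cj g (mem_zpowers c)))
  obtain ⟨k, hk⟩ := IsPGroup.iff_card.1 hT.pgrp
  have h1 := h k (hk ▸ card_subgroup_dvd_card T)
  rw [← orderOf_conj' g, ← hk, ← Nat.card_zpowers] at h1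
  generalize g * c * g⁻¹ = d at hg h1
  have h2 : (zpowers d).relIndex T ≤ 2 := by
    have := Grp.card_inf_mul_relIndex' (zpowers d) T
    rw [inf_eq_left.2 hg] at this
    refine Nat.le_of_mul_le_mul_left (c := Nat.card (zpowers d)) ?_ Nat.card_pos
    omega
  have h3 := (relIndex_le_of_le_right hAT index_ne_zero_of_finite).trans h2
  have h4 : Nat.card ↥(A ⊓ zpowers d) ≤ 2 := by
    haveI : IsCyclic ↥(A ⊓ zpowers d) := isCyclic_of_injective _ (inclusion_injective inf_le_right)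
    rw [← IsCyclic.exponent_eq_card]
    exact Nat.le_of_dvd two_pos (Monoid.exponent_dvd_of_forall_pow_eq_one fun x =>
      Subtype.ext (hA x x.2.1))
  rw [← Grp.card_inf_mul_relIndex' (zpowers d) A, inf_comm]
  exact Nat.mul_le_mul h4 h3

theorem core7 {X : Type*} [Group X] [Finite X] (hX : ∀ x : X, 7 ∣ orderOf x → orderOf x = 7)
    {S : Subgroup X} (hS : IsPGroup 2 S) {s t : X} (hs : s ∈ S) (ht : t ∈ S) (s1 : s ≠ 1) (t1 : t ≠ 1)
    (h : Nat.card S ≤ 2 ∨ Nat.card S ≤ 8 ∧ ∃ u ∈ 𝐍[S], orderOf u = 7) :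
    ∃ y, y * s * y⁻¹ = t := by
  classical
  have c1 : ((S : Set X) \ {1}).ncard + 1 = Nat.card S := by
    rw [Set.ncard_diff_singleton_add_one (one_mem S), ← Nat.card_coe_set_eq]; rfl
  rcases h with h | ⟨h, u, hu, ou⟩
  · exact ⟨1, by
      rw [one_mul, inv_one, mul_one]
      exact (Set.ncard_le_one (s := (S : Set X) \ {1}) (Set.toFinite _)).1 (by omega) s ⟨hs, s1⟩ t ⟨ht, t1⟩⟩
  have nc : ∀ i, 0 < i → i < 7 → u ^ i * s ≠ s * u ^ i := fun i i0 i7 e => by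
    obtain ⟨k, hk⟩ := (IsPGroup.iff_orderOf.1 hS) ⟨s, hs⟩
    rw [Subgroup.orderOf_mk] at hk
    have o1 : orderOf (u ^ i) = 7 := by
      rw [← ou]
      exact Nat.Coprime.orderOf_pow (by
        rw [ou]; exact (Nat.coprime_of_lt_prime i0.ne' i7 fact7.out))
    have o2 := Commute.orderOf_mul_eq_mul_orderOf_of_coprime e (by
      rw [o1, hk]; exact Nat.Coprime.pow_right k (by norm_num))
    rw [hX _ (by rw [o2, o1]; exact dvd_mul_right _ _), o1] at o2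
    exact s1 (orderOf_eq_one_iff.1 (by omega))
  have inj : Set.InjOn (fun i : ℕ => u ^ i * s * (u ^ i)⁻¹) (Set.Iio 7) := by
    have k : ∀ i j, i < j → j < 7 → u ^ i * s * (u ^ i)⁻¹ ≠ u ^ j * s * (u ^ j)⁻¹ := by
      intro i j ij j7 e
      obtain ⟨d, rfl⟩ := Nat.exists_eq_add_of_lt ij
      refine nc (d + 1) (by omega) (by omega) (mul_inv_eq_iff_eq_mul.1 ?_)
      rw [add_assoc, pow_add] at e
      calc _ = (u ^ i)⁻¹ * (u ^ i * u ^ (d + 1) * s * (u ^ i * u ^ (d + 1))⁻¹) * u ^ i := by group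
        _ = _ := by rw [← e]; group
    intro i hi j hj e
    rcases lt_trichotomy i j with r | r | r
    exacts [(k i j r hj e).elim, r, (k j i r hi e.symm).elim]
  have e := Set.eq_of_subset_of_ncard_le (s := (fun i : ℕ => u ^ i * s * (u ^ i)⁻¹) '' Set.Iio 7)
    (t := (S : Set X) \ {1}) (by
      rintro _ ⟨i, -, rfl⟩
      exact ⟨conj_mem_of_mem_normalizer (pow_mem hu i) hs, by simpa using s1⟩)
    (by rw [inj.ncard_image, Set.ncard_Iio_nat]; omega)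
  obtain ⟨i, -, r⟩ := e.ge ⟨ht, t1⟩
  exact ⟨_, r⟩

theorem not_mem (h : Base G p a b) {H : Subgroup G} {g : G} (og : orderOf g = p) : g ∉ 𝐐[H] :=
  fun k => h.not_dvd_two (isPGroup_pCoreOf 2 H) (og ▸ Subgroup.orderOf_dvd_natCard _ k)

/-- `N_H(⟨g⟩) ⊓ O₂(H) = 1` -/
theorem eq_one (h : Base G p a b) {H : Subgroup G} {g x : G} (hg : g ∈ H) (og : orderOf g = p)
    (hx : x ∈ 𝐍[zpowers g]) (hR : x ∈ 𝐐[H]) : x = 1 := by
  have h1 : x * g * x⁻¹ * g⁻¹ ∈ zpowers g :=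
    mul_mem (conj_mem_of_mem_normalizer hx (mem_zpowers g)) (inv_mem (mem_zpowers g))
  have h2 : x * g * x⁻¹ * g⁻¹ ∈ 𝐐[H] := by
    simpa [mul_assoc] using
      mul_mem hR (conj_mem_of_mem_normalizer (le_normalizer_pCoreOf 2 H hg) (inv_mem hR))
  have h3 : x * g * x⁻¹ * g⁻¹ = 1 := by
    rcases (Nat.dvd_prime h.pp).1 (og ▸ orderOf_dvd_of_mem_zpowers h1) with e | e
    · exact orderOf_eq_one_iff.1 e
    · exact (not_mem h e h2).elim
  exact mem_bot.1 ((h.inf_cent og (h.not_dvd_two (isPGroup_pCoreOf 2 H))).le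
    ⟨hR, mem_centralizer_singleton_iff.2 (mul_inv_eq_iff_eq_mul.1 (mul_inv_eq_one.1 h3))⟩)

theorem sq (h : Base G 7 a b) {H : Subgroup G} {g : G} (hg : g ∈ H) (og : orderOf g = 7)
    (h2 : 2 ∣ Nat.card ↥(H ⊓ 𝐍[zpowers g]))
    (hi : 𝐐[H].relIndex H = 14 ∨
      𝐐[H].relIndex H = 504 ∧ ∀ T, IsSyl 2 T H → 7 ∣ Nat.card ↥(H ⊓ 𝐍[T])) : Sq H := by
  intro t ht pt tR A hA hn
  obtain ⟨s, hs, os⟩ := exists_g Nat.prime_two h2
  have s1 : s ≠ 1 := fun e => by simp [e] at os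
  have s2 : s * s = 1 := by rw [← pow_two, ← os, pow_orderOf_eq_one]
  have sg : s * g * s⁻¹ = g⁻¹ := by
    have m := conj_mem_of_mem_normalizer hs.2 (mem_zpowers g)
    have c : g * (s * g * s⁻¹) = s * g * s⁻¹ * g := by
      obtain ⟨k, hk⟩ := m
      rw [← hk]; exact (Commute.self_zpow g k).eq
    rcases (Nat.dvd_prime h.pp).1 (og ▸ orderOf_dvd_of_mem_zpowers (mul_mem (mem_zpowers g) m)) with e | e
    · exact eq_inv_of_mul_eq_one_right (orderOf_eq_one_iff.1 e)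
    · refine (s1 (h.eq_one e (mul_inv_eq_iff_eq_mul.1 ?_) (by rw [os]; omega))).elim
      rw [c, show s * (s * g * s⁻¹ * g) * s⁻¹ = s * s * g * (s * s)⁻¹ * (s * g * s⁻¹) by group, s2,
        ← c]
      group
  obtain ⟨T, hT, tT⟩ := exists_isSyl_ge pt (zpowers_le.2 ht)
  obtain ⟨x, hx, sT⟩ := hT.exists_cj_le (R := zpowers s)
    (isPGroup_zpowers ⟨1, by rw [pow_one, pow_two, s2]⟩) (zpowers_le.2 hs.1)
  obtain ⟨X, _, _, φ, sur, ker, cX, cK⟩ := exists_quot H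
  have hX : ∀ y : X, 7 ∣ orderOf y → orderOf y = 7 := fun y hy => by
    obtain ⟨z, rfl⟩ := sur y
    have d := hy.trans (orderOf_map_dvd φ z)
    have e := orderOf_pow_orderOf_div (orderOf_pos z).ne' d
    rw [← orderOf_coe, coe_pow] at e
    have := orderOf_dvd_of_mem_zpowers (h.cent _ e ▸ mem_centralizer_singleton_iff.2
      (Commute.self_pow (z : G) _).eq)
    rw [e, orderOf_coe] at this
    exact Nat.dvd_antisymm ((orderOf_map_dvd φ z).trans this) hy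
  have o7 : ∀ z : H, orderOf (z : G) = 7 → orderOf (φ z) = 7 := fun z hz =>
    ((Nat.dvd_prime h.pp).1 (hz ▸ orderOf_coe z ▸ orderOf_map_dvd φ z)).resolve_left fun e =>
      not_mem h hz ((ker z).1 (orderOf_eq_one_iff.1 e))
  have pT : IsPGroup 2 ((T.subgroupOf H).map φ) := (hT.pgrp.comap_subtype).map φ
  obtain ⟨k, hk⟩ := IsPGroup.iff_card.1 pT
  have dT := hk ▸ cX ▸ card_subgroup_dvd_card ((T.subgroupOf H).map φ)
  obtain ⟨y, hy⟩ := core7 hX pT (s := φ (⟨x, hx⟩ * ⟨s, hs.1⟩ * ⟨x, hx⟩⁻¹)) (t := φ ⟨t, ht⟩)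
    (mem_map_of_mem φ (sT (conj_mem_cj x (mem_zpowers s)))) (mem_map_of_mem φ (tT (mem_zpowers t)))
    (fun e => s1 (eq_one h hg og hs.2 ((ker ⟨s, hs.1⟩).1 (by
      rwa [map_mul, map_mul, map_inv, conj_eq_one_iff] at e)))) (fun e => tR ((ker _).1 e))
    (hi.imp (fun e => hk ▸ two_le (c := 1) (m := 7) dT (by rw [e]; decide) (by decide)) fun e =>
      ⟨hk ▸ two_le (c := 3) (m := 63) dT (by rw [e.1]; decide) (by decide), by
        obtain ⟨u, hu, ou⟩ := exists_g h.pp (e.2 T hT)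
        refine ⟨φ ⟨u, hu.1⟩, le_normalizer_map φ (mem_map_of_mem φ ?_), o7 _ ou⟩
        rw [← subgroupOf_normalizer_eq hT.le]
        exact hu.2⟩)
  obtain ⟨y, rfl⟩ := sur y
  set g' : H := y * ⟨x, hx⟩ * ⟨g, hg⟩ * (y * ⟨x, hx⟩)⁻¹ with hg'
  have e1 : φ (g' * ⟨t, ht⟩ * g'⁻¹ * ⟨t, ht⟩⁻¹) = φ g' ^ 2 := by
    have e0 : φ ⟨s, hs.1⟩ * φ ⟨g, hg⟩ * (φ ⟨s, hs.1⟩)⁻¹ = (φ ⟨g, hg⟩)⁻¹ := by
      rw [← map_inv, ← map_inv, ← map_mul, ← map_mul]; exact congrArg φ (Subtype.ext sg)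
    simp only [hg', map_mul, map_inv, ← hy]
    generalize φ ⟨s, hs.1⟩ = s, φ ⟨g, hg⟩ = g, φ y = y, φ ⟨x, hx⟩ = x at e0
    calc _ = y * x * (g * (s * g * s⁻¹)⁻¹) * (y * x)⁻¹ := by group
      _ = _ := by rw [e0, pow_two]; group
  have d : 7 ∣ orderOf ((g' : G) * t * (g' : G)⁻¹ * t⁻¹) := by
    have := orderOf_map_dvd φ (g' * ⟨t, ht⟩ * g'⁻¹ * ⟨t, ht⟩⁻¹)
    rw [e1, Nat.Coprime.orderOf_pow, o7 g' ((orderOf_conj' _ _).trans og), ← orderOf_coe] at this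
    · exact this
    · rw [o7 g' ((orderOf_conj' _ _).trans og)]; norm_num
  have e := orderOf_pow_orderOf_div (orderOf_pos _).ne' d
  refine le_of_eq_of_le ?_ (relIndex_le_sq (hn g'.2) (K := centralizer {_}) fun z hz =>
    mem_centralizer_singleton_iff.2 (Commute.pow_right (Commute.mul_right
      (mem_centralizer_singleton_iff.1 hz.2) (Commute.inv_right (mem_centralizer_singleton_iff.1 hz.1)))
      (orderOf ((g' : G) * t * (g' : G)⁻¹ * t⁻¹) / 7)))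
  rw [← inf_relIndex_right, inf_comm, h.inf_cent e (h.not_dvd_two hA), relIndex_bot_left]

end SQ

open SQ

/-- Cauchy in `N_H(⟨g⟩)` -/
theorem kap_of_dvd {H : Subgroup G} {g : G} (hg : g ∈ H) (og : orderOf g = p)
    (h3 : 3 ∣ Nat.card ↥(H ⊓ 𝐍[zpowers g])) : Kap p H := by
  obtain ⟨k, hk, ok⟩ := exists_g Nat.prime_three h3
  exact ⟨g, hg, k, hk.1, og, ok, hk.2⟩

/-- from `shape` (`Base.solv` gives `13 ∣ |H|`) -/
theorem Loc.kap13 (h : Loc G 13 a b) {H : Subgroup G} (hH : Tl H) (hs : ¬ Group.IsSolvable H) :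
    Kap 13 H := by
  obtain ⟨g, hg, og⟩ := exists_g h.pp (by_contra fun k => hs (h.solv k))
  obtain ⟨e, h1, -, r | r | r | r | r⟩ := h.shape hH hg og
  · exact (hs r.2).elim
  · omega
  · omega
  · exact kap_of_dvd hg og (h1 ▸ r.2.mul_left _)
  · omega

/-- from `shape`: `8 ∣ |H : O₂(H)|` and `8 ≤ |O₂(H)|` (`Base.eight_le`), so `2 ^ 6 ∣ |G|` -/
theorem Loc.six_le (h : Loc G 7 a b) {H : Subgroup G} (hH : Tl H) (hs : ¬ Group.IsSolvable H) :
    6 ≤ b := by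
  obtain ⟨g, hg, og⟩ := exists_g h.pp (by_contra fun k => hs (h.solv k))
  have h8 : 8 ∣ 𝐐[H].relIndex H := by
    obtain ⟨e, -, -, r | ⟨-, -, r | r⟩ | r | r | r⟩ := h.shape hH hg og
    · exact (hs r.2).elim
    all_goals omega
  obtain ⟨k, hk⟩ := IsPGroup.iff_card.1 (isPGroup_pCoreOf 2 H)
  have h1 := h.eight_le og (isPGroup_pCoreOf 2 H) hH.ne (le_normalizer_pCoreOf 2 H hg)
  have h2 : 2 ^ 3 ∣ Nat.card 𝐐[H] := by
    rw [hk] at h1 ⊢
    exact pow_dvd_pow 2 ((Nat.pow_le_pow_iff_right one_lt_two).1 h1)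
  have h3 := Grp.card_inf_mul_relIndex' 𝐐[H] H
  rw [inf_eq_left.2 (pCoreOf_le 2 H)] at h3
  have h4 := (h3 ▸ mul_dvd_mul h2 h8).trans (card_subgroup_dvd_card H)
  exact (Nat.pow_le_pow_iff_right one_lt_two).1 (two_le (k := 6) (m := 7 * 3 ^ a) h4
    (by rw [h.card, mul_comm]) (Odd.mul (by decide) (Odd.pow (by decide))))

/-- from `shape`: `|D : D ⊓ O₂(H)|` is a power of 2 dividing `|H : O₂(H)|`, which is one of
`7 e, 56 e, 2016 e, 252 e` with `e ∣ 6` -/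
theorem Loc.idx64 (h : Loc G 7 a b) {H D : Subgroup G} (hH : Tl H) (hp : 7 ∣ Nat.card H)
    (hD : IsPGroup 2 D) (hDH : D ≤ H) : 𝐐[H].relIndex D ≤ 64 := by
  obtain ⟨g, hg, og⟩ := exists_g h.pp hp
  obtain ⟨X, _, _, φ, -, -, cX, cK⟩ := exists_quot H
  obtain ⟨k, hk⟩ := IsPGroup.iff_card.1 ((hD.comap_subtype (K := H)).map φ)
  have h1 := hk ▸ cX ▸ card_subgroup_dvd_card ((D.subgroupOf H).map φ)
  rw [← cK D hDH]
  refine hk ▸ two_le (c := 6) (m := 189) h1 ?_ (by decide)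
  obtain ⟨e, -, he, r | ⟨-, -, r | r⟩ | r | r | r⟩ := h.shape hH hg og
  · exact r.1 ▸ (mul_dvd_mul_left 7 he).trans (by decide)
  · exact r ▸ (mul_dvd_mul_left 56 he).trans (by decide)
  · exact r ▸ (mul_dvd_mul_left 2016 he).trans (by decide)
  · exact r.2.2.1 ▸ (mul_dvd_mul_left 252 he).trans (by decide)
  · omega
  · omega

/-- `p = 17`: `N_H(P) / P` is cyclic of order `e ∣ 16`, so `H` has a cyclic 2-subgroup `C` of order `e` with
`C ⊓ O₂(H) = 1`, and `|H : O₂(H)|₂ ≤ 2 e`. Put `A` and a conjugate of `C` in a Sylow 2-subgroup `T` of `H`: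
in `T̄ = T / O₂(H)` the cyclic group `C̄` has index `≤ 2`, so `|Ā| ≤ 2 |Ā ⊓ C̄| ≤ 4`. -/
theorem Loc.idx4_17 (h : Loc G 17 a b) {H A : Subgroup G} (hH : Tl H) (hp : 17 ∣ Nat.card H)
    (hA : IsElementaryAbelian 2 A) (hAH : A ≤ H) : 𝐐[H].relIndex A ≤ 4 := by
  obtain ⟨g, hg, og⟩ := exists_g h.pp hp
  obtain ⟨X, _, _, φ, -, ker, cX, cK⟩ := exists_quot H
  obtain ⟨e, h1, he, r⟩ := h.shape hH hg og
  obtain ⟨j, -, rfl⟩ := (Nat.dvd_prime_pow Nat.prime_two (m := 4)).1 he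
  obtain ⟨C, hC⟩ := exists_isSyl 2 (H ⊓ 𝐍[zpowers g])
  have cC : Nat.card C = 2 ^ j := by
    rw [hC.card_eq_pow, h1, Nat.factorization_mul (by positivity) (by positivity)]
    simp [Nat.prime_two, Nat.Prime.factorization (show Nat.Prime 17 by norm_num)]
  have hn : C ≤ 𝐍[zpowers g] := hC.le.trans inf_le_right
  haveI : IsCyclic C := by
    haveI := Fact.mk h.pp
    haveI : IsCyclic (ZMod (Nat.card (zpowers g)))ˣ := by
      rw [Nat.card_zpowers, og]; infer_instance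
    haveI : IsCyclic (MulAut (zpowers g)) :=
      isCyclic_of_surjective _ (IsCyclic.mulAutMulEquiv (zpowers g)).symm.surjective
    refine isCyclic_of_injective ((zpowers g).normalizerMonoidHom.comp (inclusion hn))
      ((injective_iff_map_eq_one _).2 fun d hd => ?_)
    have : inclusion hn d ∈ (zpowers g).normalizerMonoidHom.ker := hd
    rw [normalizerMonoidHom_ker, centralizer_zpowers] at this
    exact Subtype.ext (mem_bot.1 ((h.inf_cent og (h.not_dvd_two hC.pgrp)).le ⟨d.2, this⟩))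
  obtain ⟨c, hc⟩ := IsCyclic.exists_ofOrder_eq_natCard (α := C)
  have oc : orderOf (φ (inclusion (hC.le.trans inf_le_left) c)) = 2 ^ j := by
    rw [← cC, ← hc]
    exact orderOf_injective (φ.comp (inclusion (hC.le.trans inf_le_left)))
      ((injective_iff_map_eq_one _).2 fun d hd =>
        Subtype.ext (eq_one h.toBase hg og (hn d.2) ((ker _).1 hd))) c
  rw [← cK A hAH]
  refine core17 (c := φ (inclusion (hC.le.trans inf_le_left) c)) ?_
    (IsPGroup.of_card (by rw [Nat.card_zpowers, oc])) fun k hk => ?_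
  · rintro _ ⟨x, hx, rfl⟩
    rw [← map_pow, show x ^ 2 = 1 from Subtype.ext (hA.2 x hx), map_one]
  · rw [oc, ← pow_succ']
    refine two_le (m := 153) hk ?_ (by decide)
    rw [cX, show 2 ^ (j + 1) * 153 = 306 * 2 ^ j by ring]
    rcases r with r | r | r | r | r
    · exact r.1 ▸ mul_dvd_mul_right (by decide) _
    · omega
    · omega
    · omega
    · rw [r.2]

/-- `p = 7`. In `shape`, `3 ∣ e` gives `Kap`; else `e ∣ 2`. For `Sq` (cases `14` and `504`, `e = 2`), `R = O₂(H)`: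
an involution `s ∈ N_H(⟨g⟩)` inverts `g`, `s ∉ R`. Claim: every 2-element `t ∈ H - R` is `H`-conjugate to `s`
modulo `R`. For index 14 the Sylow 2-subgroups of `H / R` have order 2. For 504, with `T` Sylow, an
element `g'` of order 7 of `N_H(T)` acts on the 7 nontrivial cosets of `R` in `T` without fixed coset
(coprime action: the fixed points on `T / R` are the image of `C_T(g') = 1`), so
transitively. So WLOG `t ∈ s R`; then `w = g t g⁻¹ t⁻¹ ∈ g ^ 2 R`; some power `w'` of `w` has order 7, and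
`C(t) ⊓ C(g t g⁻¹) ≤ C(w')`, so `relIndex_le_sq` and `A ⊓ C(w') = 1` give the claim. -/
theorem Loc.seven (h : Loc G 7 a b) {H : Subgroup G} (hH : Tl H) (hp : 7 ∣ Nat.card H) :
    Kap 7 H ∨ 𝐐[H].relIndex H = 7 ∨ (𝐐[H].relIndex H = 14 ∧ Sq H) ∨
      (𝐐[H].relIndex H = 504 ∧ Sq H ∧ ∀ T, IsSyl 2 T H → 7 ∣ Nat.card ↥(H ⊓ 𝐍[T])) := by
  obtain ⟨g, hg, og⟩ := exists_g h.pp hp
  obtain ⟨e, h1, he, r⟩ := h.shape hH hg og
  by_cases h3 : 3 ∣ e
  · exact .inl (kap_of_dvd hg og (h1 ▸ h3.mul_left _))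
  have e2 : e = 1 ∨ e = 2 := by
    have := Nat.le_of_dvd (by norm_num) he
    interval_cases e <;> omega
  rcases r with r | r | r | r | r
  · rcases e2 with rfl | rfl
    · exact .inr (.inl r.1)
    · exact .inr (.inr (.inl ⟨r.1, sq h.toBase hg og (h1 ▸ by decide) (.inl r.1)⟩))
  · omega
  · obtain rfl : e = 2 := by omega
    exact .inr (.inr (.inr ⟨r.2.2.1, sq h.toBase hg og (h1 ▸ by decide)
      (.inr ⟨r.2.2.1, r.2.2.2 rfl⟩), r.2.2.2 rfl⟩))
  · omega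
  · omega

end Cfsg.Agent.W3
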