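import Cfsg.Agent.W3.Defs
import Cfsg.Agent.PLocal.ParChar

/-! Small counting tools. -/

set_option autoImplicit false
set_option linter.unusedSectionVars false
set_option linter.style.haveILetI false

namespace Cfsg.Agent.W3.TA

open Cfsg Subgroup Cfsg.Agent.PLocal.Amb
open Cfsg.Agent.PLocal (maxEA)
open Cfsg.Agent.PLocal.CP (IsCharP)
open scoped Cfsg.Agent.PLocal.CP Cfsg.Agent.PLocal.JC

universe u

variable {G : Type u} [Group G] [Finite G] {p a b : ℕ}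

theorem relIndex_cj (g : G) (A B : Subgroup G) : (cj(g, A)).relIndex cj(g, B) = A.relIndex B :=
  relIndex_map_map_of_injective _ _ (MulAut.conj g).injective

theorem card_eq (K A : Subgroup G) : Nat.card A = K.relIndex A * Nat.card ↥(A ⊓ K) := by
  rw [← Grp.card_inf_mul_relIndex' K A, inf_comm, mul_comm]

theorem card_le_mul {K A : Subgroup G} {n : ℕ} (h : K.relIndex A ≤ n) :
    Nat.card A ≤ n * Nat.card ↥(A ⊓ K) := by
  rw [card_eq K A]; exact Nat.mul_le_mul_right _ h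

theorem relIndex_le {K L A : Subgroup G} (h : A ⊓ K ≤ L) : L.relIndex A ≤ K.relIndex A := by
  rw [← inf_relIndex_left A K]
  exact relIndex_le_of_le_left h index_ne_zero_of_finite

theorem nV (H : Subgroup G) : H ≤ 𝐍[ΩZ[2, 𝐐[H]]] :=
  (le_normalizer_pCoreOf 2 H).trans (PLocal.CP.normalizer_le_normalizer_omegaZ _)

theorem V_le (H : Subgroup G) : ΩZ[2, 𝐐[H]] ≤ H := (PLocal.CP.omegaZ_le _).trans (pCoreOf_le 2 H)

theorem V_ne {H : Subgroup G} (h : 𝐐[H] ≠ ⊥) : ΩZ[2, 𝐐[H]] ≠ ⊥ :=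
  PLocal.WC.omegaZ_ne_bot (isPGroup_pCoreOf 2 H) h

theorem J_eq {H T : Subgroup G} (hT : IsSyl 2 T H) (h : 𝐉[T] ≤ 𝐐[H]) : 𝐉[𝐐[H]] = 𝐉[T] :=
  PLocal.thompsonSubgroupOf_eq_of_le h hT.pCoreOf_le

theorem le_NJ {H T : Subgroup G} (hT : IsSyl 2 T H) (h : 𝐉[T] ≤ 𝐐[H]) : H ≤ 𝐍[𝐉[T]] :=
  J_eq hT h ▸ (le_normalizer_pCoreOf 2 H).trans (PLocal.normalizer_le_normalizer_thompsonSubgroupOf _)

theorem sq_one {A : Subgroup G} (h : IsElementaryAbelian 2 A) {t : G} (ht : t ∈ A) : t * t = 1 :=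
  PLocal.JC.sq_eq_one_of_isEA h t ht

theorem cent_le {A : Subgroup G} {t : G} (ht : t ∈ A) : 𝐂[A] ≤ centralizer ({t} : Set G) :=
  centralizer_le (Set.singleton_subset_iff.2 ht)

theorem ea_le_cent {A : Subgroup G} (h : IsElementaryAbelian 2 A) {t : G} (ht : t ∈ A) :
    A ≤ centralizer ({t} : Set G) := (PLocal.isEA_le_centralizer h).trans (cent_le ht)

theorem ea_cj {A : Subgroup G} (h : IsElementaryAbelian 2 A) (g : G) :
    IsElementaryAbelian 2 cj(g, A) := PLocal.isEA_map h _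

theorem exists_dvd {H : Subgroup G} (hp : p.Prime) (h : p ∣ Nat.card H) :
    ∃ g ∈ H, orderOf g = p := by
  haveI := Fact.mk hp
  obtain ⟨g, hg⟩ := exists_prime_orderOf_dvd_card' (G := H) p h
  exact ⟨g, g.2, by rw [orderOf_coe, hg]⟩

theorem exists_max {P : Subgroup G → Prop} {H : Subgroup G} (h : P H) :
    ∃ M, H ≤ M ∧ P M ∧ ∀ K, M ≤ K → P K → K = M := by
  obtain ⟨M, h1, h2⟩ := Finite.exists_le_maximal h
  exact ⟨M, h1, h2.1, fun K h3 h4 => le_antisymm (h2.2 h4 h3) h3⟩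

/-- the failure of factorization inequality for an element -/
theorem ff' {T R A : Subgroup G} {t : G} (hA : A ∈ maxEA 2 T) (hR : R ≤ T) (ht : t ∈ A) :
    (centralizer ({t} : Set G)).relIndex ΩZ[2, R] ≤ R.relIndex A :=
  (relIndex_le (inf_le_right.trans (ea_le_cent hA.2.1 ht))).trans (ff hA hR le_rfl)

end Cfsg.Agent.W3.TA
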