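import Cfsg.Agent.W3.Star
import Cfsg.Agent.W3.Sh23
import Cfsg.Agent.W3.ShQ
import Cfsg.Agent.W3.TlA

/-!
The case `p = 17`.
-/

set_option autoImplicit false
set_option linter.unusedSectionVars false
set_option linter.style.haveILetI false

namespace Cfsg.Agent.W3

open Cfsg Subgroup Cfsg.Agent.PLocal.Amb
open Cfsg.Agent.PLocal (maxEA)
open Cfsg.Agent.PLocal.CP (IsCharP)
open scoped Cfsg.Agent.PLocal.CP Cfsg.Agent.PLocal.JC Pointwise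
open PLocal.CP (omegaZ_isEA omegaZ_le omegaZ_le_centralizer le_centralizer_omegaZ)
open TA

universe u

variable {G : Type u} [Group G] [Finite G] {p a b : ℕ}

theorem Loc.v17 (h : Loc G 17 a b) {H : Subgroup G} (hH : Tl H) (hp : 17 ∣ Nat.card H) :
    2 ^ 8 ≤ Nat.card ΩZ[2, 𝐐[H]] ∧ ∀ t ∈ H, t * t = 1 → t ∉ 𝐐[H] →
      8 ≤ (centralizer ({t} : Set G)).relIndex ΩZ[2, 𝐐[H]] := by
  have eV := omegaZ_isEA (p := 2) 𝐐[H]
  have k : 2 ^ 8 ≤ Nat.card ΩZ[2, 𝐐[H]] := by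
    obtain ⟨g, hg, og⟩ := exists_dvd h.pp hp
    have h1 := h.card_mod og (h.not_dvd_two (PLocal.isEA_isPGroup eV)) (nV H hg)
    obtain ⟨n, hn⟩ := PLocal.isEA_card eV
    have h2 : n ≠ 0 := fun e => V_ne hH.ne (card_eq_one.1 (by rw [hn, e, pow_zero]))
    rw [hn] at h1 ⊢
    refine Nat.pow_le_pow_right two_pos ?_
    by_contra! e
    interval_cases n <;> simp_all
  refine ⟨k, fun t ht h2 h3 => ?_⟩
  obtain ⟨w, hw, ow, hi⟩ := h.exists_inv ht h2 h3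
  have o : Odd (orderOf w) := by rcases ow with e | e <;> rw [e] <;> decide
  have h4 := h.le_four (PLocal.isEA_mono eV inf_le_left) (w := w)
    (fun e => by rcases ow with e' | e' <;> simp [e] at e') o inf_le_right
  have h5 := card_le_mul (relIndex_le_sq_of_inv h2 o hi (nV H hw))
  by_contra! e
  have h6 : (centralizer ({t} : Set G)).relIndex ΩZ[2, 𝐐[H]] ^ 2 ≤ 7 ^ 2 :=
    Nat.pow_le_pow_left (by omega) 2
  have := h5.trans (Nat.mul_le_mul h6 h4)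
  omega

theorem Loc.j17 (h : Loc G 17 a b) {H T : Subgroup G} (hH : Tl H) (hp : 17 ∣ Nat.card H)
    (hT : IsSyl 2 T H) : 𝐉[T] ≤ 𝐐[H] := by
  refine PLocal.thompsonSubgroupOf_le_iff.2 fun A hA t ht => by_contra fun e => ?_
  have h1 := (h.v17 hH hp).2 t (hT.le (hA.1 ht)) (sq_one hA.2.1 ht) e
  have h2 := ff' hA hT.pCoreOf_le ht
  have h3 := h.idx4_17 hH hp hA.2.1 (hA.1.trans hT.le)
  omega

namespace X17

/-- a maximal 2-local of order divisible by 17 -/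
structure Mx (a b : ℕ) (M T : Subgroup G) : Prop extends Loc G 17 a b where
  tl : Tl M
  dvd : 17 ∣ Nat.card M
  syl : IsSyl 2 T M
  max : ∀ K, M ≤ K → Tl K → K = M

variable {M T H : Subgroup G}

namespace Mx

variable (h : Mx a b M T)
include h

theorem eqN {B : Subgroup G} (hB : IsPGroup 2 B) (h1 : B ≠ ⊥) (hn : M ≤ 𝐍[B]) : 𝐍[B] = M :=
  h.max _ hn (h.tl_normalizer hB h1)

theorem J : 𝐉[T] ≤ 𝐐[M] := h.j17 h.tl h.dvd h.syl

theorem T_ne : T ≠ ⊥ := fun e => h.tl.ne (eq_bot_iff.2 (e ▸ h.syl.pCoreOf_le))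

theorem NJ : 𝐍[𝐉[T]] = M :=
  h.eqN (h.syl.pgrp.to_le (PLocal.thompsonSubgroupOf_le T))
    (PLocal.thompsonSubgroupOf_ne_bot_of_isPGroup h.syl.pgrp h.T_ne) (le_NJ h.syl h.J)

theorem sylT : IsSyl 2 T ⊤ :=
  isSyl_of_isSyl_normalizer (h.syl.mono (le_inf le_top le_normalizer)
    (inf_le_right.trans (h.NJ ▸ PLocal.normalizer_le_normalizer_thompsonSubgroupOf T)))

theorem ovr {S : Subgroup G} (hS : IsPGroup 2 S) (hQ : 𝐐[M] ≤ S) : S ≤ M := by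
  obtain ⟨g, -, hg⟩ := h.sylT.exists_le_cj hS le_top
  obtain ⟨A, hA⟩ := PLocal.maxEA_nonempty 2 T
  have h1 : A ≤ 𝐐[M] := (PLocal.le_thompsonSubgroupOf hA).trans h.J
  have h2 : A ∈ maxEA 2 cj(g, T) := PLocal.mem_maxEA_of_card_le
    (PLocal.map_mem_maxEA (MulAut.conj g).injective hA) (h1.trans (hQ.trans hg)) hA.2.1 (card_cj g A).le
  have h3 := PLocal.thompsonSubgroupOf_le_of_mem h2 h1 (hQ.trans hg)
  rw [J_eq h.syl h.J] at h3
  have h4 : 𝐉[T] = 𝐉[cj(g, T)] :=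
    eq_of_le_of_card_ge h3 (by rw [PLocal.JC.J_cj, card_cj])
  rw [← h.NJ, h4]
  exact hg.trans (PLocal.le_normalizer_thompsonSubgroupOf _)

theorem big : 2 ^ 8 ≤ Nat.card ΩZ[2, 𝐐[M]] := (h.v17 h.tl h.dvd).1

theorem idx {A : Subgroup G} (hA : IsElementaryAbelian 2 A) (hM : A ≤ M) :
    Nat.card A ≤ 4 * Nat.card ↥(A ⊓ 𝐐[M]) := card_le_mul (h.idx4_17 h.tl h.dvd hA hM)

theorem wc {x : G} (hx : cj(x, ΩZ[2, 𝐐[M]]) ≤ M) : cj(x, ΩZ[2, 𝐐[M]]) ≤ 𝐐[M] := by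
  intro t ht
  by_contra e
  have eV := omegaZ_isEA (p := 2) 𝐐[M]
  have eV' := ea_cj eV x
  have h1 := h.idx eV' hx
  have h2 := h.big
  rw [card_cj] at h1
  have h3 := h.star (PLocal.isEA_mono eV' (inf_le_left (b := 𝐐[M]))) (by omega)
  have c : cj(x, 𝐐[M]) ≤ 𝐂[cj(x, ΩZ[2, 𝐐[M]])] := by
    rw [centralizer_cj]; exact cj_mono x (le_centralizer_omegaZ _)
  have h4 := h.ovr (isPGroup_cj x⁻¹ h3) (cj_le_iff.1 (c.trans (centralizer_anti inf_le_left)))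
  have h5 : cj(x⁻¹, ΩZ[2, 𝐐[M]]) ≤ M :=
    (cj_mono _ ((omegaZ_le_centralizer _).trans (centralizer_anti inf_le_right))).trans h4
  have h6 := h.idx4_17 h.tl h.dvd (ea_cj eV x⁻¹) h5
  rw [← relIndex_cj x, cj_cj_inv] at h6
  have h7 := (h.v17 h.tl h.dvd).2 t (hx ht) (sq_one eV' ht) e
  have h8 := relIndex_le (A := ΩZ[2, 𝐐[M]]) (inf_le_right.trans (c.trans (cent_le ht)))
  omega

theorem key (hH : Par T H) (hp : ¬ 17 ∣ Nat.card H) {g : G} (hg : cj(g, ΩZ[2, 𝐐[M]]) ≤ 𝐐[M])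
    (hw : ∀ w ∈ H, ∃ k ∈ H, ∃ y, cj(y, ΩZ[2, 𝐐[M]]) ≤ 𝐐[M] ∧ g⁻¹ * w = k * y) :
    cj(g, ΩZ[2, 𝐐[M]]) ≤ 𝐐[H] := by
  intro t ht
  by_contra e
  have eV := omegaZ_isEA (p := 2) 𝐐[M]
  have QH : 𝐐[M] ≤ H := h.syl.pCoreOf_le.trans hH.le
  have RM : 𝐐[H] ≤ M := (h.sylT.mono hH.le le_top).pCoreOf_le.trans h.syl.le
  have t2 := sq_one (ea_cj eV g) ht
  obtain ⟨w, wH, ow, hi⟩ := h.exists_inv (QH (hg ht)) t2 e
  have o : Odd (orderOf w) := by rcases ow with e | e <;> rw [e] <;> decide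
  obtain ⟨k, kH, y, hy, e'⟩ := hw w wH
  have e1 := PLocal.isEA_mono (ea_cj eV y) (inf_le_left (b := 𝐐[H]))
  have h1 := card_le_mul (h.idx4 (h.tl_of_par h.sylT hH) hp (ea_cj eV y) (hy.trans QH))
  have h2 := h.idx (ea_cj e1 k)
    ((cj_le_of_mem_normalizer inf_le_right (le_normalizer_pCoreOf 2 H kH)).trans RM)
  have h3 := h.le_four (ea_cj (PLocal.isEA_mono (ea_cj e1 k) (inf_le_left (b := 𝐐[M]))) g) (w := w)
    (fun e => by rcases ow with e' | e' <;> simp [e] at e') o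
    (le_trans (le_inf ?_ ?_) (cent_inf_le t2 o hi))
  · have := h.big
    rw [card_cj] at h1 h2 h3
    omega
  · refine (cj_mono g (inf_le_right.trans (le_centralizer_omegaZ (p := 2) _))).trans ?_
    rw [← centralizer_cj]
    exact cent_le ht
  · refine (cj_mono g (inf_le_left.trans (cj_mono k inf_le_left))).trans ?_
    rw [← cj_mul, ← cj_mul, mul_assoc, ← e', mul_inv_cancel_left, centralizer_singleton_conj]
    exact cj_mono w ((omegaZ_le_centralizer _).trans (cent_le (hg ht)))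

end Mx

/-- words of bounded length -/
def W (H M : Subgroup G) (k : ℕ) : Set G := (H : Set G) * ((M : Set G) * H) ^ k

theorem W_succ (k : ℕ) : W H M (k + 1) = (H : Set G) * M * W H M k := by
  rw [W, W, pow_succ', mul_assoc, mul_assoc]

theorem W_succ' (k : ℕ) : W H M (k + 1) = W H M k * M * H := by
  rw [W, W, pow_succ, mul_assoc, mul_assoc]

theorem W_inv (k : ℕ) : (W H M k)⁻¹ = W H M k := by
  rw [W, mul_inv_rev, ← inv_pow, mul_inv_rev, inv_coe_set, inv_coe_set, mul_pow_mul]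

theorem Mx.all (h : Mx a b M T) (hH : Par T H) (hp : ¬ 17 ∣ Nat.card H) (k : ℕ) :
    ∀ g ∈ W H M k, cj(g, ΩZ[2, 𝐐[M]]) ≤ 𝐐[H] := by
  have l : ∀ u ∈ H, ∀ g, cj(g, ΩZ[2, 𝐐[M]]) ≤ 𝐐[H] → cj(u * g, ΩZ[2, 𝐐[M]]) ≤ 𝐐[H] :=
    fun u hu g hg => cj_mul u g _ ▸ cj_le_of_mem_normalizer hg (le_normalizer_pCoreOf 2 H hu)
  induction k with
  | zero =>
    intro g hg
    rw [W, pow_zero, mul_one] at hg
    have h1 : cj((1 : G), ΩZ[2, 𝐐[M]]) ≤ 𝐐[M] := (cj_one _).le.trans (omegaZ_le _)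
    simpa using l g hg 1 (h.key hH hp h1 fun w hw => ⟨w, hw, 1, h1, by simp⟩)
  | succ k ih =>
    have RM : 𝐐[H] ≤ M := (h.sylT.mono hH.le le_top).pCoreOf_le.trans h.syl.le
    have q : ∀ m ∈ M, ∀ g ∈ W H M k, cj(m * g, ΩZ[2, 𝐐[M]]) ≤ 𝐐[M] := fun m hm g hg =>
      cj_mul m g _ ▸ cj_le_of_mem_normalizer (h.wc ((ih g hg).trans RM)) (le_normalizer_pCoreOf 2 M hm)
    rw [W_succ]
    rintro _ ⟨_, ⟨u, hu, m, hm, rfl⟩, g, hg, rfl⟩
    simp only [mul_assoc]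
    refine l u hu _ (h.key hH hp (q m hm g hg) fun w hw => ?_)
    have h1 : g⁻¹ * m⁻¹ * w ∈ W H M (k + 1) := by
      rw [W_succ']
      exact Set.mul_mem_mul (Set.mul_mem_mul (W_inv (H := H) (M := M) k ▸ Set.inv_mem_inv.2 hg)
        (M.inv_mem hm)) hw
    rw [W_succ] at h1
    obtain ⟨_, ⟨u', hu', m', hm', rfl⟩, g', hg', e⟩ := h1
    exact ⟨u', hu', m' * g', q m' hm' g' hg', by rw [mul_inv_rev, ← e, ← mul_assoc]⟩

theorem Mx.le (h : Mx a b M T) (hH : Par T H) (hp : ¬ 17 ∣ Nat.card H) : H ≤ M := by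
  let X : Subgroup G := ⨆ g : {g // ∃ k, g ∈ W H M k}, cj(g.1, ΩZ[2, 𝐐[M]])
  have n : ∀ u ∈ H, ∀ m ∈ M, u * m ∈ 𝐍[X] := fun u hu m hm => by
    refine mem_normalizer_of_cj_le ?_
    rw [cj_iSup]
    refine iSup_le fun ⟨g, k, hg⟩ => ?_
    rw [← cj_mul]
    exact le_iSup_of_le (⟨_, k + 1, W_succ (H := H) (M := M) k ▸
      Set.mul_mem_mul (Set.mul_mem_mul hu hm) hg⟩ : {g // ∃ k, g ∈ W H M k}) le_rfl
  have h1 : X ≤ 𝐐[H] := iSup_le fun ⟨g, k, hg⟩ => h.all hH hp k g hg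
  have h2 : ΩZ[2, 𝐐[M]] ≤ X := le_iSup_of_le (⟨1, 0, by simp [W]⟩ : {g // ∃ k, g ∈ W H M k})
    (cj_one _).ge
  rw [← h.eqN ((isPGroup_pCoreOf 2 H).to_le h1) (fun e => V_ne h.tl.ne (eq_bot_iff.2 (e ▸ h2)))
    fun m hm => by simpa using n 1 H.one_mem m hm]
  exact fun u hu => by simpa using n u hu 1 M.one_mem

end X17

theorem Loc.seventeen [IsSimpleGroup G] (h : Loc G 17 a b)
    (top : ∀ T : Subgroup G, IsSyl 2 T ⊤ → charCore T = ⊤) {H : Subgroup G} (hH : Tl H)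
    (hp : 17 ∣ Nat.card H) : False := by
  obtain ⟨M, h1, h2, h3⟩ := exists_max hH
  obtain ⟨T, hT⟩ := exists_isSyl 2 M
  have m : X17.Mx a b M T :=
    { toLoc := h, tl := h2, dvd := hp.trans (card_dvd_of_le h1), syl := hT, max := h3 }
  have h4 : M ≠ ⊤ := m.NJ ▸ normalizer_ne_top h.toBase
    (hT.pgrp.to_le (PLocal.thompsonSubgroupOf_le T))
    (PLocal.thompsonSubgroupOf_ne_bot_of_isPGroup hT.pgrp m.T_ne)
  obtain ⟨K, k1, -, k2⟩ := exists_par hT.pgrp (top T m.sylT) h4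
  refine k2 (m.le k1 fun e => k2 ?_)
  have s := m.sylT.mono k1.le le_top
  exact m.NJ ▸ le_NJ s (h.j17 (h.tl_of_par m.sylT k1) e s)

end Cfsg.Agent.W3
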