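import Cfsg.Agent.W3.Nine
import Cfsg.Agent.W3.Sh23
import Cfsg.Agent.W3.ShQ
import Cfsg.Agent.W3.TlA
import Cfsg.Agent.W3.ShH
import Cfsg.Agent.PLocal.AmalgamGoldFin
import Cfsg.Agent.Solv.CoprimeSylow
import Cfsg.Agent.Grp.AutCard

/-!
`p = 7`, `b > 86`: the overgroups of `T`.
-/

set_option autoImplicit false
set_option linter.unusedSectionVars false
set_option linter.style.haveILetI false

namespace Cfsg.Agent.W3

open Cfsg Subgroup Cfsg.Agent.PLocal.Amb
open Cfsg.Agent.PLocal (maxEA)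
open Cfsg.Agent.PLocal.CP (IsCharP)
open scoped Cfsg.Agent.PLocal.CP Cfsg.Agent.PLocal.JC
open PLocal.CP (omegaZ_isEA omegaZ_le omegaZ_le_centralizer le_centralizer_omegaZ)
open TA

universe u

variable {G : Type u} [Group G] [Finite G] {p a b : ℕ}

variable {T : Subgroup G}

theorem Big.tl (h : Big a b T) {H : Subgroup G} (hH : Par T H) : Tl H := h.tl_of_par h.syl hH

theorem Big.sylH (h : Big a b T) {H : Subgroup G} (hH : T ≤ H) : IsSyl 2 T H := h.syl.mono hH le_top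

theorem Big.cardQ (h : Big a b T) {H : Subgroup G} (hH : Par T H) : 2 ^ 80 < Nat.card 𝐐[H] := by
  have h1 : 𝐐[H].relIndex T ≤ 64 := by
    by_cases hp : 7 ∣ Nat.card H
    · exact h.idx64 (h.tl hH) hp h.syl.pgrp hH.le
    · exact (h.idx16 (h.tl hH) hp h.syl.pgrp hH.le).trans (by norm_num)
  have h2 := card_le_mul h1
  have h3 : 2 ^ 87 ≤ 2 ^ b := Nat.pow_le_pow_right two_pos h.big
  have h4 := card_le_of_le (inf_le_right : T ⊓ 𝐐[H] ≤ _)
  rw [h.cardT] at h2
  omega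

/-- `|T| = |O₂(H)| |T : O₂(H)| ≤ 2 ^ 80 · 64` (`nine`, `idx16`, `idx64`, `Big.cardT`) -/
theorem Big.noNine (h : Big a b T) {H : Subgroup G} (hH : Par T H) : NoNine H := by
  intro E hE e h9
  exact absurd (h.nine (h.tl hH) hE e h9) (not_le.2 (h.cardQ hH))

theorem zpowers_cj (x g : G) : cj(x, zpowers g) = zpowers (x * g * x⁻¹) := by
  rw [MonoidHom.map_zpowers]; rfl

theorem mem_norm_of_inv {t w : G} (h : t * w * t⁻¹ = w⁻¹) : t ∈ 𝐍[zpowers w] :=
  cj_eq_iff.1 (by rw [zpowers_cj, h, zpowers_inv])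

/-- an involution normalizing a group of order 7 that is normalized by an element of order 3 normalizes a
group of order 3 -/
theorem Base.exists_three (h : Base G 7 a b) {H : Subgroup G} {w k t : G} (hw : w ∈ H) (hk : k ∈ H)
    (ow : orderOf w = 7) (ok : orderOf k = 3) (n : k ∈ 𝐍[zpowers w]) (t2 : t * t = 1)
    (nt : t ∈ 𝐍[zpowers w]) : ∃ k' ∈ H, orderOf k' = 3 ∧ t ∈ 𝐍[zpowers k'] := by
  have n1 := zpowers_le.2 n
  have c : t * k * t⁻¹ * k⁻¹ ∈ zpowers w := by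
    rw [← h.cent w ow, ← centralizer_zpowers]
    refine (mem_subgroupOf (K := 𝐍[zpowers w])
      (h := ⟨t, nt⟩ * ⟨k, n⟩ * ⟨t, nt⟩⁻¹ * ⟨k, n⟩⁻¹)).1 ?_
    rw [← normalizerMonoidHom_ker, MonoidHom.mem_ker]
    have := IsCyclic.mulAutMulEquiv (zpowers w)
    simp only [map_mul, map_inv]
    apply this.injective
    simp only [map_mul, map_inv, map_one]
    rw [mul_right_comm _ _ _⁻¹, mul_inv_cancel_right, mul_inv_cancel]
  have nK : zpowers t ≤ 𝐍[zpowers w ⊔ zpowers k] := zpowers_le.2 (mem_normalizer_of_cj_le (by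
    rw [cj_sup, cj_of_mem_normalizer nt, zpowers_cj]
    refine sup_le le_sup_left (zpowers_le.2 ?_)
    rw [← inv_mul_cancel_right (t * k * t⁻¹) k]
    exact mul_mem (mem_sup_left c) (mem_sup_right (mem_zpowers k))))
  have d := Grp.card_sup_dvd_of_le_normalizer n1
  rw [sup_comm, Nat.card_zpowers, Nat.card_zpowers, ow, ok] at d
  obtain ⟨P, hP⟩ := Solv.exists_invariant_sylow _ _ nK (Nat.Coprime.coprime_dvd_right d
    (Nat.Coprime.coprime_dvd_left (k := 2) (by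
      rw [Nat.card_zpowers]; exact orderOf_dvd_of_pow_eq_one (by rw [sq, t2])) (by norm_num)))
    (Or.inl inferInstance) 3
  have s := isSyl_map_subtype P
  have c1 := s.card_le (isPGroup_zpowers (x := k) ⟨1, by rw [pow_one, ← ok, pow_orderOf_eq_one]⟩)
    le_sup_right
  have c2 := (card_dvd_of_le s.le).trans d
  obtain ⟨j, hj⟩ := IsPGroup.iff_card.1 s.pgrp
  rw [Nat.card_zpowers, ok] at c1
  have c3 : Nat.card (P.1.map (zpowers w ⊔ zpowers k).subtype) = 3 := by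
    rw [hj] at c1 c2 ⊢
    rcases j with _ | _ | j
    · omega
    · rfl
    · exact absurd ((pow_dvd_pow 3 (by omega : 2 ≤ j + 1 + 1)).trans c2) (by norm_num)
  obtain ⟨k', h1, h2⟩ := exists_dvd Nat.prime_three c3.symm.dvd
  refine ⟨k', sup_le (zpowers_le.2 hw) (zpowers_le.2 hk) (s.le h1), h2, ?_⟩
  rw [eq_of_le_of_card_ge (zpowers_le.2 h1) (by rw [c3, Nat.card_zpowers, h2])]
  exact hP (mem_zpowers t)

theorem Base.syl7 (h : Base G 7 a b) {H : Subgroup G} {w : G} (hw : w ∈ H) (ow : orderOf w = 7) :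
    IsSyl 7 (zpowers w) H :=
  isSyl_of_not_dvd_relIndex (isPGroup_zpowers ⟨1, by rw [pow_one, ← ow, pow_orderOf_eq_one]⟩)
    (zpowers_le.2 hw) fun d => h.nsq (by
      refine Dvd.dvd.trans ?_ (card_subgroup_dvd_card H)
      rw [card_eq (zpowers w) H, inf_eq_right.2 (zpowers_le.2 hw), Nat.card_zpowers, ow, sq]
      exact Nat.mul_dvd_mul_right d 7)

/-- `R = O₂(H)`, `g, k` as in `Kap`. No four-group normalizes `⟨k⟩`: else `|C_R(k)| ≤ 2 ^ 20` (`bound`),
`|R| = |C_R(k)| ^ 3 ≤ 2 ^ 60` (`cube`), `|T| ≤ 2 ^ 66`. By `NoNine.conj` the same holds for every `w ∈ H` of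
order 3, and `C_R(w) ≠ 1`. (i) Let `t ∈ T - R` be an involution; it inverts `w ∈ H` of order 3 or 7
(`exists_inv`). Order 3: `t` normalizes `C_R(w) ≠ 1`, `exists_four` gives a four-group in `N(⟨w⟩)`. Order 7:
`⟨w⟩` is `H`-conjugate to `⟨g⟩`, so `N = N_H(⟨w⟩)` has order 42, `N / ⟨w⟩` is abelian, so by Frattini
(`⟨t⟩` Sylow in `⟨w, t⟩ ⊴ N`) `t` commutes with some `k' ∈ H` of order 3; again `exists_four` with `C_R(k')`.
(ii) `V = Ω₁Z(R)`: `|V| = |C_V(k)| ^ 3`, `|C_V(k)| ≤ 2`, `V ≠ 1`. (iii) `C_H(V)` is a normal 2-subgroup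
(`star`), so `= R`, and `H / R` embeds in `Aut V` of order 168 (`Grp/AutCard`). -/
theorem Big.kap (h : Big a b T) {H : Subgroup G} (hH : Par T H) (hk : Kap 7 H) :
    (∀ t ∈ T, t * t = 1 → t ∈ 𝐐[H]) ∧ Nat.card ΩZ[2, 𝐐[H]] = 8 ∧ 𝐐[H].relIndex H ∣ 168 := by
  obtain ⟨g, hg, k, hk, og, ok, n⟩ := hk
  have pR := isPGroup_pCoreOf 2 H
  have nR := le_normalizer_pCoreOf 2 H
  have cQ := h.cardQ hH
  have cube : ∀ w ∈ H, orderOf w = 3 → ∀ R : Subgroup G, IsPGroup 2 R → H ≤ 𝐍[R] →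
      Nat.card R = Nat.card ↥(R ⊓ centralizer ({w} : Set G)) ^ 3 := fun w hw ow R h1 h2 => by
    obtain ⟨x, hx, e⟩ := (h.noNine hH).conj hk hw ok ow
    refine h.cube (g := x * g * x⁻¹) (by rw [orderOf_conj', og]) ow ?_ h1
      (h2 (mul_mem (mul_mem hx hg) (inv_mem hx))) (h2 hw)
    rw [← zpowers_cj, normalizer_cj]
    exact cj_mono x (zpowers_le.2 n) (e ▸ mem_zpowers w)
  have cn : ∀ w : G, centralizer ({w} : Set G) ≤ 𝐍[zpowers w] := fun w =>
    (centralizer_zpowers w).ge.trans (centralizer_le_normalizer _)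
  have no4 : ∀ w ∈ H, orderOf w = 3 → ∀ U : Subgroup G, IsElementaryAbelian 2 U → Nat.card U = 4 →
      U ≤ 𝐍[zpowers w] → False := fun w hw ow U u1 u2 u3 => by
    have h1 := Nat.pow_le_pow_left (h.bound ow u1 u2 u3 (pR.to_le (inf_le_left (b := centralizer {w})))
      (inf_le_right.trans (cn w))) 3
    rw [← cube w hw ow _ pR nR] at h1
    omega
  have key : ∀ t ∈ H, t * t = 1 → t ∉ 𝐐[H] → ∀ w ∈ H, orderOf w = 3 → t ∉ 𝐍[zpowers w] :=
    fun t ht t2 tR w hw ow tn => by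
      obtain ⟨U, u1, u2, u3⟩ := exists_four (pR.to_le (inf_le_left (b := centralizer {w})))
        (fun e => by have := cube w hw ow _ pR nR; rw [e, card_bot] at this; omega) t2
        (fun e => tR e.1) (le_normalizer_inf (zpowers_le.2 (nR ht)) (zpowers_le.2
          (centralizer_zpowers w ▸ normalizer_le_normalizer_centralizer _ tn)) (mem_zpowers t))
      exact no4 w hw ow U u1 u2 (u3.trans (sup_le (inf_le_right.trans (cn w)) (zpowers_le.2 tn)))
  have eV := omegaZ_isEA (p := 2) 𝐐[H]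
  have pV := PLocal.isEA_isPGroup eV
  have c8 : Nat.card ΩZ[2, 𝐐[H]] = 8 := by
    have h1 := cube k hk ok _ pV (nV H)
    have h2 := h.eight_le og pV (V_ne hH.ne) (nV H hg)
    have e := PLocal.isEA_mono eV (inf_le_left (b := centralizer {k}))
    have h3 := h.le_four e (by rintro rfl; simp at ok) (by rw [ok]; decide) inf_le_right
    have h4 := no4 k hk ok _ e
    obtain ⟨j, hj⟩ := PLocal.isEA_card e
    rw [hj] at h1 h3 h4
    have : j ≤ 2 := (Nat.pow_le_pow_iff_right (a := 2) (by norm_num)).1 h3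
    interval_cases j
    · omega
    · exact h1
    · exact (h4 rfl (inf_le_right.trans (cn k))).elim
  refine ⟨fun t ht t2 => by_contra fun tR => ?_, c8, ?_⟩
  · obtain ⟨w, hw, ow | ow, i⟩ := h.exists_inv (hH.le ht) t2 tR
    · exact key t (hH.le ht) t2 tR w hw ow (mem_norm_of_inv i)
    · obtain ⟨x, hx, e⟩ := (h.syl7 hw ow).exists_cj_eq (h.syl7 hg og)
      obtain ⟨k', h1, h2, h3⟩ := h.exists_three hw (mul_mem (mul_mem hx hk) (inv_mem hx)) ow
        (by rw [orderOf_conj', ok]) (by rw [← e, normalizer_cj]; exact conj_mem_cj x n) t2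
        (mem_norm_of_inv i)
      exact key t (hH.le ht) t2 tR k' h1 h2 h3
  · have e : 𝐐[H] = H ⊓ 𝐂[ΩZ[2, 𝐐[H]]] :=
      le_antisymm (le_inf (pCoreOf_le 2 H) (le_centralizer_omegaZ _))
        (le_pCoreOf ((h.star eV c8.ge).to_le inf_le_right) inf_le_left
          (le_normalizer_inf le_normalizer (le_normalizer_centralizer (nV H))))
    have h1 := Grp.card_mulAut_of_elemAb (V := ΩZ[2, 𝐐[H]]) (p := 2) (r := 3)
      (fun x y => Subtype.ext (ea_le_cent eV y.2 x.2 y rfl).symm)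
      (fun x => Subtype.ext (by rw [sq]; exact sq_one eV x.2)) c8
    have h2 := card_subgroup_dvd_card ((normalizerMonoidHom _).comp (inclusion (nV H))).range
    rw [h1, ← index_ker, ← MonoidHom.comap_ker, normalizerMonoidHom_ker] at h2
    rw [e, inf_relIndex_left]
    exact h2

/-- If `A ∈ 𝒜(T)`, `t ∈ A - R`, `V = Ω₁Z(R)`: `|V : C_V(t)| ≤ |V : V ⊓ A| ≤ |A : A ⊓ R| ≤ 2` (`ff`), so `|V| ≤ 4` by
`Sq`, but `|V| ≥ 8` (`eight_le`). -/
theorem Big.j14 (h : Big a b T) {H : Subgroup G} (hH : Par T H) (h14 : 𝐐[H].relIndex H = 14)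
    (hs : Sq H) : 𝐉[T] ≤ 𝐐[H] := by
  have sT := h.sylH hH.le
  refine PLocal.thompsonSubgroupOf_le_iff.2 fun A hA t ht => by_contra fun e => ?_
  have pV := PLocal.isEA_isPGroup (omegaZ_isEA (p := 2) 𝐐[H])
  have pA := PLocal.isEA_isPGroup hA.2.1
  have h1 := hs t (hH.le (hA.1 ht)) (pA.to_le (zpowers_le.2 ht)) e _ pV (nV H)
  have h2 := ff' hA sT.pCoreOf_le ht
  have h3 : 𝐐[H].relIndex A ≤ 2 := by
    have d : 𝐐[H].relIndex A ∣ 14 := by
      rw [← h14, ← card_img (hA.1.trans hH.le), ← card_img le_rfl]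
      exact card_dvd_of_le (map_mono (subgroupOf_mono _ (hA.1.trans hH.le)))
    obtain ⟨j, hj⟩ := pA.index (𝐐[H].subgroupOf A)
    rw [relIndex, hj] at d ⊢
    rcases j with _ | _ | j
    · omega
    · rfl
    · exact absurd ((pow_dvd_pow 2 (by omega : 2 ≤ j + 1 + 1)).trans d) (by norm_num)
  obtain ⟨g, hg, og⟩ := exists_dvd (H := H) h.pp (by
    rw [card_eq 𝐐[H] H, h14]; exact Dvd.dvd.mul_right (by norm_num) _)
  have h4 := h.eight_le og pV (V_ne hH.ne) (nV H hg)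
  have h5 := Nat.pow_le_pow_left (h2.trans h3) 2
  omega

/-- Goldschmidt's bound `S2751` with `M₁ = P`, `M₂ = P'`: `P ⊓ P' = T`; `P ⧸ O₂(P) ≅ S₃` (the action on the
three cosets of `T` has kernel the core of `T`, which is `O₂(P)`, and image of order divisible by 3, not
of order 3 as `T` is not normal in `P`); if `O₂(P ⊔ P') = 1` then `|T| ≤ 2 ^ 7`. -/
theorem Big.gold (h : Big a b T) (hN : 𝐍[T] ≤ T) {P P' : Subgroup G} (h1 : T ≤ P)
    (h3 : T.relIndex P = 3) (h1' : T ≤ P') (h3' : T.relIndex P' = 3) (hne : P ≠ P') :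
    Par T (P ⊔ P') := by
  have key : ∀ P : Subgroup G, T ≤ P → T.relIndex P = 3 → 𝐐[P].relIndex T = 2 := fun P h1 h3 => by
    have sT := h.sylH h1
    have hk : (MulAction.toPermHom P (P ⧸ T.subgroupOf P)).ker = pCore 2 P := by
      rw [← normalCore_eq_ker]
      refine le_antisymm (le_pCore' ((isPGroup_subgroupOf sT.pgrp P).to_le (normalCore_le _))) ?_
      rw [← pCoreOf_subgroupOf]
      haveI := normal_subgroupOf' (le_normalizer_pCoreOf 2 P)
      exact normal_le_normalCore.2 (subgroupOf_mono _ sT.pCoreOf_le)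
    have d := card_subgroup_dvd_card (MulAction.toPermHom P (P ⧸ T.subgroupOf P)).range
    rw [← index_ker, hk, Nat.card_perm, show Nat.card (P ⧸ T.subgroupOf P) = 3 from h3,
      ← pCoreOf_subgroupOf, ← relIndex, ← relIndex_mul_relIndex _ _ _ sT.pCoreOf_le h1, h3] at d
    refine ((Nat.dvd_prime Nat.prime_two).1 (Nat.dvd_of_mul_dvd_mul_right (by norm_num : 0 < 3) d)).resolve_left
      fun e => ?_
    have e2 : 𝐐[P] = T := le_antisymm sT.pCoreOf_le (relIndex_eq_one.1 e)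
    rw [relIndex_eq_one.2 ((le_normalizer_pCoreOf 2 P).trans (e2.symm ▸ hN))] at h3
    omega
  have e : P ⊓ P' = T := by
    have m := relIndex_mul_relIndex _ _ _ (le_inf h1 h1') (inf_le_left : P ⊓ P' ≤ P)
    rw [h3] at m
    rcases (Nat.dvd_prime Nat.prime_three).1 (Dvd.intro _ m) with k | k
    · exact le_antisymm (relIndex_eq_one.1 k) (le_inf h1 h1')
    · rw [k] at m
      have l : P ≤ P' := (relIndex_eq_one.1 (by omega : (P ⊓ P').relIndex P = 1)).trans inf_le_right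
      have m' := relIndex_mul_relIndex _ _ _ h1 l
      rw [h3, h3'] at m'
      exact absurd (le_antisymm l (relIndex_eq_one.1 (by omega))) hne
  refine ⟨h1.trans le_sup_left, fun k => ?_⟩
  have s1 := h.sylH h1
  have s2 := h.sylH h1'
  have := PLocal.Amal.goldschmidt_bound (P₁ := P) (P₂ := P') (e ▸ ⟨s1.le, s1.pgrp, s1.max⟩)
    (e ▸ ⟨s2.le, s2.pgrp, s2.max⟩) (e ▸ h3) (e ▸ h3') (e ▸ key P h1 h3) (e ▸ key P' h1' h3')
    fun N h4 n1 n2 => eq_bot_iff.2 (k ▸ le_pCoreOf (s1.pgrp.to_le (e ▸ h4))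
      (h4.trans (inf_le_left.trans le_sup_left)) (sup_le n1 n2))
  rw [e, h.cardT] at this
  have h5 : 2 ^ 87 ≤ 2 ^ b := Nat.pow_le_pow_right two_pos h.big
  omega

end Cfsg.Agent.W3
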