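import Cfsg.Agent.W3.P7a
import Cfsg.Agent.W3.TlA

/-!
`p = 7`, `b > 86`: the case `7 ∣ |N(T)|`.
-/

set_option autoImplicit false
set_option linter.unusedSectionVars false
set_option linter.style.haveILetI false

namespace Cfsg.Agent.W3

open Cfsg Subgroup Cfsg.Agent.PLocal.Amb
open Cfsg.Agent.PLocal (maxEA)
open Cfsg.Agent.PLocal.CP (IsCharP)
open scoped Cfsg.Agent.PLocal.CP Cfsg.Agent.PLocal.JC
open PLocal.CP (omegaZ_isEA omegaZ_le omegaZ_le_centralizer le_centralizer_omegaZ)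
open TA

universe u

variable {G : Type u} [Group G] [Finite G] {p a b : ℕ}

variable {T : Subgroup G}

namespace X7

theorem idx_dvd {H D R : Subgroup G} (hn : H ≤ 𝐍[R]) (hD : D ≤ H) : R.relIndex D ∣ R.relIndex H := by
  haveI := normal_subgroupOf' hn
  rw [← relIndex_subgroupOf hD]
  exact relIndex_dvd_index_of_normal _ _

theorem idx_pow {D : Subgroup G} (hD : IsPGroup 2 D) (R : Subgroup G) : ∃ k, R.relIndex D = 2 ^ k := by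
  obtain ⟨n, hn⟩ := IsPGroup.iff_card.1 hD
  obtain ⟨k, -, e⟩ := (Nat.dvd_prime_pow Nat.prime_two).1 (hn ▸ relIndex_dvd_card R D)
  exact ⟨k, e⟩

theorem relIndex_le_card {A K : Subgroup G} {t : G} (h : ∀ v ∈ A, v * t * v⁻¹ * t⁻¹ ∈ K) :
    (centralizer ({t} : Set G)).relIndex A ≤ Nat.card K := by
  refine (PLocal.JC.relIndex_centralizer_le A t ((· * t) '' (K : Set G)) fun v hv =>
    ⟨_, h v hv, by simp⟩).trans ?_
  rw [Set.ncard_image_of_injective _ (mul_left_injective t)]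
  rfl

theorem T_ne (h : Big a b T) : T ≠ ⊥ := fun e => by
  have := h.cardT
  rw [e, card_bot, eq_comm, Nat.pow_eq_one] at this
  have := h.big
  omega

theorem syl (h : Big a b T) {H : Subgroup G} (hH : Par T H) : IsSyl 2 T H := h.syl.mono hH.le le_top

theorem Z_le (h : Big a b T) {H : Subgroup G} (hH : Par T H) : ΩZ[2, T] ≤ ΩZ[2, 𝐐[H]] :=
  (h.tl_of_par h.syl hH).ch.omegaZ_le (syl h hH)

theorem eq_of_seven (h : Big a b T) {H : Subgroup G} (hH : Par T H) (e : 𝐐[H].relIndex H = 7) :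
    H ≤ 𝐍[T] := by
  have s : IsSyl 2 𝐐[H] H := isSyl_of_not_dvd_relIndex (isPGroup_pCoreOf 2 H) (pCoreOf_le 2 H)
    (by rw [e]; decide)
  rw [s.eq h.syl.pgrp (syl h hH).pCoreOf_le hH.le]
  exact le_normalizer_pCoreOf 2 H

/-- a 2-local properly containing `N(T)` -/
structure Gd (T H : Subgroup G) : Prop where
  par : Par T H
  le : 𝐍[T] ≤ H
  nle : ¬ H ≤ 𝐍[T]

variable (h : Big a b T) (h7 : 7 ∣ Nat.card 𝐍[T])
include h h7

theorem Z8 : 8 ≤ Nat.card ΩZ[2, T] := by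
  obtain ⟨g, hg, og⟩ := exists_dvd h.pp h7
  exact h.eight_le og (PLocal.CP.isPGroup_omegaZ T) (PLocal.WC.omegaZ_ne_bot h.syl.pgrp (T_ne h))
    (PLocal.CP.normalizer_le_normalizer_omegaZ T hg)

theorem CZ : 𝐂[ΩZ[2, T]] = T :=
  h.syl.eq (h.star (omegaZ_isEA T) (Z8 h h7)) (le_centralizer_omegaZ T) le_top

theorem NZ : 𝐍[ΩZ[2, T]] ≤ 𝐍[T] := by
  have := normalizer_le_normalizer_centralizer ΩZ[2, T]
  rwa [CZ h h7] at this

variable {H : Subgroup G} (hH : Gd T H)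
include hH

theorem Gd.cases : Sq H ∧ (𝐐[H].relIndex H = 14 ∨ 𝐐[H].relIndex H = 504) := by
  rcases h.seven (h.tl_of_par h.syl hH.par) (h7.trans (card_dvd_of_le hH.le)) with e | e | e | e
  · refine (hH.nle (le_trans ?_ (NZ h h7))).elim
    rw [eq_of_le_of_card_ge (Z_le h hH.par) ((h.kap hH.par e).2.1.trans_le (Z8 h h7))]
    exact nV H
  · exact (hH.nle (eq_of_seven h hH.par e)).elim
  · exact ⟨e.2, .inl e.1⟩
  · exact ⟨e.2.1, .inr e.1⟩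

theorem Gd.idx {D : Subgroup G} (hD : IsPGroup 2 D) (hDH : D ≤ H) : 𝐐[H].relIndex D ≤ 8 := by
  have h1 := idx_dvd (le_normalizer_pCoreOf 2 H) hDH
  obtain ⟨k, hk⟩ := idx_pow hD 𝐐[H]
  rw [hk] at h1 ⊢
  refine Nat.pow_le_pow_right two_pos (show k ≤ 3 from ?_)
  by_contra! e
  have h2 := (pow_dvd_pow 2 e).trans h1
  rcases (hH.cases h h7).2 with e | e <;> rw [e] at h2 <;> norm_num at h2

theorem Gd.sq {t : G} (ht : t ∈ T) (e : t ∉ 𝐐[H]) {A : Subgroup G} (hA : IsPGroup 2 A)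
    (hn : H ≤ 𝐍[A]) : Nat.card A ≤ (centralizer ({t} : Set G)).relIndex A ^ 2 :=
  (hH.cases h h7).1 t (hH.par.le ht) (h.syl.pgrp.to_le (zpowers_le.2 ht)) e A hA hn

theorem Gd.fix {t : G} (ht : t ∈ T) (e : t ∉ 𝐐[H])
    (h8 : (centralizer ({t} : Set G)).relIndex ΩZ[2, 𝐐[H]] ≤ 8 ∨ Nat.card ΩZ[2, 𝐐[H]] = 64) :
    ΩZ[2, 𝐐[H]] ⊓ centralizer ({t} : Set G) = ΩZ[2, T] ∧ Nat.card ΩZ[2, T] = 8 ∧
      Nat.card ΩZ[2, 𝐐[H]] = 64 := by
  have h1 := hH.sq h h7 ht e (PLocal.CP.isPGroup_omegaZ _) (nV H)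
  have h2 := card_eq (centralizer ({t} : Set G)) ΩZ[2, 𝐐[H]]
  have h3 : ΩZ[2, T] ≤ ΩZ[2, 𝐐[H]] ⊓ centralizer ({t} : Set G) :=
    le_inf (Z_le h hH.par) ((omegaZ_le_centralizer T).trans (cent_le ht))
  have h4 := card_le_of_le h3
  have h5 := Z8 h h7
  generalize (centralizer ({t} : Set G)).relIndex ΩZ[2, 𝐐[H]] = i at h1 h2 h8
  have h6 : i ≤ 8 := h8.elim id fun e => by nlinarith
  have h0 : 0 < i := Nat.pos_of_ne_zero fun e => by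
    rw [e, zero_mul] at h2; exact Nat.card_pos.ne' h2
  have h9 := Nat.le_of_mul_le_mul_left (pow_two i ▸ h2 ▸ h1) h0
  refine ⟨(eq_of_le_of_card_ge h3 (by omega)).symm, by omega, ?_⟩
  rw [h2, show i = 8 by omega, show Nat.card ↥(ΩZ[2, 𝐐[H]] ⊓ centralizer ({t} : Set G)) = 8 by omega]

end X7

open X7

namespace X7

/-- the maximal 2-local `M₁` -/
structure Mx (a b : ℕ) (T M : Subgroup G) : Prop extends Big a b T where
  dvd : 7 ∣ Nat.card 𝐍[T]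
  gd : Gd T M
  v64 : Nat.card ΩZ[2, 𝐐[M]] = 64
  max : ∀ K, M ≤ K → Par T K → K = M

namespace Mx

variable {M : Subgroup G} (h : Mx a b T M)
include h

theorem eqN {B : Subgroup G} (hB : IsPGroup 2 B) (h1 : B ≠ ⊥) (hn : M ≤ 𝐍[B]) : 𝐍[B] = M :=
  h.max _ hn (par_normalizer hB h1 (h.gd.par.le.trans hn))

theorem fix {t : G} (ht : t ∈ M) (h2 : IsPGroup 2 (zpowers t)) (e : t ∉ 𝐐[M]) :
    ∃ m ∈ M, ΩZ[2, 𝐐[M]] ⊓ centralizer ({t} : Set G) = cj(m, ΩZ[2, T]) ∧ Nat.card ΩZ[2, T] = 8 := by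
  obtain ⟨m, hm, h3⟩ := (syl h.toBig h.gd.par).exists_le_cj h2 (zpowers_le.2 ht)
  obtain ⟨s, hs, rfl⟩ := mem_cj_iff_exists.1 (h3 (mem_zpowers t))
  have h4 := h.gd.fix h.toBig h.dvd hs
    (fun e' => e (conj_mem_of_mem_normalizer (le_normalizer_pCoreOf 2 M hm) e')) (.inr h.v64)
  refine ⟨m, hm, ?_, h4.2.1⟩
  rw [← h4.1, cj_inf, centralizer_singleton_conj, cj_of_mem_normalizer (nV M hm)]

theorem ovr {S U : Subgroup G} (hS : IsPGroup 2 S) (hQ : 𝐐[M] ≤ S) (hU : U ≤ ΩZ[2, 𝐐[M]])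
    (h8 : 8 ≤ Nat.card U) (hc : S ≤ 𝐂[U]) : S ≤ M := by
  rcases hQ.eq_or_lt with e | e
  · exact e ▸ pCoreOf_le 2 M
  obtain ⟨t, ht, e'⟩ := SetLike.exists_of_lt (lt_inf_normalizer hS e)
  have tM : t ∈ M := h.eqN (isPGroup_pCoreOf 2 M) h.gd.par.ne (le_normalizer_pCoreOf 2 M) ▸ ht.2
  obtain ⟨m, hm, h1, h2⟩ := h.fix tM (hS.to_le (zpowers_le.2 ht.1)) e'
  have h3 : U = cj(m, ΩZ[2, T]) := eq_of_le_of_card_ge
    (h1 ▸ le_inf hU ((le_centralizer_iff.1 hc).trans (cent_le ht.1))) (by rw [card_cj]; omega)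
  rw [h3, centralizer_cj, CZ h.toBig h.dvd] at hc
  exact hc.trans (cj_le_of_mem h.gd.par.le hm)

theorem le_M {H : Subgroup G} (hH : Gd T H) {x : G} (hx : cj(x, ΩZ[2, 𝐐[M]]) ≤ T) :
    cj(x⁻¹, ΩZ[2, 𝐐[H]]) ≤ M := by
  have eV' := ea_cj (omegaZ_isEA (p := 2) 𝐐[M]) x
  have h1 := card_le_mul (hH.idx h.toBig h.dvd (PLocal.isEA_isPGroup eV') (hx.trans hH.par.le))
  rw [card_cj, h.v64] at h1
  have h3 := h.star (PLocal.isEA_mono eV' (inf_le_left (b := 𝐐[H]))) (by omega)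
  have c : cj(x, 𝐐[M]) ≤ 𝐂[cj(x, ΩZ[2, 𝐐[M]])] := by
    rw [centralizer_cj]; exact cj_mono x (le_centralizer_omegaZ _)
  exact (cj_mono _ ((omegaZ_le_centralizer _).trans (centralizer_anti inf_le_right))).trans
    (h.ovr (U := cj(x⁻¹, cj(x, ΩZ[2, 𝐐[M]]) ⊓ 𝐐[H])) (isPGroup_cj x⁻¹ h3)
      (cj_le_iff.1 (c.trans (centralizer_anti inf_le_left))) (le_cj_iff.1 inf_le_left)
      (by rw [card_cj]; omega) (centralizer_cj _ _).ge)

theorem mem_M {H : Subgroup G} (hH : Gd T H) {x t : G} (hx : cj(x, ΩZ[2, 𝐐[M]]) ≤ T)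
    (ht : t ∈ cj(x, ΩZ[2, 𝐐[M]])) (e : t ∉ 𝐐[H]) : x ∈ M := by
  have eV := omegaZ_isEA (p := 2) 𝐐[H]
  have eV' := ea_cj (omegaZ_isEA (p := 2) 𝐐[M]) x
  have h1 := h.le_M hH hx
  have h2 := h.gd.idx h.toBig h.dvd (PLocal.isEA_isPGroup (ea_cj eV x⁻¹)) h1
  rw [← relIndex_cj x, cj_cj_inv] at h2
  have c : cj(x, 𝐐[M]) ≤ centralizer ({t} : Set G) := by
    refine le_trans ?_ (cent_le ht)
    rw [centralizer_cj]; exact cj_mono x (le_centralizer_omegaZ _)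
  obtain ⟨k1, k2, k3⟩ := hH.fix h.toBig h.dvd (hx ht) e
    (.inl ((relIndex_le (inf_le_right.trans c)).trans h2))
  obtain ⟨s, hs, e'⟩ : ∃ s ∈ cj(x⁻¹, ΩZ[2, 𝐐[H]]), s ∉ 𝐐[M] := by
    by_contra! k
    rw [inf_of_le_left ((le_cj_iff.2 k).trans c)] at k1
    rw [k1] at k3
    omega
  obtain ⟨m, hm, l1, -⟩ := h.fix (h1 hs) ((PLocal.isEA_isPGroup (ea_cj eV x⁻¹)).to_le
    (zpowers_le.2 hs)) e'
  have l2 := congrArg (fun K => cj(x, K)) l1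
  have hs' : x * s * x⁻¹ ∈ ΩZ[2, 𝐐[H]] := by simpa using mem_cj.1 hs
  simp only [cj_inf, ← centralizer_singleton_conj, ← cj_mul] at l2
  have l3 := card_eq (centralizer ({x * s * x⁻¹} : Set G)) cj(x, ΩZ[2, 𝐐[M]])
  rw [l2, card_cj, card_cj, h.v64, k2] at l3
  have n : x * s * x⁻¹ ∈ 𝐍[cj(x, ΩZ[2, 𝐐[M]])] := by
    rw [normalizer_cj]; exact conj_mem_cj x (nV M (h1 hs))
  have l4 := relIndex_le_card (A := cj(x, ΩZ[2, 𝐐[M]])) (K := ΩZ[2, 𝐐[H]] ⊓ cj(x, ΩZ[2, 𝐐[M]]))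
    (t := x * s * x⁻¹) fun v hv => Subgroup.mem_inf.2 ⟨mul_mem
      (conj_mem_of_mem_normalizer (nV H (hH.par.le (hx hv))) hs') (inv_mem hs'), by
        rw [mul_assoc, mul_assoc, ← mul_assoc (x * s * x⁻¹)]
        exact mul_mem hv (conj_mem_of_mem_normalizer n (inv_mem hv))⟩
  have l5 : ΩZ[2, 𝐐[H]] ⊓ cj(x, ΩZ[2, 𝐐[M]]) = ΩZ[2, T] := eq_of_le_of_card_ge
    (k1 ▸ inf_le_inf_left _ (ea_le_cent eV' ht)) (by omega)
  have l6 : ΩZ[2, T] = cj(x * m, ΩZ[2, T]) := eq_of_le_of_card_ge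
    (l2 ▸ l5.ge.trans (le_inf inf_le_right (inf_le_left.trans (ea_le_cent eV hs')))) (card_cj _ _).le
  exact (M.mul_mem_cancel_right hm).1 (h.gd.le (NZ h.toBig h.dvd (cj_eq_iff.1 l6.symm)))

theorem wc {H : Subgroup G} (hH : Gd T H) {x : G} (hx : cj(x, ΩZ[2, 𝐐[M]]) ≤ T) :
    cj(x, ΩZ[2, 𝐐[M]]) ≤ 𝐐[H] := by
  intro t ht
  by_contra e
  have tT := hx ht
  rw [cj_of_mem_normalizer (nV M (h.mem_M hH hx ht e))] at ht
  have RT := (syl h.toBig hH.par).pCoreOf_le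
  have h1 := relIndex_le_card (A := 𝐐[H]) (K := ΩZ[2, 𝐐[M]]) (t := t) fun v hv =>
    mul_mem (conj_mem_of_mem_normalizer (nV M (h.gd.par.le (RT hv))) ht) (inv_mem ht)
  have h2 := (hH.sq h.toBig h.dvd tT e (isPGroup_pCoreOf 2 H) (le_normalizer_pCoreOf 2 H)).trans
    (Nat.pow_le_pow_left h1 2)
  have h3 := card_le_mul (hH.idx h.toBig h.dvd h.syl.pgrp hH.par.le)
  rw [inf_of_le_right RT, h.cardT] at h3
  rw [h.v64] at h2
  have h4 : 2 ^ 15 < 2 ^ b := Nat.pow_lt_pow_right one_lt_two (by have := h.big; omega)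
  omega

theorem le {H : Subgroup G} (hH : Gd T H) : H ≤ M := by
  let W : Subgroup G := ⨆ x : {x // cj(x, ΩZ[2, 𝐐[M]]) ≤ T}, cj(x.1, ΩZ[2, 𝐐[M]])
  have n : ∀ K, Gd T K → K ≤ 𝐍[W] := fun K hK u hu => by
    refine mem_normalizer_of_cj_le ?_
    rw [cj_iSup]
    refine iSup_le fun ⟨x, hx⟩ => ?_
    rw [← cj_mul]
    refine le_iSup_of_le (⟨u * x, ?_⟩ : {x // cj(x, ΩZ[2, 𝐐[M]]) ≤ T}) le_rfl
    rw [cj_mul]
    exact (cj_le_of_mem_normalizer (h.wc hK hx) (le_normalizer_pCoreOf 2 K hu)).trans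
      (syl h.toBig hK.par).pCoreOf_le
  have h2 : ΩZ[2, 𝐐[M]] ≤ W := le_iSup_of_le (⟨1, (cj_one _).le.trans ((omegaZ_le _).trans
    (syl h.toBig h.gd.par).pCoreOf_le)⟩ : {x // cj(x, ΩZ[2, 𝐐[M]]) ≤ T}) (cj_one _).ge
  rw [← h.eqN (h.syl.pgrp.to_le (iSup_le fun x => x.2 : W ≤ T))
    (fun e => V_ne h.gd.par.ne (eq_bot_iff.2 (e ▸ h2))) (n M h.gd)]
  exact n H hH

end Mx

end X7

theorem Big.not_seven [IsSimpleGroup G] (h : Big a b T) : ¬ 7 ∣ Nat.card 𝐍[T] := by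
  intro h7
  obtain ⟨H, k1, k2, k3⟩ := exists_par h.syl.pgrp h.top (normalizer_ne_top h.toBase
    (h.syl.pgrp.to_le (PLocal.thompsonSubgroupOf_le T))
    (PLocal.thompsonSubgroupOf_ne_bot_of_isPGroup h.syl.pgrp (T_ne h)))
  obtain ⟨M, h1, h2, h3⟩ := exists_max k1
  have h4 : ¬ M ≤ 𝐍[𝐉[T]] := fun e => k3 (h1.trans e)
  have gd : Gd T M := ⟨h2, k2.trans h1, fun e =>
    h4 (e.trans (PLocal.normalizer_le_normalizer_thompsonSubgroupOf T))⟩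
  obtain ⟨A, hA, t, ht, e⟩ : ∃ A ∈ maxEA 2 T, ∃ t ∈ A, t ∉ 𝐐[M] := by
    by_contra! k
    exact h4 (le_NJ (X7.syl h h2) (PLocal.thompsonSubgroupOf_le_iff.2 k))
  have m : Mx a b T M :=
    { toBig := h, dvd := h7, gd := gd, max := h3
      v64 := (gd.fix h h7 (hA.1 ht) e (.inl ((ff' hA (X7.syl h h2).pCoreOf_le ht).trans
        (gd.idx h h7 (PLocal.isEA_isPGroup hA.2.1) (hA.1.trans h2.le))))).2.2 }
  obtain ⟨K, l1, l2, l3⟩ := exists_par h.syl.pgrp h.top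
    (m.eqN (isPGroup_pCoreOf 2 M) h2.ne (le_normalizer_pCoreOf 2 M) ▸
      normalizer_ne_top h.toBase (isPGroup_pCoreOf 2 M) h2.ne)
  exact l3 (m.le ⟨l1, l2, fun e => l3 (e.trans gd.le)⟩)

end Cfsg.Agent.W3
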