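import Cfsg.Agent.W3.P7b

/-!
`p = 7`, `b > 86`: the case `7 ∤ |N(T)|`.
-/

set_option autoImplicit false
set_option linter.unusedSectionVars false
set_option linter.style.haveILetI false

namespace Cfsg.Agent.W3

open Cfsg Subgroup Cfsg.Agent.PLocal.Amb
open Cfsg.Agent.PLocal (maxEA)
open Cfsg.Agent.PLocal.CP (IsCharP)
open scoped Cfsg.Agent.PLocal.CP Cfsg.Agent.PLocal.JC
open PLocal.CP (omegaZ_isEA omegaZ_le omegaZ_le_centralizer le_centralizer_omegaZ)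
open TA

universe u

variable {G : Type u} [Group G] [Finite G] {p a b : ℕ}

variable {T : Subgroup G}

namespace X7

theorem two_le {K L : Subgroup G} (h : ¬ L ≤ K) : 2 ≤ K.relIndex L := by
  have h1 : K.relIndex L ≠ 0 := index_ne_zero_of_finite
  have h2 : K.relIndex L ≠ 1 := fun e => h (relIndex_eq_one.1 e)
  omega

theorem cases7 (h : Big a b T) (n7 : ¬ 7 ∣ Nat.card 𝐍[T]) {H : Subgroup G} (hH : Par T H)
    (h7 : 7 ∣ Nat.card H) : Kap 7 H ∨ (𝐐[H].relIndex H = 14 ∧ Sq H) := by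
  rcases h.seven (h.tl_of_par h.syl hH) h7 with e | e | e | e
  · exact .inl e
  · exact (n7 (h7.trans (card_dvd_of_le (eq_of_seven h hH e)))).elim
  · exact .inr e
  · exact (n7 ((e.2.2 T (syl h hH)).trans (card_dvd_of_le inf_le_right))).elim

theorem J7 (h : Big a b T) (n7 : ¬ 7 ∣ Nat.card 𝐍[T]) {H : Subgroup G} (hH : Par T H)
    (h7 : 7 ∣ Nat.card H) : 𝐉[T] ≤ 𝐐[H] := by
  rcases cases7 h n7 hH h7 with e | e
  · exact PLocal.thompsonSubgroupOf_le_iff.2 fun A hA t ht =>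
      (h.kap hH e).1 t (hA.1 ht) (sq_one hA.2.1 ht)
  · exact h.j14 hH e.1 e.2

theorem idx2 (h : Big a b T) {H : Subgroup G} (hH : Par T H) (h7 : ¬ 7 ∣ Nat.card H) :
    𝐐[H].relIndex T ≤ 2 := h.idx2 (h.tl_of_par h.syl hH) h7 (h.noNine hH) (syl h hH)

theorem eqQ (h : Big a b T) {H P : Subgroup G} (hH : Par T H) (h7 : ¬ 7 ∣ Nat.card H) (h1 : T ≤ P)
    (h2 : P ≤ H) (h3 : ¬ T ≤ 𝐐[P]) : 𝐐[P] = 𝐐[H] := by
  have k : 𝐐[H] ≤ 𝐐[P] := pCoreOf_le_of_le h2 ((syl h hH).pCoreOf_le.trans h1)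
  have k1 := relIndex_mul_relIndex _ _ _ k (h.syl.mono h1 le_top).pCoreOf_le
  have k2 := idx2 h hH h7
  have k3 := two_le h3
  refine le_antisymm (by_contra fun e => ?_) k
  have k4 := two_le e
  nlinarith

/-- the unique minimal parabolic without elements of order 7 -/
structure Px (a b : ℕ) (T P : Subgroup G) : Prop extends Big a b T where
  self : 𝐍[T] ≤ T
  par : Par T P
  idx : T.relIndex P = 3
  nJ : ¬ 𝐉[T] ≤ 𝐐[P]

namespace Px

variable {P : Subgroup G} (h : Px a b T P)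
include h

theorem n7 : ¬ 7 ∣ Nat.card 𝐍[T] := h.not_dvd_two (h.syl.pgrp.to_le h.self)

theorem p7 : ¬ 7 ∣ Nat.card P := fun e => by
  rw [← Grp.card_mul_relIndex h.par.le, h.idx] at e
  exact h.not_dvd_two h.syl.pgrp ((Nat.Coprime.dvd_mul_right (by decide)).1 e)

theorem nle {H : Subgroup G} (hH : Par T H) (h7 : 7 ∣ Nat.card H) : ¬ P ≤ H := fun e =>
  h.nJ ((J7 h.toBig h.n7 hH h7).trans
    (pCoreOf_le_of_le e ((X7.syl h.toBig hH).pCoreOf_le.trans h.par.le)))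

theorem uniq {P' : Subgroup G} (h1 : T ≤ P') (h3 : T.relIndex P' = 3) : P = P' := by
  by_contra e
  have k := h.gold h.self h.par.le h.idx h1 h3 e
  exact e (h.uniq_P (h.tl_of_par h.syl k) (fun e' => h.nle k e' le_sup_left) (h.noNine k)
    (X7.syl h.toBig k) h.par.le le_sup_left h.idx h1 le_sup_right h3)

theorem le {H : Subgroup G} (hH : Par T H) (h7 : ¬ 7 ∣ Nat.card H) : H ≤ 𝐍[𝐐[P]] := by
  by_cases e : T = H
  · exact e ▸ h.par.le.trans (le_normalizer_pCoreOf 2 P)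
  obtain ⟨P', h1, h2, h3⟩ := h.exists_P (h.tl_of_par h.syl hH) h7 (h.noNine hH) (X7.syl h.toBig hH) e
  rw [← h.uniq h1 h3] at h2
  rw [eqQ h.toBig hH h7 h.par.le h2 fun e => h.nJ ((PLocal.thompsonSubgroupOf_le T).trans e)]
  exact le_normalizer_pCoreOf 2 H

theorem not_kap {H : Subgroup G} (hH : Par T H) (hk : Kap 7 H) : False := by
  obtain ⟨-, k1, k2⟩ := h.kap hH hk
  obtain ⟨g, hg, k, kH, og, ok, -⟩ := hk
  have h7 : 7 ∣ Nat.card H := og ▸ H.orderOf_dvd_natCard hg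
  have h3 : 3 ∣ Nat.card H := ok ▸ H.orderOf_dvd_natCard kH
  obtain ⟨z, hz, z1⟩ := PLocal.JC.exists_ne_one (PLocal.WC.omegaZ_ne_bot h.syl.pgrp (T_ne h.toBig))
  have zV := Z_le h.toBig hH hz
  have l : T ≤ H ⊓ centralizer ({z} : Set G) :=
    le_inf hH.le ((le_centralizer_omegaZ T).trans (cent_le hz))
  have h1 := PLocal.JC.relIndex_centralizer_le H z ((ΩZ[2, 𝐐[H]] : Set G) \ (⊥ : Subgroup G))
    fun g hg => ⟨conj_mem_of_mem_normalizer (nV H hg) zV, by simpa using z1⟩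
  rw [PLocal.JC.ncard_diff_of_le bot_le, k1, card_bot] at h1
  have h2 := relIndex_mul_relIndex _ _ _ l inf_le_left
  rw [inf_relIndex_left] at h2
  have h4 : 7 ∣ (centralizer ({z} : Set G)).relIndex H := by
    rw [card_eq (centralizer ({z} : Set G)) H] at h7
    refine (fact7.out.dvd_mul.1 h7).resolve_right fun e => h.not_dvd_cent z1 (fun e' => ?_)
      (e.trans (card_dvd_of_le inf_le_right))
    exact h.not_dvd_two h.syl.pgrp (e'.trans (T.orderOf_dvd_natCard (omegaZ_le T hz)))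
  rw [Nat.le_antisymm h1 (Nat.le_of_dvd (Nat.pos_of_ne_zero index_ne_zero_of_finite) h4)] at h2
  have h5 := (relIndex_dvd_of_le_left H (X7.syl h.toBig hH).pCoreOf_le).trans k2
  have h6 := (X7.syl h.toBig hH).not_dvd_relIndex
  rw [← Grp.card_mul_relIndex hH.le, h.cardT] at h3
  have h8 := (Nat.Coprime.dvd_mul_left (Nat.Coprime.pow_right b (by decide))).1 h3
  rw [← h2] at h5 h6 h8
  refine h.nle hH h7 ((h.uniq l ?_).le.trans inf_le_left)
  generalize T.relIndex (H ⊓ centralizer ({z} : Set G)) = i at h5 h6 h8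
  have := Nat.le_of_dvd (by decide) h5
  have : i ≤ 24 := by omega
  interval_cases i <;> simp_all

theorem big14 {H : Subgroup G} (hH : Par T H) (h7 : 7 ∣ Nat.card H) (h14 : 𝐐[H].relIndex H = 14)
    (hs : Sq H) : 8 ≤ Nat.card ΩZ[2, T] ∧ 64 ≤ Nat.card ΩZ[2, 𝐐[H]] := by
  have s := X7.syl h.toBig hH
  have eV := omegaZ_isEA (p := 2) 𝐐[H]
  have nT : ¬ T ≤ 𝐐[H] := fun e => h.n7 (h7.trans (card_dvd_of_le
    (le_antisymm e s.pCoreOf_le ▸ le_normalizer_pCoreOf 2 H)))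
  have i2 : 𝐐[H].relIndex T = 2 := by
    have h1 := idx_dvd (le_normalizer_pCoreOf 2 H) hH.le
    obtain ⟨k, hk⟩ := idx_pow h.syl.pgrp 𝐐[H]
    have h2 := two_le nT
    rw [h14] at h1
    rw [hk] at h1 h2 ⊢
    have : k < 2 := by_contra fun e => by
      have := (pow_dvd_pow 2 (not_lt.1 e)).trans h1
      norm_num at this
    interval_cases k <;> omega
  obtain ⟨t, ht, e⟩ := SetLike.not_le_iff_exists.1 nT
  have t2 := PLocal.JC.pow_relIndex_mem' (hH.le.trans (le_normalizer_pCoreOf 2 H)) ht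
  rw [i2] at t2
  have h1 := hs t (hH.le ht) (h.syl.pgrp.to_le (zpowers_le.2 ht)) e _ (PLocal.isEA_isPGroup eV) (nV H)
  have h2 := card_eq (centralizer ({t} : Set G)) ΩZ[2, 𝐐[H]]
  have h3 := relIndex_le_card (A := ΩZ[2, 𝐐[H]]) (K := ΩZ[2, 𝐐[H]] ⊓ centralizer ({t} : Set G))
    (t := t) fun v hv => by
      have k1 := conj_mem_of_mem_normalizer (nV H (hH.le ht)) hv
      have k2 : t ^ 2 * v = v * t ^ 2 := omegaZ_le_centralizer _ hv _ t2
      have k3 : v⁻¹ = v := inv_eq_of_mul_eq_one_right (sq_one eV hv)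
      rw [k3, mul_assoc, mul_assoc, ← mul_assoc t]
      refine Subgroup.mem_inf.2 ⟨mul_mem hv k1, mem_centralizer_singleton_iff.2 ?_⟩
      calc v * (t * v * t⁻¹) * t = v * t * v := by group
        _ = (t * (t * v * t⁻¹)) * t⁻¹ * t * v := by
          rw [← mul_assoc t, ← mul_assoc t, ← sq, k2, sq]; group
        _ = t * (t * v * t⁻¹ * v) := by group
        _ = _ := by rw [PLocal.isEA_comm eV hv k1]
  have h4 : ΩZ[2, 𝐐[H]] ⊓ centralizer ({t} : Set G) ≤ ΩZ[2, T] := by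
    refine PLocal.CP.le_omegaZ (PLocal.isEA_mono eV inf_le_left)
      (inf_le_left.trans ((omegaZ_le _).trans s.pCoreOf_le)) ?_
    rw [← PLocal.JC.sup_zpowers_eq (by rw [i2]; exact Nat.prime_two) s.pCoreOf_le ht e,
      centralizer_sup, centralizer_zpowers]
    exact le_inf inf_le_right (inf_le_left.trans (omegaZ_le_centralizer _))
  have h5 := card_le_of_le h4
  obtain ⟨g, hg, og⟩ := exists_dvd h.pp h7
  have h6 := h.card_mod og (h.not_dvd_two (PLocal.isEA_isPGroup eV)) (nV H hg)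
  have h8 : Nat.card ΩZ[2, 𝐐[H]] ≠ 1 := fun e => V_ne hH.ne (card_eq_one.1 e)
  obtain ⟨k, hk⟩ := idx_pow (PLocal.isEA_isPGroup eV) (centralizer ({t} : Set G))
  rw [hk] at h1 h2 h3
  have h9 := Nat.le_antisymm h3
    (Nat.le_of_mul_le_mul_left (pow_two (2 ^ k) ▸ h2 ▸ h1) (by positivity))
  rw [← h9] at h2 h5
  rw [h2] at h6 h8 ⊢
  have : 2 ^ 3 ≤ 2 ^ k := Nat.pow_le_pow_right two_pos (by_contra fun e => by
    have : k < 3 := by omega
    interval_cases k <;> omega)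
  exact ⟨this.trans h5, Nat.mul_le_mul this this⟩

theorem fin {V : Subgroup G} (eV : IsElementaryAbelian 2 V) (h1 : V ≤ T) (h2 : V ≤ 𝐂[𝐉[T]])
    (h8 : 8 ≤ Nat.card ΩZ[2, T]) (h64 : 64 ≤ Nat.card V) : False := by
  obtain ⟨A, hA, t, ht, e⟩ : ∃ A ∈ maxEA 2 T, ∃ t ∈ A, t ∉ 𝐐[P] := by
    by_contra! k
    exact h.nJ (PLocal.thompsonSubgroupOf_le_iff.2 k)
  have RT := (X7.syl h.toBig h.par).pCoreOf_le
  have t2 := sq_one hA.2.1 ht
  obtain ⟨w, wP, ow, hi⟩ := h.exists_inv (h.par.le (hA.1 ht)) t2 e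
  have o : Odd (orderOf w) := by rcases ow with e | e <;> rw [e] <;> decide
  have k : ∀ Y : Subgroup G, IsElementaryAbelian 2 Y → P ≤ 𝐍[Y] →
      Nat.card Y ≤ (centralizer ({t} : Set G)).relIndex Y ^ 2 * 4 := fun Y eY n =>
    (card_le_mul (relIndex_le_sq_of_inv t2 o hi (n wP))).trans (Nat.mul_le_mul_left _
      (h.le_four (PLocal.isEA_mono eY inf_le_left)
        (fun e => by rcases ow with e' | e' <;> simp [e] at e') o inf_le_right))
  have e0 := omegaZ_isEA (p := 2) 𝐐[P]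
  have h3 : ¬ A ⊓ 𝐐[P] ⊔ ΩZ[2, 𝐐[P]] ≤ A ⊓ 𝐐[P] := fun e => by
    have k1 := k _ e0 (nV P)
    have k2 := card_le_of_le (Z_le h.toBig h.par)
    rw [relIndex_eq_one.2 ((le_sup_right.trans e).trans (inf_le_left.trans (ea_le_cent hA.2.1 ht)))]
      at k1
    omega
  have h4 := card_le_mul ((relIndex_le_of_le_right hA.1 index_ne_zero_of_finite).trans
    (idx2 h.toBig h.par h.p7))
  have h5 := Grp.card_mul_relIndex (le_sup_left : A ⊓ 𝐐[P] ≤ A ⊓ 𝐐[P] ⊔ ΩZ[2, 𝐐[P]])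
  have h6 := two_le h3
  have l : A ⊓ 𝐐[P] ⊔ ΩZ[2, 𝐐[P]] ≤ 𝐐[P] := sup_le inf_le_right (omegaZ_le _)
  have m : A ⊓ 𝐐[P] ⊔ ΩZ[2, 𝐐[P]] ∈ maxEA 2 T := PLocal.mem_maxEA_of_card_le hA (l.trans RT)
    (PLocal.isEA_sup (PLocal.isEA_mono hA.2.1 inf_le_left) e0
      (inf_le_right.trans (le_centralizer_omegaZ _))) (by nlinarith)
  have m' := PLocal.mem_maxEA_of_le m l RT
  have h7 := hA.2.2 _ m.1 m.2.1
  have h9 : (A ⊓ 𝐐[P]).relIndex (A ⊓ 𝐐[P] ⊔ ΩZ[2, 𝐐[P]]) ≤ 2 :=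
    Nat.le_of_mul_le_mul_left (by omega) (Nat.card_pos (α := ↥(A ⊓ 𝐐[P])))
  have y1 : V ≤ ΩZ[2, 𝐉[𝐐[P]]] := PLocal.CP.le_omegaZ eV
    ((PLocal.le_of_mem_maxEA_of_centralizes m h1 eV.2
      (h2.trans (centralizer_anti (PLocal.le_thompsonSubgroupOf m)))).trans
        (PLocal.le_thompsonSubgroupOf m'))
    (h2.trans (centralizer_anti (PLocal.thompsonSubgroupOf_le_of_mem m l RT)))
  have y2 : ΩZ[2, 𝐉[𝐐[P]]] ≤ A ⊓ 𝐐[P] ⊔ ΩZ[2, 𝐐[P]] := PLocal.le_of_mem_maxEA_of_centralizes m'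
    ((omegaZ_le _).trans (PLocal.thompsonSubgroupOf_le _)) (omegaZ_isEA _).2
    ((omegaZ_le_centralizer _).trans (centralizer_anti (PLocal.le_thompsonSubgroupOf m')))
  have y3 := k _ (omegaZ_isEA 𝐉[𝐐[P]]) ((le_normalizer_pCoreOf 2 P).trans
    ((PLocal.normalizer_le_normalizer_thompsonSubgroupOf _).trans
      (PLocal.CP.normalizer_le_normalizer_omegaZ _)))
  have y4 := ((relIndex_le (inf_le_right.trans (inf_le_left.trans (ea_le_cent hA.2.1 ht)))).trans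
    (relIndex_le_of_le_right y2 index_ne_zero_of_finite)).trans h9
  have y5 := Nat.pow_le_pow_left y4 2
  have := card_le_of_le y1
  omega

end Px

end X7

open X7 in
theorem Big.false [IsSimpleGroup G] (h : Big a b T) : False := by
  have n7 := h.not_seven
  obtain ⟨H, k1, k2, k3⟩ := exists_par h.syl.pgrp h.top (normalizer_ne_top h.toBase
    (h.syl.pgrp.to_le (PLocal.thompsonSubgroupOf_le T))
    (PLocal.thompsonSubgroupOf_ne_bot_of_isPGroup h.syl.pgrp (T_ne h)))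
  have s := X7.syl h k1
  have nJ : ¬ 𝐉[T] ≤ 𝐐[H] := fun e => k3 (le_NJ s e)
  have h7 : ¬ 7 ∣ Nat.card H := fun e => nJ (J7 h n7 k1 e)
  have tl := h.tl_of_par h.syl k1
  have nT : T ≠ 𝐐[H] := fun e => nJ ((PLocal.thompsonSubgroupOf_le T).trans e.le)
  have sf : 𝐍[T] ≤ T := (le_inf k2 le_rfl).trans (h.selfN tl h7 (h.noNine k1) s nT)
  obtain ⟨P, h1, h2, h3⟩ := h.exists_P tl h7 (h.noNine k1) s fun e =>
    nT (s.eq_pCoreOf (e ▸ le_normalizer)).symm
  have e := eqQ h k1 h7 h1 h2 fun e => by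
    have := le_normalizer_pCoreOf 2 P
    rw [← le_antisymm e (h.syl.mono h1 le_top).pCoreOf_le] at this
    rw [relIndex_eq_one.2 (this.trans sf)] at h3
    omega
  have m : Px a b T P :=
    { toBig := h, self := sf, par := ⟨h1, e ▸ k1.ne⟩, idx := h3, nJ := e ▸ nJ }
  obtain ⟨K, l1, -, l3⟩ := exists_par h.syl.pgrp h.top
    (normalizer_ne_top h.toBase (isPGroup_pCoreOf 2 P) m.par.ne)
  have l7 : 7 ∣ Nat.card K := by_contra fun e => l3 (m.le l1 e)
  rcases cases7 h n7 l1 l7 with e | e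
  · exact m.not_kap l1 e
  · have := m.big14 l1 l7 e.1 e.2
    exact m.fin (omegaZ_isEA _) ((omegaZ_le _).trans (X7.syl h l1).pCoreOf_le)
      ((omegaZ_le_centralizer _).trans (centralizer_anti (J7 h n7 l1 l7))) this.1 this.2

end Cfsg.Agent.W3
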