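import Cfsg.Agent.W3.Defs
import Cfsg.Agent.Grp.CritExp
import Cfsg.Agent.S0058
import Cfsg.Agent.S4208
import Cfsg.Agent.PLocal.SigCoprime
import Cfsg.Agent.Grp.PChain
import Cfsg.Agent.Small.Tools

/-!
Coprime action: product bounds, and 2-groups acting on small 3-groups (pure group theory).
-/

set_option autoImplicit false
set_option linter.unusedSectionVars false
set_option linter.style.haveILetI false

namespace Cfsg.Agent.W3

open Cfsg Subgroup Cfsg.Agent.PLocal.Amb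
open Cfsg.Agent.PLocal (maxEA)
open Cfsg.Agent.PLocal.CP (IsCharP)
open scoped Cfsg.Agent.PLocal.CP Cfsg.Agent.PLocal.JC

universe u

variable {G : Type u} [Group G] [Finite G] {p a b : ℕ}

/-- Induction on `R`. If `R ≠ 1` take `N` maximal among the proper `A`-invariant subgroups of `R`
containing `Φ(R)` (or `[R,R]`; any such `N` is normal in `R`). By `S0058` (`A` is not cyclic)
`R = ⨆ C_R(x)`, so `C_R(x) ≰ N` for some `1 ≠ x ∈ A`; pick `y ∈ s` with `C(x) = C(y)`. `C_R(y) N` is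
`A`-invariant, so `= R` and `|R| |C_N(y)| = |N| |C_R(y)|`; apply induction to `N` and
`|C_N(y')| ≤ |C_R(y')|` for the other `y' ∈ s`. -/
theorem card_le_prod {q : ℕ} [Fact q.Prime] {A R : Subgroup G} [IsMulCommutative A]
    (hA : ¬ IsCyclic A) (hc : (Nat.card A).Coprime q) (hR : IsPGroup q R) (hn : A ≤ 𝐍[R])
    (s : Finset G) (hs : ∀ y ∈ s, y ∈ A)
    (h : ∀ x ∈ A, x ≠ 1 → ∃ y ∈ s, centralizer ({x} : Set G) = centralizer ({y} : Set G)) :
    Nat.card R ≤ ∏ y ∈ s, Nat.card ↥(R ⊓ centralizer ({y} : Set G)) := by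
  classical
  induction R using WellFoundedLT.induction with | ind R ih => ?_
  by_cases h0 : R = ⊥
  · rw [h0, card_bot]
    exact Finset.one_le_prod' fun _ _ => Nat.card_pos
  obtain ⟨N, ⟨h1, h2, h3⟩, hmax⟩ := Set.Finite.exists_maximal
    (s := {N : Subgroup G | ⁅R, R⁆ ≤ N ∧ N < R ∧ A ≤ 𝐍[N]}) (Set.toFinite _)
    ⟨_, le_rfl, Solv.commutator_lt_of_isSolvable (Solv.isSolvable_of_isPGroup hR) h0,
      le_normalizer_commutator hn hn⟩
  obtain ⟨n, hRn⟩ := IsPGroup.iff_card.1 hR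
  obtain ⟨x, hx, x1, hxN⟩ : ∃ x ∈ A, x ≠ 1 ∧ ¬ R ⊓ centralizer {x} ≤ N := by
    by_contra! k
    exact h2.not_ge (Solv.le_of_centralizers_le A R hA hn (hRn ▸ hc.pow_right n) N k)
  obtain ⟨y, hy, e⟩ := h x hx x1
  rw [e] at hxN
  have n1 : R ≤ 𝐍[N] := fun r hr => mem_normalizer_of_cj_le (cj_le_iff_forall.2 fun u hu => by
    simpa [commutatorElement_def] using mul_mem (h1 (commutator_mem_commutator hr (h2.le hu))) hu)
  have n2 : A ≤ 𝐍[R ⊓ centralizer {y}] := le_normalizer_inf hn (le_trans (fun a ha =>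
    mem_centralizer_singleton_iff.2 (setLike_mul_comm ha (hs y hy))) le_normalizer)
  have e1 : R ⊓ centralizer {y} ⊔ N = R := by
    by_contra k
    exact hxN (le_sup_left.trans (hmax ⟨h1.trans le_sup_right,
      (sup_le inf_le_left h2.le).lt_of_ne k, le_normalizer_sup n2 h3⟩ le_sup_right))
  have e2 := Grp.card_sup_mul_card_inf_of_le_normalizer (inf_le_left.trans n1 :
    R ⊓ centralizer {y} ≤ 𝐍[N])
  rw [e1, inf_comm, ← inf_assoc, inf_eq_left.2 h2.le] at e2
  have e3 := ih N h2 (hR.to_le h2.le) h3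
  rw [← Finset.mul_prod_erase s _ hy] at e3 ⊢
  refine Nat.le_of_mul_le_mul_right (c := Nat.card ↥(N ⊓ centralizer {y})) ?_ Nat.card_pos
  rw [e2, mul_assoc]
  refine Nat.mul_le_mul_left _ (e3.trans ?_)
  rw [mul_comm]
  exact Nat.mul_le_mul_right _ (Finset.prod_le_prod' fun _ _ =>
    card_le_of_le (inf_le_inf_right _ h2.le))

/-- `card_le_prod` with `s` the three involutions of `U`. -/
theorem card_le_pow_four {n : ℕ} {U R : Subgroup G} (hU : IsElementaryAbelian 2 U)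
    (h4 : Nat.card U = 4) (hR : IsPGroup 3 R) (hn : U ≤ 𝐍[R])
    (h : ∀ x ∈ U, x ≠ 1 → Nat.card ↥(R ⊓ centralizer ({x} : Set G)) ≤ n) : Nat.card R ≤ n ^ 3 := by
  classical
  have := hU.1
  have hs : ((U : Set G).toFinite.toFinset.erase 1).card = 3 := by
    rw [Finset.card_erase_of_mem (by simp), ← Set.ncard_eq_toFinset_card, ← Nat.card_coe_set_eq,
      SetLike.coe_sort_coe, h4]
  refine (card_le_prod (PLocal.Sig.ea_not_isCyclic hU h4.ge) (by rw [h4]; norm_num) hR hn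
    ((U : Set G).toFinite.toFinset.erase 1) (fun y hy => by simpa using (Finset.mem_erase.1 hy).2)
    fun x hx x1 => ⟨x, by simpa using ⟨x1, hx⟩, rfl⟩).trans ?_
  rw [← hs]
  exact Finset.prod_le_pow_card _ _ _ fun x hx =>
    h x (by simpa using (Finset.mem_erase.1 hx).2) (Finset.mem_erase.1 hx).1

/-- `card_le_prod` with `s = {x, y, x y, x y⁻¹}` for generators `x, y` of `E` (`C(x) = C(x⁻¹)`). -/
theorem card_le_pow_nine {n : ℕ} {E R : Subgroup G} (hE : IsElementaryAbelian 3 E)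
    (h9 : Nat.card E = 9) (hR : IsPGroup 2 R) (hn : E ≤ 𝐍[R])
    (h : ∀ x ∈ E, x ≠ 1 → Nat.card ↥(R ⊓ centralizer ({x} : Set G)) ≤ n) : Nat.card R ≤ n ^ 4 := by
  classical
  have := hE.1
  obtain ⟨x, hx, x1⟩ := PLocal.Sig.exists_ne_one_of_le_card (p := 3) (B := E) (by omega)
  have cx := PLocal.Sig.ea_card_zpowers hE hx x1
  obtain ⟨y, hy, y1⟩ := SetLike.not_le_iff_exists.1 (show ¬ E ≤ zpowers x from fun k => by
    have := card_le_of_le k
    omega)
  have y0 : y ≠ 1 := fun e => y1 (e ▸ one_mem _)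
  have tri : ∀ u ∈ E, ∀ v ∈ zpowers u, v = 1 ∨ v = u ∨ v = u⁻¹ := fun u hu v hv => by
    obtain ⟨k, rfl⟩ := mem_powers_iff_mem_zpowers.2 hv
    have u3 := hE.2 u hu
    have : k % 3 = 0 ∨ k % 3 = 1 ∨ k % 3 = 2 := by omega
    simp only [pow_eq_pow_mod k u3]
    rcases this with e | e | e <;> rw [e]
    exacts [.inl (pow_zero u), .inr (.inl (pow_one u)),
      .inr (.inr (eq_inv_of_mul_eq_one_left (by rw [← pow_succ, u3])))]
  have ci : ∀ u : G, centralizer ({u⁻¹} : Set G) = centralizer {u} := fun u => by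
    rw [← centralizer_zpowers, zpowers_inv, centralizer_zpowers]
  have e1 : zpowers x ⊔ zpowers y = E := (PLocal.Sig.hyp_of_card (p := 3) (zpowers_le.2 hx)
    (by omega)).sup_zpowers hy y1
  have xy : x * y = y * x := setLike_mul_comm hx hy
  have hs : ∀ u ∈ ({x, y, x * y, x * y⁻¹} : Finset G), u ∈ E ∧ u ≠ 1 := fun u hu => by
    simp only [Finset.mem_insert, Finset.mem_singleton] at hu
    rcases hu with rfl | rfl | rfl | rfl
    exacts [⟨hx, x1⟩, ⟨hy, y0⟩, ⟨mul_mem hx hy, fun e => y1 (by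
      rw [eq_inv_of_mul_eq_one_right e]; exact inv_mem (mem_zpowers x))⟩,
      ⟨mul_mem hx (inv_mem hy), fun e => y1 (by rw [← mul_inv_eq_one.1 e]; exact mem_zpowers x)⟩]
  refine (card_le_prod (PLocal.Sig.ea_not_isCyclic hE h9.ge) (by rw [h9]; norm_num) hR hn
    {x, y, x * y, x * y⁻¹} (fun u hu => (hs u hu).1) fun z hz z1 => ?_).trans
    ((Finset.prod_le_pow_card _ _ n fun u hu => h u (hs u hu).1 (hs u hu).2).trans
      (Nat.pow_le_pow_right (Nat.card_pos.trans_le (h x hx x1)) Finset.card_le_four))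
  obtain ⟨u, hu, v, hv, rfl⟩ := (mem_sup_of_le_normalizer_right ((zpowers_le.2 hx).trans
    (PLocal.Sig.ea_norm hE (zpowers_le.2 hy)))).1 (e1.ge hz)
  rcases tri x hx u hu with rfl | rfl | rfl <;> rcases tri y hy v hv with rfl | rfl | rfl
  · simp at z1
  · exact ⟨v, by simp, by simp⟩
  · exact ⟨y, by simp, by simp [ci]⟩
  · exact ⟨u, by simp, by simp⟩
  · exact ⟨_, by simp, rfl⟩
  · exact ⟨_, by simp, rfl⟩
  · exact ⟨x, by simp, by simp [ci]⟩
  · exact ⟨x * v⁻¹, by simp, by rw [← ci, mul_inv_rev, inv_inv, (Commute.inv_right xy).eq]⟩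
  · exact ⟨x * y, by simp, by rw [← mul_inv_rev, ci, xy]⟩

/-- A maximal abelian normal subgroup `A` of `K` is self-centralizing, elementary abelian, so of
order `≤ 9`, and the 3-group `K / A` embeds in `Aut A` of order dividing `48`. If `|K| = 27` then `K` is
not abelian, so `1 ≠ [K,K] ≤ Φ(K)`. -/
theorem card_le_27 {K : Subgroup G} (hK : ∀ k ∈ K, k ^ 3 = 1)
    (hr : ∀ E : Subgroup G, E ≤ K → IsElementaryAbelian 3 E → Nat.card E ≤ 9) :
    Nat.card K ≤ 27 ∧ (frattini K).index ≤ 9 := by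
  have hp : IsPGroup 3 K := isPGroup_iff.2 fun k hk => ⟨1, hK k hk⟩
  have := hp.isNilpotent
  have ea : ∀ B : Subgroup K, IsMulCommutative B → Nat.card B ≤ 9 := fun B hB => by
    rw [← card_subtype]
    exact hr _ (map_subtype_le _) ⟨inferInstance, fun a ha => hK a (map_subtype_le _ ha)⟩
  obtain ⟨B, hn, hc, -, hmax⟩ := Grp.PChain.exists_max_abelian_normal (⊥ : Subgroup K) inferInstance
  have h1 := Small.relIndex_centralizer_dvd_card_mulAut B
  rw [le_antisymm (Grp.PChain.centralizer_le_of_max_abelian_normal B hc hmax) (le_centralizer B),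
    normalizer_eq_top, relIndex_top_right] at h1
  obtain ⟨r, hr'⟩ := IsPGroup.iff_card.1 (hp.to_subgroup B)
  obtain ⟨k, hk⟩ := hp.index B
  rw [Grp.card_mulAut_of_elemAb (p := 3) (r := r) hc.is_comm.comm
    (fun x => Subtype.ext (Subtype.ext (hK _ x.1.2))) hr', hk] at h1
  have h2 := ea B hc
  have h3 := B.card_mul_index
  rw [hr'] at h2
  have r2 : r < 3 := Nat.lt_of_not_le fun e => by
    have := Nat.pow_le_pow_right (n := 3) (by norm_num) e
    omega
  have k2 : k < 2 := Nat.lt_of_not_le fun e => by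
    have := (pow_dvd_pow 3 e).trans h1
    revert this
    interval_cases r <;> decide
  have h4 : Nat.card K ≤ 27 := by
    rw [← h3, hr', hk]
    interval_cases r <;> interval_cases k <;> norm_num
  refine ⟨h4, ?_⟩
  have h5 := (frattini K).card_mul_index
  by_cases h6 : frattini K = ⊥
  · rw [h6, index_bot, ← card_top]
    refine ea ⊤ ⟨⟨fun a b => Subtype.ext (commutatorElement_eq_one_iff_mul_comm.1 (mem_bot.1
      (h6.le (Grp.PFrattini.commutator_le_frattini hp (commutator_mem_commutator a.2 b.2)))))⟩⟩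
  · obtain ⟨m, hm⟩ := IsPGroup.iff_card.1 (hp.to_subgroup (frattini K))
    have h7 : 3 ≤ Nat.card (frattini K) := Nat.le_of_dvd Nat.card_pos (hm ▸ dvd_pow_self 3 fun e =>
      h6 (card_eq_one.1 (by rw [hm, e, pow_zero])))
    nlinarith

/-- `D` embeds in `Aut K` (`normalizerMonoidHom`), whose order divides
`3 ^ k * ∏ i < r, (3 ^ r - 3 ^ i)` by `S4208`, `3 ^ r = |K : Φ(K)|`; the 2-part of the product is
`2 ^ (0, 1, 4, 5, 9, 10, 13, 14, 19, 20)` for `r = 0, ..., 9`. -/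
theorem card_le_of_faithful {D K : Subgroup G} (hD : IsPGroup 2 D) (hK : IsPGroup 3 K)
    (hn : D ≤ 𝐍[K]) (hf : D ⊓ 𝐂[K] = ⊥) :
    (Nat.card K ≤ 3 ^ 9 → Nat.card D ≤ 2 ^ 20) ∧ ((frattini K).index ≤ 9 → Nat.card D ≤ 16) := by
  have h1 : Nat.card D ∣ Nat.card (MulAut K) := card_dvd_of_injective
    (K.normalizerMonoidHom.comp (inclusion hn)) ((injective_iff_map_eq_one _).2 fun d hd => by
      have : inclusion hn d ∈ K.normalizerMonoidHom.ker := hd
      rw [normalizerMonoidHom_ker] at this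
      exact Subtype.ext (mem_bot.1 (hf.le ⟨d.2, this⟩)))
  obtain ⟨n, hn'⟩ := IsPGroup.iff_card.1 hK
  obtain ⟨r, hr⟩ := hK.index (frattini K)
  obtain ⟨m, hm⟩ := IsPGroup.iff_card.1 hD
  have h2 := (Nat.Coprime.pow m _ (by norm_num)).dvd_of_dvd_mul_left
    (hm ▸ h1.trans (S4208.result hn' hr))
  rw [hm]
  refine ⟨fun e => Nat.pow_le_pow_right (by norm_num) (Nat.le_of_not_lt fun k => ?_),
    fun e => Nat.pow_le_pow_right (n := 2) (j := 4) (by norm_num) (Nat.le_of_not_lt fun k => ?_)⟩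
  · have h3 := (Nat.le_of_dvd Nat.card_pos (frattini K).index_dvd_card).trans e
    rw [hr, Nat.pow_le_pow_iff_right (by norm_num)] at h3
    have := (pow_dvd_pow 2 k).trans h2
    revert this
    interval_cases r <;> decide +kernel
  · rw [hr] at e
    have h3 : r ≤ 2 := (Nat.pow_le_pow_iff_right (a := 3) (by norm_num)).1 e
    have := (pow_dvd_pow 2 k).trans h2
    revert this
    interval_cases r <;> decide

/-- Suppose `|A| ≥ 8`. Twice `S0058` shows that `K` is generated by the `C_K(B)`, `B ≤ A₀` of order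
4 in a subgroup `A₀ ≤ A` of order 8 (`K = ⨆ C_K(u)` over a four-group, and a four-group of `A₀`
complementary to `u` acts on `C_K(u)`). As `|K : Φ(K)| ≤ 9`, two elements `x₁ ∈ C_K(B₁)`,
`x₂ ∈ C_K(B₂)` generate `K` modulo `Φ(K)`, hence generate `K`; so `1 ≠ B₁ ⊓ B₂` centralizes `K`.
(Any other proof is fine, e.g. in `Aut (K / Φ(K))` of order dividing 48.) -/
theorem ea_le_four {A K : Subgroup G} (hA : IsElementaryAbelian 2 A) (hK : IsPGroup 3 K)
    (hn : A ≤ 𝐍[K]) (hf : A ⊓ 𝐂[K] = ⊥) (h9 : (frattini K).index ≤ 9) : Nat.card A ≤ 4 := by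
  by_cases h0 : A = ⊥
  · rw [h0, card_bot]; omega
  have gen : ∀ L : Subgroup K, L ≠ ⊤ → ∃ B, PLocal.Sig.Hyp 2 B A ∧ ¬ (𝐂[B]).subgroupOf K ≤ L :=
    fun L hL => by
      by_contra! k
      refine hL (top_le_iff.1 fun x _ => mem_map_subtype.1 (PLocal.Sig.le_of_hyp_le hA h0 hn
        (PLocal.Sig.not_dvd_of_isPGroup (by norm_num) hK) (fun B hB u hu => ?_) x.2))
      exact ⟨⟨u, hu.1⟩, k B hB hu.2, rfl⟩
  have step : ∀ L M : Subgroup K, L < M → 3 * M.index ≤ L.index := fun L M h => by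
    obtain ⟨k, hk⟩ := (hK.to_subgroup M).index (L.subgroupOf M)
    have h1 : 3 ≤ L.relIndex M := Nat.le_of_dvd (Nat.pos_of_ne_zero index_ne_zero_of_finite)
      (by
        rw [relIndex, hk]
        exact dvd_pow_self 3 fun e => h.not_ge (relIndex_eq_one.1 (by rw [relIndex, hk, e, pow_zero])))
    rw [← relIndex_mul_index h.le]
    exact Nat.mul_le_mul_right _ h1
  have fin : ∀ B B', PLocal.Sig.Hyp 2 B A → PLocal.Sig.Hyp 2 B' A →
      (𝐂[B]).subgroupOf K ⊔ (𝐂[B']).subgroupOf K ⊔ frattini K = ⊤ → Nat.card A ≤ 4 :=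
    fun B B' hB hB' e => by
      have h1 : B ⊓ B' ≤ 𝐂[K] := by
        rw [le_centralizer_iff, ← subgroupOf_eq_top, eq_top_iff, ← frattini_nongenerating e]
        exact sup_le (comap_mono (centralizer_anti inf_le_left))
          (comap_mono (centralizer_anti inf_le_right))
      have := hB.card_le_inf hB'
      rwa [eq_bot_iff.2 ((le_inf (inf_le_left.trans hB.1) h1).trans hf.le), card_bot] at this
  have h1 : frattini K ≠ ⊤ := fun e => h0 (by
    have : K = ⊥ := by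
      rw [← map_subgroupOf_of_le (le_refl K), subgroupOf_self, ← frattini_nongenerating
        (show ⊥ ⊔ frattini K = ⊤ by rw [e, bot_sup_eq]), Subgroup.map_bot]
    rw [← hf, this, eq_comm, inf_eq_left]
    exact fun a _ x hx => by rw [mem_bot.1 hx, one_mul, mul_one])
  obtain ⟨B, hB, h2⟩ := gen _ h1
  by_cases h3 : (𝐂[B]).subgroupOf K ⊔ frattini K = ⊤
  · exact fin B B hB hB (by rwa [sup_idem])
  obtain ⟨B', hB', h4⟩ := gen _ h3
  have h5 := step _ _ (right_lt_sup.2 h2)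
  have h6 := step _ _ (right_lt_sup.2 h4)
  refine fin B' B hB' hB ?_
  rw [sup_assoc, ← index_eq_one]
  have := Nat.pos_of_ne_zero (index_ne_zero_of_finite (H := (𝐂[B']).subgroupOf K ⊔
    ((𝐂[B]).subgroupOf K ⊔ frattini K)))
  omega

/-- `Z(⟨t⟩ C) ∩ C ≠ 1` contains an involution `u`; `U = ⟨t, u⟩`. -/
theorem exists_four {C : Subgroup G} {t : G} (hC : IsPGroup 2 C) (h1 : C ≠ ⊥) (ht : t * t = 1)
    (htC : t ∉ C) (hn : t ∈ 𝐍[C]) :
    ∃ U : Subgroup G, IsElementaryAbelian 2 U ∧ Nat.card U = 4 ∧ U ≤ C ⊔ zpowers t := by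
  have pt : IsPGroup 2 (zpowers t) := isPGroup_zpowers ⟨1, by rw [pow_one, sq, ht]⟩
  have h2 := inf_centralizer_ne_bot pt hC (zpowers_le.2 hn) h1
  obtain ⟨k, hk⟩ := IsPGroup.iff_card.1 (hC.to_le (inf_le_left : C ⊓ 𝐂[zpowers t] ≤ C))
  obtain ⟨u, hu⟩ := exists_prime_orderOf_dvd_card' (G := ↥(C ⊓ 𝐂[zpowers t])) 2
    (hk ▸ dvd_pow_self 2 fun e => h2 (card_eq_one.1 (by rw [hk, e, pow_zero])))
  rw [← orderOf_coe] at hu
  have c : zpowers (u : G) ≤ 𝐂[zpowers t] := zpowers_le.2 u.2.2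
  have t1 : t ≠ 1 := fun e => htC (e ▸ one_mem C)
  have t2 : orderOf t = 2 := orderOf_eq_prime (by rw [sq, ht]) t1
  refine ⟨zpowers u ⊔ zpowers t, PLocal.isEA_sup (PLocal.isEA_zpowers (hu ▸ pow_orderOf_eq_one _))
    (PLocal.isEA_zpowers (by rw [sq, ht])) c, ?_, sup_le_sup_right (zpowers_le.2 u.2.1) _⟩
  have h3 := Grp.card_sup_mul_card_inf_of_le_normalizer (c.trans (centralizer_le_normalizer _))
  rw [inf_comm (zpowers (u : G)), PLocal.inf_eq_bot_of_not_le_of_card_prime (p := 2) (by rw [Nat.card_zpowers, t2])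
    (fun e => htC (zpowers_le.2 u.2.1 (e (mem_zpowers t)))), card_bot, Nat.card_zpowers,
    Nat.card_zpowers, hu, t2] at h3
  omega

end Cfsg.Agent.W3
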