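import Cfsg.Agent.W3.Defs
import Cfsg.Agent.S0640
import Cfsg.Agent.W3.ShH
import Cfsg.Agent.Small.Tools
import Cfsg.Agent.Grp.MinNormal
import Cfsg.Agent.Transfer.ThompsonReduction

/-!
The shape of the subgroups of characteristic 2 of order divisible by `p`.
-/

set_option autoImplicit false
set_option linter.unusedSectionVars false
set_option linter.style.haveILetI false

namespace Cfsg.Agent.W3

open Cfsg Subgroup Cfsg.Agent.PLocal.Amb
open Cfsg.Agent.PLocal (maxEA)
open Cfsg.Agent.PLocal.CP (IsCharP)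
open scoped Cfsg.Agent.PLocal.CP Cfsg.Agent.PLocal.JC

universe u

variable {G : Type u} [Group G] [Finite G] {p a b : ℕ}

theorem Base.shp_solv (h : Base G p a b) {Y : Type*} [Group Y] [Finite Y] (h1 : Nat.card Y ∣ Nat.card G)
    (hH : ¬ p ∣ Nat.card Y) : Group.IsSolvable Y := by
  rw [h.card, mul_assoc] at h1
  obtain ⟨u, v, hu, hv, e⟩ := exists_dvd_and_dvd_of_dvd_mul
    ((h.pp.coprime_iff_not_dvd.2 hH).symm.dvd_of_dvd_mul_left h1)
  obtain ⟨β, -, rfl⟩ := (Nat.dvd_prime_pow Nat.prime_three).1 hu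
  obtain ⟨α, -, rfl⟩ := (Nat.dvd_prime_pow Nat.prime_two).1 hv
  exact S0144.result 3 2 β α Nat.prime_three Nat.prime_two e

theorem shp_mem {X : Type*} [Group X] [Finite X] (hp : p.Prime) (nsq : ¬ p ^ 2 ∣ Nat.card X)
    {N : Subgroup X} [N.Normal] (h : p ∣ Nat.card N) {x : X} (ox : orderOf x = p) : x ∈ N :=
  Grp.le_normal_of_coprime_card_index (H := zpowers x) (by
    rw [Nat.card_zpowers, ox, hp.coprime_iff_not_dvd]
    exact fun e => nsq (by rw [← N.card_mul_index, sq]; exact mul_dvd_mul h e)) (mem_zpowers x)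

theorem shp_psolv {X : Type*} [Group X] [Finite X] {q : ℕ} (hq : q.Prime) (h : IsPGroup q X) :
    Group.IsSolvable X :=
  haveI := Fact.mk hq
  haveI := h.isNilpotent
  inferInstance

theorem Base.shp_X (h : Base G p a b) {X : Type u} [Group X] [Finite X] (dv : Nat.card X ∣ Nat.card G)
    (o2 : pCore 2 X = ⊥) (rk : ∀ E : Subgroup X, IsElementaryAbelian 3 E → Nat.card E ≤ 9)
    (ih : ∀ L : Subgroup X, IsSimpleGroup L → ¬ IsMulCommutative L → Ord L) {x : X} (ox : orderOf x = p)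
    (cx : centralizer {x} ≤ zpowers x) {e : ℕ} (he : Nat.card 𝐍[zpowers x] = p * e) (ep : e ∣ p - 1) :
    (Nat.card X = p * e ∧ Group.IsSolvable X) ∨
      (p = 7 ∧ 3 ∣ e ∧ (Nat.card X = 56 * e ∨ Nat.card X = 2016 * e)) ∨
      (p = 7 ∧ 2 ∣ e ∧ Nat.card X = 252 * e ∧
        (e = 2 → ∀ T : Subgroup X, IsSyl 2 T ⊤ → 7 ∣ Nat.card 𝐍[T])) ∨
      (p = 13 ∧ 3 ∣ e) ∨ (p = 17 ∧ Nat.card X = 306 * e) := by
  have pp := h.pp
  haveI := Fact.mk pp
  have nsq : ¬ p ^ 2 ∣ Nat.card X := fun r => h.nsq (r.trans dv)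
  have x1 : x ≠ 1 := fun r => pp.one_lt.ne (by rw [← ox, r, orderOf_one])
  have p3 : p ≠ 3 := by rcases h.p3 with rfl | rfl | rfl <;> omega
  have cP : Nat.card (zpowers x) = p := by rw [Nat.card_zpowers, ox]
  have pP : IsPGroup p (zpowers x) := IsPGroup.of_card (n := 1) (by rw [cP, pow_one])
  have o3 : pCore 3 X = ⊥ := by
    have k : MulAut.conjNormal (H := pCore 3 X) x = 1 := by
      refine orderOf_eq_one_iff.1 (((Nat.dvd_prime pp).1 (ox ▸ orderOf_map_dvd _ x)).resolve_right fun r => ?_)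
      have := (S0640.result (by norm_num) (isPGroup_pCore' 3 X) (fun A hA hA' => by
        rw [← card_map_of_injective (pCore 3 X).subtype_injective]
        exact rk _ (PLocal.isEA_map ⟨hA, hA'⟩ _)) p pp p3 (r ▸ orderOf_dvd_natCard _)).2
      rcases h.p3 with rfl | rfl | rfl <;> omega
    rw [← Grp.inf_eq_bot_of_isPGroup_of_coprime (isPGroup_pCore' 3 X) (K := zpowers x)
      (by rw [cP]; exact (Nat.coprime_primes pp Nat.prime_three).2 p3), left_eq_inf]
    exact fun y hy => cx (mem_centralizer_singleton_iff.2 (mul_inv_eq_iff_eq_mul.1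
      ((MulAut.conjNormal_apply x ⟨y, hy⟩).symm.trans (congrArg Subtype.val (DFunLike.congr_fun k _)))).symm)
  haveI : Nontrivial X := ⟨x, 1, x1⟩
  obtain ⟨L, nL, L1, mL⟩ := Grp.exists_minNormal X
  by_cases sL : Group.IsSolvable L
  · obtain ⟨-, r, hr, k⟩ := Grp.minNormal_elementaryAbelian L L1 mL
    have hL := Grp.isPGroup_of_pow_eq_one k
    haveI := Fact.mk hr
    obtain ⟨n, n0, hn⟩ := hL.nontrivial_iff_card.1 ((nontrivial_iff_ne_bot L).2 L1)
    have rL : r ∣ Nat.card L := hn ▸ dvd_pow_self r n0.ne'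
    rcases h.primes hr (rL.trans ((card_subgroup_dvd_card L).trans dv)) with rfl | rfl | rfl
    · exact absurd (eq_bot_iff.2 ((le_pCore' hL).trans o2.le)) L1
    · exact absurd (eq_bot_iff.2 ((le_pCore' hL).trans o3.le)) L1
    have cL : n = 1 := by_contra fun k => nsq ((pow_dvd_pow r (by omega)).trans
      (hn ▸ card_subgroup_dvd_card L))
    rw [PLocal.eq_of_le_of_card_le (zpowers_le.2 (shp_mem pp nsq rL ox)) (by rw [hn, cL, cP, pow_one]),
      normalizer_eq_top, card_top] at he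
    haveI := h.shp_solv ((card_quotient_dvd_card L).trans dv) fun k => nsq (by
      rw [card_eq_card_quotient_mul_card_subgroup L, sq]; exact mul_dvd_mul k rL)
    exact .inl ⟨he, solvable_of_ker_le_range L.subtype (QuotientGroup.mk' L) (by simp)⟩
  have dL := (card_subgroup_dvd_card L).trans dv
  have xL : ∀ y, orderOf y = p → y ∈ L := fun y =>
    shp_mem pp nsq (by_contra fun k => sL (h.shp_solv dL k))
  haveI := (nontrivial_iff_ne_bot L).2 L1
  haveI sp : IsSimpleGroup L := ⟨fun K nK => or_iff_not_imp_left.2 fun K1 => by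
    obtain ⟨M, nM, M1, MK, mM⟩ := Grp.exists_minNormal_le K K1
    have pK : p ∣ Nat.card K := (by_contra fun k => by
      haveI := h.shp_solv ((card_subgroup_dvd_card M).trans dL) k
      obtain ⟨-, r, hr, k⟩ := Grp.minNormal_elementaryAbelian M M1 mM
      rcases mL _ (Grp.normal_map_subtype_of_characteristic L (pCore r L)) (map_subtype_le _) with e | e
      · exact M1 (eq_bot_iff.2 ((le_pCore' (Grp.isPGroup_of_pow_eq_one k)).trans
          ((map_eq_bot_iff_of_injective _ L.subtype_injective).1 e).le))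
      · exact sL (shp_psolv hr ((isPGroup_pCoreOf r L).to_le e.ge)) : p ∣ Nat.card M).trans (card_dvd_of_le MK)
    have e := (mL (normalClosure {x}) inferInstance (normalClosure_le_normal (by
      simpa using xL x ox))).resolve_left fun r => x1 (r.le (subset_normalClosure rfl))
    have le : normalClosure {x} ≤ K.map L.subtype := (closure_le _).2 fun y hy => by
      obtain ⟨_, rfl, c⟩ := Group.mem_conjugatesOfSet_iff.1 hy
      obtain ⟨g, rfl⟩ := isConj_iff.1 c
      have o := (orderOf_conj' g _).trans ox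
      exact ⟨⟨_, xL _ o⟩, shp_mem pp (fun r => nsq (r.trans (card_subgroup_dvd_card L))) pK
        ((orderOf_coe _).symm.trans o), rfl⟩
    refine eq_top_iff.2 fun y _ => ?_
    obtain ⟨z, hz, r⟩ := le (e.ge y.2)
    exact (Subtype.ext r : z = y) ▸ hz⟩
  have PL := zpowers_le.2 (xL x ox)
  have sy : IsSyl p (zpowers x) L := isSyl_of_not_dvd_relIndex pP PL fun r => nsq (.trans (by
    rw [← Grp.card_mul_relIndex PL, cP, sq]; exact mul_dvd_mul_left p r) (card_subgroup_dvd_card L))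
  have c1 := PLocal.card_sup_mul_card_inf (A := 𝐍[zpowers x]) (B := L) le_normalizer_of_normal
  have := sy.frattini_sup le_top le_normalizer_of_normal
  rw [top_inf_eq, sup_comm] at this
  obtain ⟨S, hS⟩ := sy.exists_sylow
  have c2 := Small.card_sylow_mul_card_normalizer S
  have c3 := card_sylow_modEq_one p L
  obtain ⟨f, c4⟩ := card_dvd_of_le (le_inf le_normalizer PL)
  have c5 := card_dvd_of_le (inf_le_left : 𝐍[zpowers x] ⊓ L ≤ _)
  rw [hS, ← subgroupOf_normalizer_eq PL, Grp.card_subgroupOf, c4, cP] at c2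
  rw [this, card_top, he, c4, cP, mul_left_comm, mul_assoc, Nat.mul_right_inj pp.ne_zero] at c1
  rw [he, c4, cP, Nat.mul_dvd_mul_iff_left pp.pos] at c5
  have c6 := c5.trans ep
  have c7 := Nat.le_of_dvd (by have := pp.one_lt; omega) c6
  have o := ih L sp fun r => sL (isSolvable_of_comm r.is_comm.comm)
  rw [Nat.ModEq, mul_left_comm] at *
  generalize Nat.card (Sylow p L) = n at c2 c3
  rcases o with o | o | o | o | ⟨o, o'⟩ <;> rw [o] at c1 c2 <;> rcases h.p3 with rfl | rfl | rfl <;>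
    (try omega) <;> interval_cases f <;> (try omega)
  refine .inr (.inr (.inl ⟨rfl, c5, by omega, fun e2 T hT => ?_⟩))
  obtain rfl : L = ⊤ := eq_top_of_card_eq _ (by omega)
  obtain ⟨S, hS⟩ := hT.exists_sylow
  have := o' S
  rw [hS, ← subgroupOf_normalizer_eq le_top, Grp.card_subgroupOf, inf_top_eq] at this
  exact this

theorem Loc.shape (h : Loc G p a b) {H : Subgroup G} (hH : Tl H) {g : G} (hg : g ∈ H)
    (og : orderOf g = p) :
    ∃ e, Nat.card ↥(H ⊓ 𝐍[zpowers g]) = p * e ∧ e ∣ p - 1 ∧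
      ((𝐐[H].relIndex H = p * e ∧ Group.IsSolvable H) ∨
        (p = 7 ∧ 3 ∣ e ∧ (𝐐[H].relIndex H = 56 * e ∨ 𝐐[H].relIndex H = 2016 * e)) ∨
        (p = 7 ∧ 2 ∣ e ∧ 𝐐[H].relIndex H = 252 * e ∧
          (e = 2 → ∀ T, IsSyl 2 T H → 7 ∣ Nat.card ↥(H ⊓ 𝐍[T]))) ∨
        (p = 13 ∧ 3 ∣ e) ∨ (p = 17 ∧ 𝐐[H].relIndex H = 306 * e)) := by
  have pp := h.pp
  haveI := Fact.mk pp
  have PH := zpowers_le.2 hg
  have PN := le_inf PH (le_normalizer (H := zpowers g))
  have cP : Nat.card (zpowers g) = p := by rw [Nat.card_zpowers, og]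
  have pP : IsPGroup p (zpowers g) := IsPGroup.of_card (n := 1) (by rw [cP, pow_one])
  have nQ := h.not_dvd_two (isPGroup_pCoreOf 2 H)
  have he := (Grp.card_mul_relIndex PN).symm
  have ep : (zpowers g).relIndex (H ⊓ 𝐍[zpowers g]) ∣ p - 1 := by
    have := Small.relIndex_centralizer_dvd_card_mulAut (zpowers g)
    rw [centralizer_zpowers, h.cent g og, IsCyclic.card_mulAut, cP, Nat.totient_prime pp] at this
    exact (Dvd.intro _ (relIndex_mul_relIndex _ _ _ PN inf_le_right)).trans this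
  rw [cP] at he
  refine ⟨_, he, ep, ?_⟩
  have cp : (Nat.card (pCore 2 H)).Coprime p := by
    rw [← card_map_of_injective H.subtype_injective]; exact (pp.coprime_iff_not_dvd.2 nQ).symm
  have eP : zpowers (prj H ⟨g, hg⟩) = img H (zpowers g) := by
    rw [← MonoidHom.map_zpowers]
    exact congrArg _ (map_injective H.subtype_injective (by
      rw [MonoidHom.map_zpowers, map_subgroupOf_of_le PH]; rfl))
  have cI : ∀ D ≤ H ⊓ 𝐍[zpowers g], Nat.card (img H D) = Nat.card D := fun D hD => by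
    rw [card_img (hD.trans inf_le_left), ← Grp.card_inf_mul_relIndex' 𝐐[H] D,
      (card_eq_one (H := 𝐐[H] ⊓ D)).2 (eq_bot_iff.2 fun r hr => (h.inf_cent og nQ).le ⟨hr.1, ?_⟩), one_mul]
    have := (Grp.inf_eq_bot_of_isPGroup_of_coprime pP (pp.coprime_iff_not_dvd.2 nQ).symm).le
      (mem_inf.2 ⟨mul_mem (conj_mem_of_mem_normalizer (hD hr.2).2 (mem_zpowers g)) (inv_mem (mem_zpowers g)), by
        simpa only [mul_assoc] using mul_mem (mem_inf.1 hr).1 (conj_mem_of_mem_normalizer
          (le_normalizer_pCoreOf 2 H hg) (inv_mem (mem_inf.1 hr).1))⟩ : r * g * r⁻¹ * g⁻¹ ∈ zpowers g ⊓ 𝐐[H])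
    exact mem_centralizer_singleton_iff.2 (mul_inv_eq_iff_eq_mul.1 (mul_inv_eq_one.1 this))
  have cX : Nat.card (H ⧸ pCore 2 H) = 𝐐[H].relIndex H := by
    rw [← card_img le_rfl, img, subgroupOf_self, map_top_of_surjective _ (prj_surj H), card_top]
  have dX := (card_quotient_dvd_card (pCore 2 H)).trans (card_subgroup_dvd_card H)
  have pP' := isPGroup_subgroupOf pP H
  rw [← cX]
  refine (h.shp_X dX (Grp.pCore_quotient_pCore 2 H) (fun E => h.rank_bar hH.ne) (fun L sL nL =>
    h.ih L nL ((card_subgroup_dvd_card L).trans dX) ((card_le_card_group L).trans_lt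
      ((Grp.card_quotient_lt _ fun r => hH.ne (pCoreOf_eq_bot_iff.2 r)).trans_le (card_le_card_group H))))
    (x := prj H ⟨g, hg⟩) (by rw [← Nat.card_zpowers, eP, cI _ PN, cP]) ?_ ?_ ep).imp
    (And.imp_right fun r => ?_) (Or.imp_right (Or.imp_left (And.imp_right (And.imp_right
      (And.imp_right fun r e T hT => ?_)))))
  · rw [← centralizer_zpowers, eP, img, Transfer.centralizer_map_mk'_of_coprime _ cp pP']
    refine map_mono fun y hy => (h.cent g og).le (mem_centralizer_singleton_iff.2 ?_)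
    exact (congrArg Subtype.val (hy ⟨g, hg⟩ (mem_zpowers g))).symm
  · rw [eP, img, Transfer.normalizer_map_mk'_of_coprime _ cp pP', ← subgroupOf_normalizer_eq PH,
      ← inf_subgroupOf_left, cI _ le_rfl, he]
  · haveI := r
    haveI := shp_psolv Nat.prime_two (isPGroup_pCore' 2 H)
    exact solvable_of_ker_le_range (pCore 2 H).subtype (prj H) (by simp)
  · obtain ⟨S, hS⟩ := hT.exists_sylow
    have := (isSyl_top S).map (prj H)
    rw [hS, map_top_of_surjective _ (prj_surj H)] at this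
    refine (r e _ this).trans (((dvd_mul_right _ _).trans (card_prm _).symm.dvd).trans
      (card_dvd_of_le (le_inf (map_subtype_le _) ?_)))
    rintro _ ⟨y, hy, rfl⟩
    exact mem_normalizer_of_cj_le (cj_le_iff_forall.2 fun t ht => (prm_img hT.pCoreOf_le hT.le).le
      ⟨y * ⟨t, hT.le ht⟩ * y⁻¹, conj_mem_of_mem_normalizer (g := prj H y) (x := prj H ⟨t, hT.le ht⟩) hy
        ⟨_, ht, rfl⟩, rfl⟩)

end Cfsg.Agent.W3
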