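import Cfsg.Agent.W3.Prod
import Cfsg.Agent.S0028

/-!
No element of odd order centralizes an elementary abelian group of order 8; the bound `2 ^ 20`.
-/

set_option autoImplicit false
set_option linter.unusedSectionVars false
set_option linter.style.haveILetI false

namespace Cfsg.Agent.W3

open Cfsg Subgroup Cfsg.Agent.PLocal.Amb
open Cfsg.Agent.PLocal (maxEA)
open Cfsg.Agent.PLocal.CP (IsCharP)
open scoped Cfsg.Agent.PLocal.CP Cfsg.Agent.PLocal.JC

universe u

variable {G : Type u} [Group G] [Finite G] {p a b : ℕ}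

/-- An involution `t` normalizing a 3-group `X` without elementary abelian subgroup of order 27 and
centralizing `E ≤ X` elementary of order 9 centralizes `X`: every element of order 3 of `C_X(E)`
lies in `E` (else `E ⊔ ⟨x⟩` is elementary of order 27), so `t` centralizes `C_X(E)` by
`Grp.CritExp.mem_centralizer_of_fix`, and then `X` by the `P × Q` lemma `S0028`. -/
theorem cent_of_nine {X E : Subgroup G} {t : G} (hX : IsPGroup 3 X)
    (hr : ∀ E : Subgroup G, E ≤ X → IsElementaryAbelian 3 E → Nat.card E ≤ 9)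
    (hE : IsElementaryAbelian 3 E) (h9 : 9 ≤ Nat.card E) (hEX : E ≤ X) (ht : t * t = 1)
    (hn : t ∈ 𝐍[X]) (hc : t ∈ 𝐂[E]) : t ∈ 𝐂[X] := by
  have o2 : (orderOf t).Coprime 3 := Nat.Coprime.coprime_dvd_left
    (orderOf_dvd_of_pow_eq_one (n := 2) (by rw [sq, ht])) (by norm_num)
  have h1 : t ∈ 𝐂[X ⊓ 𝐂[E]] := Grp.CritExp.mem_centralizer_of_fix (hX.to_le inf_le_left)
    (zpowers_le.1 (le_normalizer_inf (zpowers_le.2 hn) (zpowers_le.2
      (normalizer_le_normalizer_centralizer E (centralizer_le_normalizer _ hc))))) o2 fun x hx x3 => by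
      have h2 := hr _ (sup_le (zpowers_le.2 hx.1) hEX) (PLocal.isEA_sup (PLocal.isEA_zpowers x3) hE
        (zpowers_le.2 hx.2))
      exact hc x ((eq_of_le_of_card_ge le_sup_right (h2.trans h9)).ge (mem_sup_left (mem_zpowers x)))
  refine zpowers_le.1 (S0028.result 3 E (zpowers t) X (hX.to_le hEX) (by rwa [Nat.card_zpowers]) hX
    (le_centralizer_iff.1 (zpowers_le.2 hc)) (hEX.trans le_normalizer) (zpowers_le.2 hn)
    (le_centralizer_iff.1 (zpowers_le.2 h1)))

/-- Pass to a subgroup `U` of order 4. Let `1 ≠ e ∈ E`, `X₀ = O₃(C(e))` (`C(e)` has characteristic 3,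
`Loc.charP_cent3`), `X = X₀ E`, normalized by `U`. For `1 ≠ u ∈ U`, `C_X(u)` contains `E` and has rank
`≤ 2` (`Loc.rank_cent`), so `U` centralizes it (`cent_of_nine`). By `S0058` `U` centralizes `X`, so
`U ≤ C(e) ⊓ C(X₀) ≤ X₀`, absurd. -/
theorem Loc.no_four_nine (h : Loc G p a b) {U E : Subgroup G} (hU : IsElementaryAbelian 2 U)
    (h4 : 4 ≤ Nat.card U) (hE : IsElementaryAbelian 3 E) (h9 : 9 ≤ Nat.card E) (hc : U ≤ 𝐂[E]) :
    False := by
  obtain ⟨e, he, e1⟩ := PLocal.Sig.exists_ne_one_of_le_card (p := 3) (B := E) (by omega)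
  have pE : IsPGroup 3 E := isPGroup_iff.2 fun x hx => ⟨1, hE.2 x hx⟩
  have ch := h.charP_cent3 e1 (pE.to_le (zpowers_le.2 he))
  have Ec := PLocal.Sig.ea_le_cent1 hE he
  have Uc : U ≤ centralizer {e} := fun u hu => mem_centralizer_singleton_iff.2 (hc hu e he).symm
  have pX := isPGroup_sup pE (isPGroup_pCoreOf 3 (centralizer {e}))
    (Ec.trans (le_normalizer_pCoreOf 3 _))
  have nX : U ≤ 𝐍[E ⊔ pCoreOf 3 (centralizer {e})] := le_normalizer_sup
    (hc.trans (centralizer_le_normalizer _)) (Uc.trans (le_normalizer_pCoreOf 3 _))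
  have h1 : E ⊔ pCoreOf 3 (centralizer {e}) ≤ 𝐂[U] := PLocal.Sig.le_of_cent1_le hU h4 nX
    (PLocal.Sig.not_dvd_of_isPGroup (by norm_num) pX) fun u hu u1 => le_centralizer_iff.1
      fun t ht => cent_of_nine (pX.to_le inf_le_left)
        (fun F hF => h.rank_cent u1 (by rw [← sq, hU.2 u hu]) (hF.trans inf_le_right)) hE h9
        (le_inf le_sup_left fun x hx => mem_centralizer_singleton_iff.2 (hc hu x hx))
        (by rw [← sq, hU.2 t ht]) (le_normalizer_inf nX (PLocal.Sig.ea_norm_cent1 hU hu) ht) (hc ht)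
  obtain ⟨u, hu, u1⟩ := PLocal.Sig.exists_ne_one_of_le_card (p := 2) (B := U) (by omega)
  exact u1 (ch.eq_one (Uc hu) (by rw [PLocal.Sig.ea_orderOf hU hu u1]; norm_num)
    (le_centralizer_iff.1 (le_sup_right.trans h1) hu))

/-- Replace `w` by a power of prime order, `3` or `p`; `p` is impossible by `Base.eq_one`. Suppose
`|A| ≥ 8`, `X = O₃(C(w))`. For a four-group `B ≤ A`, an element `x` of order 3 of `C_X(B)` commutes with
`w ∈ C_X(B)`, so lies in `⟨w⟩` by `no_four_nine`; hence `A` centralizes `C_X(B)`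
(`mem_centralizer_of_fix`). By `S0058` twice (`X = ⨆ C_X(u)` over a four-group `U ≤ A`; for `1 ≠ u`
a four-group `U' ≤ A` with `u ∉ U'` acts on `C_X(u) = ⨆ C_X(u, u')`) `A` centralizes `X`, so `A ≤ X`. -/
theorem Loc.le_four (h : Loc G p a b) {A : Subgroup G} {w : G} (hA : IsElementaryAbelian 2 A)
    (h1 : w ≠ 1) (ho : Odd (orderOf w)) (hc : A ≤ centralizer ({w} : Set G)) : Nat.card A ≤ 4 := by
  obtain ⟨r, hr, hd⟩ := Nat.exists_prime_and_dvd (n := orderOf w) (by simpa using h1)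
  have e := orderOf_pow_orderOf_div (orderOf_pos w).ne' hd
  have hc' : A ≤ centralizer {w ^ (orderOf w / r)} := fun x hx => mem_centralizer_singleton_iff.2
    (Commute.pow_right (mem_centralizer_singleton_iff.1 (hc hx)) _)
  generalize w ^ (orderOf w / r) = v at e hc'
  have pA : IsPGroup 2 A := isPGroup_iff.2 fun x hx => ⟨1, hA.2 x hx⟩
  rcases h.primes hr (hd.trans (orderOf_dvd_natCard w)) with rfl | rfl | rfl
  · exact absurd (even_iff_two_dvd.2 hd) (Nat.not_even_iff_odd.2 ho)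
  swap
  · rw [← inf_eq_left.2 hc', h.inf_cent e (h.not_dvd_two pA), card_bot]; omega
  by_contra! h8
  obtain ⟨k, hk⟩ := IsPGroup.iff_card.1 pA
  have h8' : 2 ^ (2 + 1) ≤ Nat.card A := by
    rw [hk] at h8 ⊢
    exact Nat.pow_le_pow_right (by norm_num) ((Nat.pow_lt_pow_iff_right (a := 2) (n := 2)
      (by norm_num)).1 h8)
  have v3 : v ^ 3 = 1 := e ▸ pow_orderOf_eq_one v
  have v1 : v ≠ 1 := fun k => by rw [k, orderOf_one] at e; omega
  have ch := h.charP_cent3 v1 (isPGroup_zpowers ⟨1, v3⟩)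
  have pX := isPGroup_pCoreOf 3 (centralizer ({v} : Set G))
  have nX := hc'.trans (le_normalizer_pCoreOf 3 _)
  have h1 : pCoreOf 3 (centralizer {v}) ≤ 𝐂[A] := PLocal.Sig.le_of_hyp_le hA
    (PLocal.Sig.ne_bot_of_pow_le h8') nX (PLocal.Sig.not_dvd_of_isPGroup (by norm_num) pX)
    fun B hB => le_centralizer_iff.1 fun t ht => Grp.CritExp.mem_centralizer_of_fix
      (pX.to_le inf_le_left) (le_normalizer_inf nX (PLocal.Sig.ea_norm_cent hA hB.1) ht)
      (Nat.Coprime.coprime_dvd_left (orderOf_dvd_of_pow_eq_one (hA.2 t ht)) (by norm_num))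
      fun x hx x3 => by
        by_contra k
        have xv : x ∉ zpowers v := fun m => k (le_centralizer_iff.1 (hc'.trans
          (centralizer_zpowers v).ge) m t ht).symm
        have c : zpowers x ≤ 𝐂[zpowers v] :=
          zpowers_le.2 ((centralizer_zpowers v).ge (pCoreOf_le 3 _ hx.1))
        have ea := PLocal.isEA_sup (PLocal.isEA_zpowers (p := 3) x3) (PLocal.isEA_zpowers v3) c
        refine h.no_four_nine (PLocal.isEA_mono hA hB.1) (hB.pow_le h8') ea ?_ (le_centralizer_iff.1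
          (sup_le (zpowers_le.2 hx.2) (le_centralizer_iff.1
            ((hB.1.trans hc').trans (centralizer_zpowers v).ge))))
        have h3 := Grp.card_sup_mul_card_inf_of_le_normalizer (c.trans (centralizer_le_normalizer _))
        have ox := PLocal.Sig.ea_card_zpowers ea (mem_sup_left (mem_zpowers x))
          fun e => xv (e ▸ one_mem _)
        rw [PLocal.inf_eq_bot_of_not_le_of_card_prime ox fun e => xv (e (mem_zpowers x)), card_bot,
          ox, Nat.card_zpowers, e] at h3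
        omega
  obtain ⟨u, hu, u1⟩ := PLocal.Sig.exists_ne_one_of_le_card (p := 2) (B := A) (by omega)
  exact u1 (ch.eq_one (hc' hu) (by rw [PLocal.Sig.ea_orderOf hA hu u1]; norm_num)
    (le_centralizer_iff.1 h1 hu))

/-- by `le_four` (Cauchy) -/
theorem Loc.star (h : Loc G p a b) {A : Subgroup G} (hA : IsElementaryAbelian 2 A)
    (h8 : 8 ≤ Nat.card A) : IsPGroup 2 𝐂[A] := by
  refine isPGroup_of_forall_coprime fun g hg ho => by_contra fun g1 => ?_
  have := h.le_four hA g1 (Nat.coprime_two_right.1 ho) fun x hx =>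
    mem_centralizer_singleton_iff.2 (hg x hx)
  omega

/-- `N = N(⟨e⟩)` has characteristic 3, `X = O₃(N)`, `K ≤ X` from `Grp.CritExp.exists_char_amb`
(exponent 3, normalized by `N`, `3'`-elements of `N` centralizing `K` centralize `X`, so are trivial).
For `1 ≠ u ∈ U`, `|C_K(u)| ≤ 27` (`card_le_27`, `Loc.rank_cent`), so `|K| ≤ 27 ^ 3`
(`card_le_pow_four`) and `card_le_of_faithful` applies. -/
theorem Loc.bound (h : Loc G p a b) {e : G} (he : orderOf e = 3) {U D : Subgroup G}
    (hU : IsElementaryAbelian 2 U) (h4 : Nat.card U = 4) (hn : U ≤ 𝐍[zpowers e])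
    (hD : IsPGroup 2 D) (hDn : D ≤ 𝐍[zpowers e]) : Nat.card D ≤ 2 ^ 20 := by
  have ch := h.c3 (zpowers e) (isPGroup_zpowers ⟨1, by rw [pow_one, ← he, pow_orderOf_eq_one]⟩)
    (by rw [Ne, zpowers_eq_bot]; rintro rfl; simp at he)
  have pX := isPGroup_pCoreOf 3 𝐍[zpowers e]
  obtain ⟨K, k1, k2, k3, -, k4⟩ := Grp.CritExp.exists_char_amb pX
  have nX := le_normalizer_pCoreOf 3 𝐍[zpowers e]
  refine (card_le_of_faithful hD (pX.to_le k1) ((hDn.trans nX).trans k2) (eq_bot_iff.2 fun d hd => ?_)).1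
    (card_le_pow_four (n := 27) hU h4 (pX.to_le k1) ((hn.trans nX).trans k2) fun u hu u1 =>
      (card_le_27 (fun x hx => k3 x (mem_inf.1 hx).1) fun F hF =>
        h.rank_cent u1 (by rw [← sq, hU.2 u hu]) (hF.trans inf_le_right)).1)
  obtain ⟨n, hn⟩ := isPGroup_iff.1 hD d hd.1
  have o := (Nat.Coprime.pow_left n (by norm_num : Nat.Coprime 2 3)).coprime_dvd_left
    (orderOf_dvd_of_pow_eq_one hn)
  exact ch.eq_one (hDn hd.1) o (k4 d (nX (hDn hd.1)) o hd.2)

end Cfsg.Agent.W3
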